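import Mathlib
import Cfsg.Agent.H93.AOrbDefs

/-!
# S4068 (helper93's project): common lemmas on groups all of whose non-identity elements have
prime order (helper39)
-/

set_option autoImplicit false

namespace Cfsg.Agent.H39.AO

open Cfsg.Agent.H93.AOrb

universe u

/-- If every non-identity element has prime order, centralisers of non-identity elements are
`p`-groups, hence nilpotent. -/
theorem epo_cn {K : Type u} [Group K] [Finite K] (h : Epo K) : Cfsg.IsCNGroup K := by
  intro g hg
  have hp := h g hg
  haveI := Fact.mk hp
  have hpg : IsPGroup (orderOf g) ↥(Subgroup.centralizer ({g} : Set K)) := by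
    intro x
    by_cases hx : (x : K) = 1
    · refine ⟨0, ?_⟩
      apply Subtype.ext
      simp [hx]
    · have hq := h (x : K) hx
      have hxg : (x : K) * g = g * x := by
        have := x.2
        rw [Subgroup.mem_centralizer_singleton_iff] at this
        exact this
      have hcomm : Commute g (x : K) := hxg.symm
      by_cases hpq : orderOf (x : K) = orderOf g
      · refine ⟨1, ?_⟩
        apply Subtype.ext
        rw [pow_one, Subgroup.coe_pow, Subgroup.coe_one, ← hpq]
        exact pow_orderOf_eq_one _
      · exfalso
        have hcop : Nat.Coprime (orderOf g) (orderOf (x : K)) :=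
          (Nat.coprime_primes hp hq).2 (Ne.symm hpq)
        have hord := hcomm.orderOf_mul_eq_mul_orderOf_of_coprime hcop
        have hgx : g * (x : K) ≠ 1 := by
          intro h1
          rw [h1, orderOf_one] at hord
          have h2 := hp.two_le
          have h3 := hq.two_le
          nlinarith
        have hprime := h _ hgx
        rw [hord] at hprime
        exact Nat.not_prime_mul hp.ne_one hq.ne_one hprime
  exact hpg.isNilpotent

/-- The property passes to subgroups. -/
theorem epo_subgroup {G : Type u} [Group G] (h : Epo G) (K : Subgroup G) : Epo ↥K := by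
  intro k hk
  have hk' : (k : G) ≠ 1 := fun h' => hk (Subtype.ext h')
  rw [← Subgroup.orderOf_coe]
  exact h _ hk'

/-- The property passes to quotients. -/
theorem epo_quot {G : Type u} [Group G] (h : Epo G) (N : Subgroup G) [N.Normal] :
    Epo (G ⧸ N) := by
  intro q hq
  obtain ⟨g, rfl⟩ := QuotientGroup.mk_surjective q
  have hg1 : g ≠ 1 := by
    rintro rfl
    exact hq rfl
  have hp := h g hg1
  have hdvd : orderOf (g : G ⧸ N) ∣ orderOf g :=
    orderOf_dvd_of_pow_eq_one (by rw [← QuotientGroup.mk_pow, pow_orderOf_eq_one]; rfl)
  rcases (Nat.dvd_prime hp).1 hdvd with h1 | h1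
  · exact absurd (orderOf_eq_one_iff.1 h1) hq
  · rw [h1]; exact hp

end Cfsg.Agent.H39.AO
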