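import Mathlib
import Cfsg.Agent.H93.AOrbDefs
import Cfsg.Agent.H39.AOCommon

/-!
# AO-CYC (helper39, for helper93's S4068): cyclic Sylow 2-subgroups
-/

set_option autoImplicit false

namespace Cfsg.Agent.H39.AO

open Cfsg.Agent.H93.AOrb

universe u

theorem cyc : StCyc.{u} := by
  intro G _ _ hE hCN hcyc
  by_cases h2 : 2 ∣ Nat.card G
  · have hmin : (Nat.card G).minFac = 2 := (Nat.minFac_eq_two_iff _).2 h2
    have P : Sylow 2 G := default
    have hP : IsCyclic ↥P := hcyc P
    have hNC := hP.normalizer_le_centralizer hmin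
    have hcompl := IsCyclic.isComplement' hmin hP
    have hKodd : Odd (Nat.card ↥(MonoidHom.transferSylow P hNC).ker) := by
      rw [← hcompl.index_eq_card, ← Nat.not_even_iff_odd, even_iff_two_dvd]
      exact P.not_dvd_index
    haveI : Group.IsSolvable ↥(MonoidHom.transferSylow P hNC).ker :=
      hCN _ hKodd (epo_cn (epo_subgroup hE _))
    haveI : Group.IsNilpotent ↥(P : Subgroup G) := P.isPGroup'.isNilpotent
    exact solvable_of_ker_le_range (MonoidHom.transferSylow P hNC).ker.subtype
      (MonoidHom.transferSylow P hNC) (by simp)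
  · have hodd : Odd (Nat.card G) := by
      rw [← Nat.not_even_iff_odd, even_iff_two_dvd]
      exact h2
    exact hCN G hodd (epo_cn hE)

example : StCyc.{u} := cyc

end Cfsg.Agent.H39.AO
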