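import Mathlib
import Cfsg.Agent.H93.AOrbDefs
import Cfsg.Agent.H39.AOCommon

/-!
# AO-NORM (helper39, for helper93's S4068): a normal Sylow 2-subgroup
-/

set_option autoImplicit false

namespace Cfsg.Agent.H39.AO

open Cfsg.Agent.H93.AOrb

universe u

theorem norm : StNorm.{u} := by
  intro G _ _ hE hCN hnorm
  have P : Sylow 2 G := default
  haveI : (P : Subgroup G).Normal := hnorm P
  have hodd : Odd (Nat.card (G ⧸ (P : Subgroup G))) := by
    have h := P.not_dvd_index
    rw [← Nat.not_even_iff_odd, even_iff_two_dvd]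
    exact h
  haveI : Group.IsSolvable (G ⧸ (P : Subgroup G)) :=
    hCN (G ⧸ (P : Subgroup G)) hodd (epo_cn (epo_quot hE (P : Subgroup G)))
  haveI : Group.IsNilpotent ↥(P : Subgroup G) := P.isPGroup'.isNilpotent
  exact solvable_of_ker_le_range (P : Subgroup G).subtype (QuotientGroup.mk' (P : Subgroup G))
    (by simp)

example : StNorm.{u} := norm

end Cfsg.Agent.H39.AO
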