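import Mathlib
import Cfsg.Agent.H93.AOrbDefs
import Cfsg.Agent.H4.PaQb

/-!
# AO-THREEPRIMES (helper39, for helper93's S4068): the order of a non-solvable group has at
least three prime divisors
-/

set_option autoImplicit false

namespace Cfsg.Agent.H39.AO

open Cfsg.Agent.H93.AOrb

universe u

theorem threePrimes : StThreePrimes.{u} := by
  intro G _ _ hns
  have hn : Nat.card G ≠ 0 := Nat.card_pos.ne'
  have hn1 : Nat.card G ≠ 1 := by
    intro h1
    apply hns
    exact Cfsg.Agent.H4.isSolvable_of_card_eq_prime_pow_mul_prime_pow 2 2 0 0 Nat.prime_two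
      Nat.prime_two (by rw [h1]; norm_num)
  obtain ⟨p, hp, hpn⟩ := Nat.exists_prime_and_dvd hn1
  obtain ⟨a, m, hpm, hnm⟩ := Nat.exists_eq_pow_mul_and_not_dvd hn p hp.ne_one
  have hm0 : m ≠ 0 := by
    rintro rfl
    rw [mul_zero] at hnm
    exact hn hnm
  have hm1 : m ≠ 1 := by
    rintro rfl
    apply hns
    exact Cfsg.Agent.H4.isSolvable_of_card_eq_prime_pow_mul_prime_pow p p a 0 hp hp
      (by rw [hnm]; norm_num)
  obtain ⟨q, hq, hqm⟩ := Nat.exists_prime_and_dvd hm1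
  obtain ⟨b, m', hqm', hmm'⟩ := Nat.exists_eq_pow_mul_and_not_dvd hm0 q hq.ne_one
  have hm'1 : m' ≠ 1 := by
    rintro rfl
    apply hns
    exact Cfsg.Agent.H4.isSolvable_of_card_eq_prime_pow_mul_prime_pow p q a b hp hq
      (by rw [hnm, hmm']; ring)
  obtain ⟨r, hr, hrm'⟩ := Nat.exists_prime_and_dvd hm'1
  have hm'm : m' ∣ m := ⟨q ^ b, by rw [hmm']; ring⟩
  have hmn : m ∣ Nat.card G := ⟨p ^ a, by rw [hnm]; ring⟩
  refine ⟨p, q, r, hp, hq, hr, ?_, ?_, ?_, hpn, hqm.trans hmn, (hrm'.trans hm'm).trans hmn⟩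
  · rintro rfl; exact hpm hqm
  · rintro rfl; exact hpm (hrm'.trans hm'm)
  · rintro rfl; exact hqm' hrm'

example : StThreePrimes.{u} := threePrimes

end Cfsg.Agent.H39.AO
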