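import Cfsg.Agent.H28.SolvBalance
import Cfsg.Agent.H28.PConstrained
import Cfsg.Agent.H37.Balance

/-!
# Balance for `p`-constrained centralizers (helper39)

Variants of `H28.le_pPrimeCore_of_solvable` and `H28.centralizerPPrimeCore_inf_le` with
solvability replaced by `p`-constraint (proofs adapted from helper28's `SolvBalance`).
-/

set_option autoImplicit false

namespace Cfsg.Agent.H39

open Cfsg
open Cfsg.Agent.H28

universe u

variable {G : Type u} [Group G]

/-- In a finite `p`-constrained group `G`, a `p'`-subgroup `D` of `N_G(R)` normalized by `N_G(R)`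
(`R` a `p`-subgroup) lies in `O_{p'}(G)`. -/
theorem le_pPrimeCore_of_constr [Finite G] (p : ℕ) [Fact p.Prime] (hs : IsPConstrained p G)
    (R D : Subgroup G) (hR : IsPGroup p R) (hD : (Nat.card D).Coprime p)
    (hDR : D ≤ Subgroup.normalizer (R : Set G))
    (hND : Subgroup.normalizer (R : Set G) ≤ Subgroup.normalizer (D : Set G)) :
    D ≤ pPrimeCore p G := by
  have hOcop : (Nat.card (pPrimeCore p G)).Coprime p := H60.card_pPrimeCore_coprime p
  have h0 : pPrimeCore p (G ⧸ pPrimeCore p G) = ⊥ := H60.pPrimeCore_quotient_eq_bot p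
  have hDbcop : (Nat.card (D.map (QuotientGroup.mk' (pPrimeCore p G)))).Coprime p :=
    Nat.Coprime.coprime_dvd_left (Subgroup.card_map_dvd _ _) hD
  have key := pPrime_normalizer_core (G := G ⧸ pPrimeCore p G) p h0
    (R.map (QuotientGroup.mk' (pPrimeCore p G))) (D.map (QuotientGroup.mk' (pPrimeCore p G)))
    (hR.map _) hDbcop
    ((Subgroup.map_mono hDR).trans (Subgroup.le_normalizer_map _))
    (by
      intro gb hgb
      obtain ⟨g, rfl⟩ := QuotientGroup.mk'_surjective (pPrimeCore p G) gb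
      obtain ⟨n, hn, hng⟩ := H14.exists_mem_normalizer_of_mk_mem_normalizer hR hOcop g hgb
      rw [← hng]
      exact Subgroup.le_normalizer_map _ ⟨n, hND hn, rfl⟩)
  have hlayer : layer (G ⧸ pPrimeCore p G) = ⊥ := layer_eq_bot_of_isPConstrained p hs
  have hF : generalizedFittingSubgroup (G ⧸ pPrimeCore p G) ≤ pCore p (G ⧸ pPrimeCore p G) := by
    rw [genFitting_eq_fitting_of_layer_eq_bot hlayer]
    exact fitting_le_pCore_of_pPrimeCore_eq_bot p h0
  have hcent : D.map (QuotientGroup.mk' (pPrimeCore p G)) ≤ pCore p (G ⧸ pPrimeCore p G) := by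
    refine le_trans ?_ hF
    refine le_trans ?_ centralizer_genFitting_le
    exact key.1.trans (Subgroup.centralizer_le (SetLike.coe_subset_coe.mpr hF))
  intro d hd
  have h1 : QuotientGroup.mk' (pPrimeCore p G) d ∈ pCore p (G ⧸ pPrimeCore p G) :=
    hcent ⟨d, hd, rfl⟩
  obtain ⟨k, hk⟩ := (H60.isPGroup_pCore p) ⟨_, h1⟩
  have hk' : (QuotientGroup.mk' (pPrimeCore p G) d) ^ p ^ k = 1 := by
    simpa using congrArg Subtype.val hk
  have h2 := eq_one_of_pow_of_coprime hDbcop
    (⟨d, hd, rfl⟩ : QuotientGroup.mk' (pPrimeCore p G) d ∈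
      D.map (QuotientGroup.mk' (pPrimeCore p G))) hk'
  rwa [QuotientGroup.mk'_apply, QuotientGroup.eq_one_iff] at h2

/-- Balance for `p`-constrained centralizers, one direction. -/
theorem cpc_inf_le_of_constr [Finite G] (p : ℕ) [Fact p.Prime] (x y : G)
    (hy : orderOf y = p) (hxy : x * y = y * x)
    (hCx : IsPConstrained p ↥(Subgroup.centralizer ({x} : Set G))) :
    centralizerPPrimeCore p y ⊓ Subgroup.centralizer {x} ≤ centralizerPPrimeCore p x := by
  set Cx := Subgroup.centralizer ({x} : Set G) with hCxdef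
  set Cy := Subgroup.centralizer ({y} : Set G) with hCydef
  have hyCx : y ∈ Cx := by
    rw [hCxdef, Subgroup.mem_centralizer_singleton_iff]; exact hxy.symm
  have hOy : centralizerPPrimeCore p y ≤ Cy := by
    rintro _ ⟨z, -, rfl⟩; exact z.2
  set D₀ := centralizerPPrimeCore p y ⊓ Cx with hD₀
  have hD₀le : D₀ ≤ Cx := inf_le_right
  have hRp : IsPGroup p (Subgroup.zpowers (⟨y, hyCx⟩ : Cx)) := by
    apply IsPGroup.of_card (n := 1)
    rw [Nat.card_zpowers, Subgroup.orderOf_mk, hy, pow_one]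
  have hDcop : (Nat.card (D₀.subgroupOf Cx)).Coprime p := by
    rw [Nat.card_congr (Subgroup.subgroupOfEquivOfLe hD₀le).toEquiv]
    have h1 : Nat.card D₀ ∣ Nat.card (centralizerPPrimeCore p y) :=
      Subgroup.card_dvd_of_le inf_le_left
    have h2 : Nat.card (centralizerPPrimeCore p y) = Nat.card (pPrimeCore p ↥Cy) :=
      (Nat.card_congr ((pPrimeCore p ↥Cy).equivMapOfInjective
        Cy.subtype Cy.subtype_injective).toEquiv).symm
    rw [h2] at h1
    exact Nat.Coprime.coprime_dvd_left h1 (H60.card_pPrimeCore_coprime p)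
  have hDR : D₀.subgroupOf Cx ≤
      Subgroup.normalizer ((Subgroup.zpowers (⟨y, hyCx⟩ : Cx) : Subgroup Cx) : Set Cx) := by
    intro d hd
    have hdy : (d : G) * y = y * d :=
      Subgroup.mem_centralizer_singleton_iff.mp (hOy (Subgroup.mem_subgroupOf.mp hd).1)
    apply Subgroup.centralizer_le_normalizer
    rw [Subgroup.mem_centralizer_iff]
    intro r hr
    obtain ⟨n, rfl⟩ := Subgroup.mem_zpowers_iff.mp hr
    have hc : Commute (⟨y, hyCx⟩ : Cx) d := Subtype.ext hdy.symm
    exact (hc.zpow_left n).eq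
  have hND : Subgroup.normalizer ((Subgroup.zpowers (⟨y, hyCx⟩ : Cx) : Subgroup Cx) : Set Cx) ≤
      Subgroup.normalizer ((D₀.subgroupOf Cx : Subgroup Cx) : Set Cx) := by
    intro n hn
    have hconj : ∀ m : Cx, m ∈ Subgroup.normalizer
        ((Subgroup.zpowers (⟨y, hyCx⟩ : Cx) : Subgroup Cx) : Set Cx) →
        (m : G)⁻¹ * y * m ∈ Subgroup.zpowers y := by
      intro m hm
      have h1 := (Subgroup.mem_normalizer_iff.mp (Subgroup.inv_mem _ hm) ⟨y, hyCx⟩).mp
        (Subgroup.mem_zpowers _)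
      obtain ⟨j, hj⟩ := Subgroup.mem_zpowers_iff.mp h1
      refine Subgroup.mem_zpowers_iff.mpr ⟨j, ?_⟩
      have h2 := congrArg Subtype.val hj
      simpa using h2
    have hnCy : (n : G) ∈ Subgroup.normalizer (Cy : Set G) := by
      rw [Subgroup.mem_normalizer_iff]
      intro c
      constructor
      · intro hc
        rw [hCydef, Subgroup.mem_centralizer_singleton_iff] at hc ⊢
        exact conj_comm_of_conj_mem_zpowers (n : G) y c (hconj n hn) hc
      · intro hc
        rw [hCydef, Subgroup.mem_centralizer_singleton_iff] at hc ⊢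
        have h1 := conj_comm_of_conj_mem_zpowers (n : G)⁻¹ y _
          (by simpa using hconj n⁻¹ (Subgroup.inv_mem _ hn)) hc
        have h2 : (n : G)⁻¹ * ((n : G) * c * (n : G)⁻¹) * ((n : G)⁻¹)⁻¹ = c := by group
        rwa [h2] at h1
    have hnO : (n : G) ∈ Subgroup.normalizer (centralizerPPrimeCore p y : Set G) :=
      H27.normalizer_le_normalizer_radIn (H27.isoInv_coprime p) Cy hnCy
    have hnCx : (n : G) ∈ Subgroup.normalizer (Cx : Set G) := Subgroup.le_normalizer n.2
    have hnD₀ : (n : G) ∈ Subgroup.normalizer (D₀ : Set G) :=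
      normalizer_inf_le_normalizer_inf _ _ ⟨hnO, hnCx⟩
    rw [Subgroup.mem_normalizer_iff] at hnD₀ ⊢
    intro h
    rw [Subgroup.mem_subgroupOf, Subgroup.mem_subgroupOf]
    exact hnD₀ h
  have key := le_pPrimeCore_of_constr p hCx _ (D₀.subgroupOf Cx) hRp hDcop hDR hND
  intro d hd
  exact ⟨⟨d, hD₀le hd⟩, key (Subgroup.mem_subgroupOf.mpr hd), rfl⟩


end Cfsg.Agent.H39
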