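import Cfsg.Agent.H39.C2Sig
import Cfsg.Agent.H39.Basic
import Cfsg.Agent.H28.Char2Type
import Cfsg.Agent.H58.PGroup

/-!
# Groups of characteristic `2` type: all `2`-locals have characteristic `2` (helper39)

Hypotheses: a Sylow `2`-subgroup `S` has a self-centralizing normal subgroup `A` of rank at least
`3`, `S` normalizes no nontrivial subgroup of odd order, and all `2`-locals are `2`-constrained.
Then `O(C_G(t)) = 1` for every involution `t`, and every `2`-local has characteristic `2`.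
-/

set_option autoImplicit false

namespace Cfsg.Agent.H39

open Cfsg

universe u

variable {G : Type u} [Group G]

/-- For an involution `t`, `N_G(⟨t⟩) = C_G(t)`. -/
theorem normalizer_zpowers_eq_centralizer {t : G} (ht : orderOf t = 2) :
    Subgroup.normalizer ((Subgroup.zpowers t : Subgroup G) : Set G) =
      Subgroup.centralizer ({t} : Set G) := by
  have ht1 : t ≠ 1 := by
    rintro rfl
    rw [orderOf_one] at ht
    omega
  apply le_antisymm
  · intro g hg
    have h1 : g * t * g⁻¹ ∈ Subgroup.zpowers t :=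
      (Subgroup.mem_normalizer_iff.mp hg t).mp (Subgroup.mem_zpowers t)
    have h2 : g * t * g⁻¹ = 1 ∨ g * t * g⁻¹ = t := by
      obtain ⟨k, hk⟩ := Subgroup.mem_zpowers_iff.mp h1
      rw [← hk]
      have h0 : t ^ k = t ^ (k % (orderOf t : ℤ)) := (zpow_mod_orderOf t k).symm
      rw [h0, ht]
      have h3 : k % ((2 : ℕ) : ℤ) = 0 ∨ k % ((2 : ℕ) : ℤ) = 1 := by omega
      rcases h3 with h3 | h3
      · left; rw [h3, zpow_zero]
      · right; rw [h3, zpow_one]
    rcases h2 with h2 | h2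
    · exfalso
      apply ht1
      calc t = g⁻¹ * (g * t * g⁻¹) * g := by group
        _ = 1 := by rw [h2]; group
    · rw [Subgroup.mem_centralizer_singleton_iff]
      calc g * t = (g * t * g⁻¹) * g := by group
        _ = t * g := by rw [h2]
  · rw [← H28.C2T.centralizer_zpowers_eq t]
    exact Subgroup.centralizer_le_normalizer _

/-- An involution normalizing an elementary abelian `2`-group `F` with more than four elements
centralizes an element of `F` outside `{1, z}`. -/
theorem exists_fixed_ne [Finite G] (F : Subgroup G)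
    (comm : ∀ a ∈ F, ∀ b ∈ F, a * b = b * a) (sq : ∀ a ∈ F, a * a = 1)
    (h8 : 4 < Nat.card F) {z : G} (hz : z ∈ F) (hz1 : z ≠ 1) {t : G} (htt : t * t = 1)
    (hFt : ∀ a ∈ F, t * a * t⁻¹ ∈ F) :
    ∃ b ∈ F, b ≠ 1 ∧ b ≠ z ∧ t * b * t⁻¹ = b := by
  by_contra hcon
  push Not at hcon
  have hfix : ∀ b ∈ F, t * b * t⁻¹ = b → b = 1 ∨ b = z := by
    intro b hb h
    by_contra h'
    push Not at h'
    exact hcon b hb h'.1 h'.2 h
  have hψfix : ∀ a ∈ F, t * (a * (t * a * t⁻¹)) * t⁻¹ = a * (t * a * t⁻¹) := by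
    intro a ha
    calc t * (a * (t * a * t⁻¹)) * t⁻¹ = (t * a * t⁻¹) * ((t * t) * a * (t * t)⁻¹) := by group
      _ = (t * a * t⁻¹) * a := by rw [htt]; group
      _ = a * (t * a * t⁻¹) := comm _ (hFt a ha) a ha
  have hψ : ∀ a ∈ F, a ≠ 1 → a ≠ z → a * (t * a * t⁻¹) = z := by
    intro a ha ha1 haz
    rcases hfix _ (F.mul_mem ha (hFt a ha)) (hψfix a ha) with h | h
    · exfalso
      have h1 : t * a * t⁻¹ = a := by
        have h2 : t * a * t⁻¹ = a⁻¹ := eq_inv_of_mul_eq_one_right h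
        rw [h2]
        exact inv_eq_of_mul_eq_one_left (sq a ha)
      exact hcon a ha ha1 haz h1
    · exact h
  obtain ⟨a, ha, ha1, haz, -, -⟩ := exists_mem_ne_four F h8 1 z 1 z
  obtain ⟨b, hb, hb1, hbz, hba, hbza⟩ := exists_mem_ne_four F h8 1 z a (z * a)
  have hab : a * b ∈ F := F.mul_mem ha hb
  have hab1 : a * b ≠ 1 := by
    intro h0
    apply hba
    calc b = (a * a) * b := by rw [sq a ha, one_mul]
      _ = a * (a * b) := by group
      _ = a := by rw [h0, mul_one]
  have habz : a * b ≠ z := by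
    intro h0
    apply hbza
    calc b = (a * a) * b := by rw [sq a ha, one_mul]
      _ = a * (a * b) := by group
      _ = a * z := by rw [h0]
      _ = z * a := comm a ha z hz
  have h1 := hψ a ha ha1 haz
  have h2 := hψ b hb hb1 hbz
  have h3 := hψ (a * b) hab hab1 habz
  have h4 : a * b * (t * (a * b) * t⁻¹) = (a * (t * a * t⁻¹)) * (b * (t * b * t⁻¹)) := by
    have hc : b * (t * a * t⁻¹) = (t * a * t⁻¹) * b := comm b hb _ (hFt a ha)
    calc a * b * (t * (a * b) * t⁻¹) = a * (b * (t * a * t⁻¹)) * (t * b * t⁻¹) := by group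
      _ = a * ((t * a * t⁻¹) * b) * (t * b * t⁻¹) := by rw [hc]
      _ = (a * (t * a * t⁻¹)) * (b * (t * b * t⁻¹)) := by group
  rw [h4, h1, h2, sq z hz] at h3
  exact hz1 h3.symm

/-- An involution `c` commuting with the involution `t`, with `C_G(c)` `2`-constrained and
`O(C_G(c)) = 1`, inverts `O(C_G(t))`. -/
theorem inv_of_theta_bot [Finite G] {c t : G} (hcc : c * c = 1) (hct : c * t = t * c)
    (ht : orderOf t = 2)
    (hC : IsPConstrained 2 ↥(Subgroup.centralizer ({c} : Set G)))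
    (hθ : centralizerPPrimeCore 2 c = ⊥) :
    ∀ x ∈ centralizerPPrimeCore 2 t, c * x * c⁻¹ = x⁻¹ := by
  haveI : Fact (Nat.Prime 2) := ⟨Nat.prime_two⟩
  apply Cfsg.Agent.H60.fpf_inv (centralizerPPrimeCore 2 t) c hcc
  · intro k hk
    refine H37.conj_mem_centralizerPPrimeCore 2 ?_ hk
    rw [Subgroup.mem_centralizer_singleton_iff]; exact hct
  · intro k hk hck
    have hkc : k ∈ Subgroup.centralizer ({c} : Set G) := by
      rw [Subgroup.mem_centralizer_singleton_iff]
      calc k * c = (c * k * c⁻¹) * c := by rw [hck]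
        _ = c * k := by group
    have := cpc_inf_le_of_constr 2 c t ht hct hC (Subgroup.mem_inf.mpr ⟨hk, hkc⟩)
    rw [hθ] at this
    exact Subgroup.mem_bot.mp this

/-- Three involutions `z`, `b`, `z b` with trivial cores commuting with `t` force
`O(C_G(t)) = 1`. -/
theorem theta_eq_bot_of_three [Finite G] {z b t : G} (hzz : z * z = 1) (hbb : b * b = 1)
    (hzb : z * b = b * z) (hzt : z * t = t * z) (hbt : b * t = t * b) (ht : orderOf t = 2)
    (hCz : IsPConstrained 2 ↥(Subgroup.centralizer ({z} : Set G)))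
    (hCb : IsPConstrained 2 ↥(Subgroup.centralizer ({b} : Set G)))
    (hCzb : IsPConstrained 2 ↥(Subgroup.centralizer ({z * b} : Set G)))
    (hθz : centralizerPPrimeCore 2 z = ⊥) (hθb : centralizerPPrimeCore 2 b = ⊥)
    (hθzb : centralizerPPrimeCore 2 (z * b) = ⊥) : centralizerPPrimeCore 2 t = ⊥ := by
  rw [eq_bot_iff]
  intro x hx
  rw [Subgroup.mem_bot]
  have i1 := inv_of_theta_bot hzz hzt ht hCz hθz
  have i2 := inv_of_theta_bot hbb hbt ht hCb hθb
  have hzbzb : (z * b) * (z * b) = 1 := by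
    calc (z * b) * (z * b) = z * (b * z) * b := by group
      _ = z * (z * b) * b := by rw [hzb]
      _ = (z * z) * (b * b) := by group
      _ = 1 := by rw [hzz, hbb, one_mul]
  have hzbt : (z * b) * t = t * (z * b) :=
    ((show Commute z t from hzt).mul_left (show Commute b t from hbt)).eq
  have i3 := inv_of_theta_bot hzbzb hzbt ht hCzb hθzb
  have hx' : x⁻¹ ∈ centralizerPPrimeCore 2 t := Subgroup.inv_mem _ hx
  have e1 : (z * b) * x * (z * b)⁻¹ = x := by
    calc (z * b) * x * (z * b)⁻¹ = z * (b * x * b⁻¹) * z⁻¹ := by group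
      _ = z * x⁻¹ * z⁻¹ := by rw [i2 x hx]
      _ = x := by rw [i1 x⁻¹ hx', inv_inv]
  have e2 := i3 x hx
  rw [e1] at e2
  have e3 : x * x = 1 := by
    calc x * x = x * x⁻¹ := by rw [← e2]
      _ = 1 := mul_inv_cancel x
  exact SigData.no_inv t x hx e3

section main

variable [Finite G]

/-- `O(C_G(t)) = 1` for every involution `t`. -/
theorem theta_invol_eq_bot (S : Sylow 2 G) (A : Subgroup G) (hA : IsSCN (S : Subgroup G) A)
    (hA3 : ¬ PRankLE 2 2 ↥A)
    (hinv : ∀ X : Subgroup G, Odd (Nat.card ↥X) →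
      (S : Subgroup G) ≤ Subgroup.normalizer (X : Set G) → X = ⊥)
    (hconC : ∀ t : G, orderOf t = 2 →
      IsPConstrained 2 ↥(Subgroup.centralizer ({t} : Set G))) :
    ∀ t : G, orderOf t = 2 → centralizerPPrimeCore 2 t = ⊥ := by
  classical
  haveI : Fact (Nat.Prime 2) := ⟨Nat.prime_two⟩
  have hAc : ∀ a ∈ A, ∀ b ∈ A, a * b = b * a := by
    intro a ha b hb
    have h1 : a ∈ (S : Subgroup G) ⊓ Subgroup.centralizer (A : Set G) := by rw [hA.2.2]; exact ha
    exact (Subgroup.mem_centralizer_iff.mp (Subgroup.mem_inf.mp h1).2 b hb).symm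
  let F : Subgroup G :=
    { carrier := {a | a ∈ A ∧ a * a = 1}
      mul_mem' := by
        rintro a b ⟨ha, haa⟩ ⟨hb, hbb⟩
        refine ⟨A.mul_mem ha hb, ?_⟩
        calc a * b * (a * b) = a * (b * a) * b := by group
          _ = a * (a * b) * b := by rw [hAc b hb a ha]
          _ = (a * a) * (b * b) := by group
          _ = 1 := by rw [haa, hbb, one_mul]
      one_mem' := ⟨A.one_mem, one_mul 1⟩
      inv_mem' := by
        rintro a ⟨ha, haa⟩
        refine ⟨A.inv_mem ha, ?_⟩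
        calc a⁻¹ * a⁻¹ = (a * a)⁻¹ := by group
          _ = 1 := by rw [haa, inv_one] }
  have hFmem : ∀ a, a ∈ F ↔ a ∈ A ∧ a * a = 1 := fun a => Iff.rfl
  have hFS : F ≤ (S : Subgroup G) := fun a ha => hA.1 ((hFmem a).mp ha).1
  have hconj : ∀ s ∈ (S : Subgroup G), ∀ a ∈ F, s * a * s⁻¹ ∈ F := by
    intro s hs a ha
    obtain ⟨haA, haa⟩ := (hFmem a).mp ha
    refine (hFmem _).mpr ⟨(Subgroup.mem_normalizer_iff.mp (hA.2.1 hs) a).mp haA, ?_⟩
    calc s * a * s⁻¹ * (s * a * s⁻¹) = s * (a * a) * s⁻¹ := by group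
      _ = 1 := by rw [haa]; group
  have hSF : (S : Subgroup G) ≤ Subgroup.normalizer (F : Set G) :=
    Cfsg.Agent.H54.le_normalizer_of_conj_mem hconj
  have hsq : ∀ a ∈ F, a * a = 1 := fun a ha => ((hFmem a).mp ha).2
  have hcomm : ∀ a ∈ F, ∀ b ∈ F, a * b = b * a := fun a ha b hb =>
    hAc a ((hFmem a).mp ha).1 b ((hFmem b).mp hb).1
  have h8 : 4 < Nat.card F := by
    obtain ⟨B, hBA, -, hBe, hBcard⟩ := (H28.not_pRankLE_subgroup_iff 2 2 A).1 hA3
    have hBF : B ≤ F := by
      intro b hb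
      refine (hFmem b).mpr ⟨hBA hb, ?_⟩
      have := hBe b hb
      rwa [pow_two] at this
    have := Subgroup.card_le_of_le hBF
    norm_num at hBcard
    omega
  -- a central involution `z ∈ F`
  obtain ⟨a₀, ha₀, ha₀1, -⟩ := exists_mem_ne_four F h8 1 1 1 1
  haveI hFn : (F.subgroupOf (S : Subgroup G)).Normal :=
    (Subgroup.normal_subgroupOf_iff_le_normalizer hFS).mpr hSF
  have hFne : F.subgroupOf (S : Subgroup G) ≠ ⊥ := by
    intro h0
    have h1 : (⟨a₀, hFS ha₀⟩ : ↥(S : Subgroup G)) ∈ F.subgroupOf (S : Subgroup G) :=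
      Subgroup.mem_subgroupOf.mpr ha₀
    rw [h0, Subgroup.mem_bot] at h1
    exact ha₀1 (congrArg Subtype.val h1)
  obtain ⟨z', hz'F, hz'1, hz'c⟩ := Cfsg.Agent.H58.exists_central_of_normal (p := 2)
    S.isPGroup' (F.subgroupOf (S : Subgroup G)) hFne
  have hzF : (z' : G) ∈ F := Subgroup.mem_subgroupOf.mp hz'F
  have hz1 : (z' : G) ≠ 1 := fun h => hz'1 (Subtype.ext h)
  have hzc : ∀ s ∈ (S : Subgroup G), s * (z' : G) = (z' : G) * s := by
    intro s hs
    exact congrArg Subtype.val (hz'c ⟨s, hs⟩)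
  have hord : ∀ e ∈ F, e ≠ 1 → orderOf e = 2 := by
    intro e he he1
    exact orderOf_eq_prime (by rw [pow_two]; exact hsq e he) he1
  have hθz : centralizerPPrimeCore 2 (z' : G) = ⊥ := by
    apply hinv
    · exact Nat.coprime_two_right.mp (H37.card_centralizerPPrimeCore_coprime 2 (z' : G))
    · apply Cfsg.Agent.H54.le_normalizer_of_conj_mem
      intro s hs x hx
      refine H37.conj_mem_centralizerPPrimeCore 2 ?_ hx
      rw [Subgroup.mem_centralizer_singleton_iff]; exact hzc s hs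
  have hsig : SigData F (z' : G) :=
    { comm := hcomm
      sq := hsq
      hz := hzF
      hz1 := hz1
      hθz := hθz
      bal := by
        intro e he he1 f hf hf1
        exact cpc_inf_le_of_constr 2 f e (hord e he he1) (hcomm f hf e he)
          (hconC f (hord f hf hf1)) }
  have hFθ : ∀ e ∈ F, e ≠ 1 → centralizerPPrimeCore 2 e = ⊥ := fun e he he1 =>
    hsig.theta_eq_bot h8 (S : Subgroup G) hSF hinv he he1
  intro t ht
  have ht1 : t ≠ 1 := by
    rintro rfl
    rw [orderOf_one] at ht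
    omega
  have hZp : IsPGroup 2 (Subgroup.zpowers t) := by
    apply IsPGroup.of_card (n := 1)
    rw [Nat.card_zpowers, ht, pow_one]
  obtain ⟨g, hg⟩ := exists_conj_mem_sylow S hZp
  have htS : g * t * g⁻¹ ∈ (S : Subgroup G) := hg t (Subgroup.mem_zpowers t)
  have hto : orderOf (g * t * g⁻¹) = 2 := by
    rw [← ht, ← MulAut.conj_apply]
    exact MulEquiv.orderOf_eq _ _
  have htt : (g * t * g⁻¹) * (g * t * g⁻¹) = 1 := by
    have := pow_orderOf_eq_one (g * t * g⁻¹)
    rwa [hto, pow_two] at this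
  obtain ⟨b, hbF, hb1, hbz, hbt⟩ := exists_fixed_ne F hcomm hsq h8 hzF hz1 htt
    (fun a ha => hconj _ htS a ha)
  have hzb : (z' : G) * b ∈ F := F.mul_mem hzF hbF
  have hzb1 : (z' : G) * b ≠ 1 := by
    intro h0
    apply hbz
    calc b = ((z' : G) * (z' : G)) * b := by rw [hsq _ hzF, one_mul]
      _ = (z' : G) * ((z' : G) * b) := by group
      _ = (z' : G) := by rw [h0, mul_one]
  have hbt' : b * (g * t * g⁻¹) = (g * t * g⁻¹) * b := by
    calc b * (g * t * g⁻¹) = ((g * t * g⁻¹) * b * (g * t * g⁻¹)⁻¹) * (g * t * g⁻¹) := by rw [hbt]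
      _ = (g * t * g⁻¹) * b := by group
  have hθt' : centralizerPPrimeCore 2 (g * t * g⁻¹) = ⊥ :=
    theta_eq_bot_of_three (hsq _ hzF) (hsq b hbF) (hcomm _ hzF b hbF) (hzc _ htS).symm hbt' hto
      (hconC _ (hord _ hzF hz1)) (hconC b (hord b hbF hb1)) (hconC _ (hord _ hzb hzb1))
      hθz (hFθ b hbF hb1) (hFθ _ hzb hzb1)
  rw [eq_bot_iff]
  intro y hy
  have h1 := conj_mem_cpc 2 g t y hy
  rw [hθt', Subgroup.mem_bot] at h1
  rw [Subgroup.mem_bot]
  calc y = g⁻¹ * (g * y * g⁻¹) * g := by group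
    _ = 1 := by rw [h1]; group

/-- Under the hypotheses of characteristic `2` type, every `2`-local has characteristic `2`. -/
theorem charP_two_local (S : Sylow 2 G) (A : Subgroup G) (hA : IsSCN (S : Subgroup G) A)
    (hA3 : ¬ PRankLE 2 2 ↥A)
    (hinv : ∀ X : Subgroup G, Odd (Nat.card ↥X) →
      (S : Subgroup G) ≤ Subgroup.normalizer (X : Set G) → X = ⊥)
    (hcon : ∀ T : Subgroup G, IsPGroup 2 ↥T → T ≠ ⊥ →
      IsPConstrained 2 ↥(Subgroup.normalizer (T : Set G)))
    (T : Subgroup G) (hT : IsPGroup 2 ↥T) (hT1 : T ≠ ⊥) :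
    Cfsg.Agent.H54.CharP 2 ↥(Subgroup.normalizer (T : Set G)) := by
  haveI : Fact (Nat.Prime 2) := ⟨Nat.prime_two⟩
  have hconC : ∀ t : G, orderOf t = 2 →
      IsPConstrained 2 ↥(Subgroup.centralizer ({t} : Set G)) := by
    intro t ht
    have ht1 : t ≠ 1 := by
      rintro rfl
      rw [orderOf_one] at ht
      omega
    have hZp : IsPGroup 2 (Subgroup.zpowers t) := by
      apply IsPGroup.of_card (n := 1)
      rw [Nat.card_zpowers, ht, pow_one]
    have hZ1 : Subgroup.zpowers t ≠ ⊥ := Subgroup.zpowers_ne_bot.2 ht1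
    have h1 := hcon (Subgroup.zpowers t) hZp hZ1
    rw [normalizer_zpowers_eq_centralizer ht] at h1
    exact h1
  have hθ := theta_invol_eq_bot S A hA hA3 hinv hconC
  have H0 : ∀ t : G, orderOf t = 2 →
      Cfsg.Agent.H54.CharP 2 ↥(Subgroup.centralizer ({t} : Set G)) := by
    intro t ht
    apply H28.C2T.charP_of_isPConstrained 2 (hconC t ht)
    have h1 := hθ t ht
    unfold centralizerPPrimeCore at h1
    exact (Subgroup.map_eq_bot_iff_of_injective _ (Subgroup.subtype_injective _)).mp h1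
  obtain ⟨t, htT, ht2, htc⟩ := H28.exists_central_involution' T hT hT1
  exact Cfsg.Agent.H54.charP_normalizer_of_centralizer_elt T hT t htT htc (H0 t ht2)

end main

end Cfsg.Agent.H39
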