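import Cfsg.Agent.H39.C2Bal
import Cfsg.Agent.H60.V4Gen
import Cfsg.Agent.H54.CharP2

/-!
# Abelian signalizers on an elementary abelian `2`-group of rank at least `3` (helper39)

Let `F` be an elementary abelian `2`-subgroup with more than four elements, `θ e = O(C_G(e))`,
balanced on `F`, and suppose `θ z = 1` for some `z ∈ F#`.  Then `z` inverts every `θ e`, the
`θ e` commute pairwise, and the subgroup they generate has odd order.  If a Sylow `2`-subgroup
normalizing `F` normalizes no nontrivial subgroup of odd order, every `θ e` is trivial.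
-/

set_option autoImplicit false

namespace Cfsg.Agent.H39

open Cfsg

universe u

variable {G : Type u} [Group G]

/-- A subgroup of `C_G(t)` of order prime to `p` normalized by `C_G(t)` lies in `O_{p'}(C_G(t))`. -/
theorem le_cpc_of_normal (p : ℕ) (t : G) (X : Subgroup G)
    (hXC : X ≤ Subgroup.centralizer ({t} : Set G))
    (hX : (Nat.card X).Coprime p)
    (hN : ∀ c ∈ Subgroup.centralizer ({t} : Set G), ∀ x ∈ X, c * x * c⁻¹ ∈ X) :
    X ≤ centralizerPPrimeCore p t := by
  intro x hx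
  have hn : (X.subgroupOf (Subgroup.centralizer ({t} : Set G))).Normal := by
    constructor
    intro n hn g
    rw [Subgroup.mem_subgroupOf] at hn ⊢
    have := hN g g.2 n hn
    simpa using this
  have hc : (Nat.card (X.subgroupOf (Subgroup.centralizer ({t} : Set G)))).Coprime p := by
    rw [Nat.card_congr (Subgroup.subgroupOfEquivOfLe hXC).toEquiv]; exact hX
  have hle : X.subgroupOf (Subgroup.centralizer ({t} : Set G)) ≤
      pPrimeCore p ↥(Subgroup.centralizer ({t} : Set G)) := le_sSup ⟨hn, hc⟩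
  exact ⟨⟨x, hXC hx⟩, hle (Subgroup.mem_subgroupOf.mpr hx), rfl⟩

/-- `O_{p'}(C_G(x))` is carried to `O_{p'}(C_G(x^g))` by conjugation. -/
theorem conj_mem_cpc [Finite G] (p : ℕ) (g x y : G) (hy : y ∈ centralizerPPrimeCore p x) :
    g * y * g⁻¹ ∈ centralizerPPrimeCore p (g * x * g⁻¹) := by
  set X : Subgroup G := (centralizerPPrimeCore p x).map (MulAut.conj g).toMonoidHom with hXdef
  have hmem : ∀ w, w ∈ X ↔ g⁻¹ * w * g ∈ centralizerPPrimeCore p x := by
    intro w
    rw [hXdef, Subgroup.mem_map]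
    constructor
    · rintro ⟨v, hv, rfl⟩
      simp only [MulEquiv.coe_toMonoidHom, MulAut.conj_apply]
      have : g⁻¹ * (g * v * g⁻¹) * g = v := by group
      rw [this]; exact hv
    · intro h
      refine ⟨g⁻¹ * w * g, h, ?_⟩
      simp only [MulEquiv.coe_toMonoidHom, MulAut.conj_apply]
      group
  have hle : X ≤ centralizerPPrimeCore p (g * x * g⁻¹) := by
    apply le_cpc_of_normal
    · intro w hw
      have h1 := H37.centralizerPPrimeCore_le_centralizer p x ((hmem w).mp hw)
      rw [Subgroup.mem_centralizer_singleton_iff] at h1 ⊢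
      calc w * (g * x * g⁻¹) = g * ((g⁻¹ * w * g) * x) * g⁻¹ := by group
        _ = g * (x * (g⁻¹ * w * g)) * g⁻¹ := by rw [h1]
        _ = g * x * g⁻¹ * w := by group
    · rw [hXdef, Subgroup.card_map_of_injective (MulEquiv.injective _)]
      exact H37.card_centralizerPPrimeCore_coprime p x
    · intro c hc w hw
      rw [hmem] at hw ⊢
      have hc' : g⁻¹ * c * g ∈ Subgroup.centralizer ({x} : Set G) := by
        rw [Subgroup.mem_centralizer_singleton_iff] at hc ⊢
        calc g⁻¹ * c * g * x = g⁻¹ * (c * (g * x * g⁻¹)) * g := by group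
          _ = g⁻¹ * ((g * x * g⁻¹) * c) * g := by rw [hc]
          _ = x * (g⁻¹ * c * g) := by group
      have h2 := H37.conj_mem_centralizerPPrimeCore p hc' hw
      have e : g⁻¹ * (c * w * c⁻¹) * g = (g⁻¹ * c * g) * (g⁻¹ * w * g) * (g⁻¹ * c * g)⁻¹ := by
        group
      rw [e]; exact h2
  apply hle
  rw [hmem]
  have : g⁻¹ * (g * y * g⁻¹) * g = y := by group
  rw [this]; exact hy

/-- Commutation of products. -/
theorem comm_of_decomp {x₁ x₂ w₁ w₂ : G} (h11 : x₁ * w₁ = w₁ * x₁) (h12 : x₁ * w₂ = w₂ * x₁)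
    (h21 : x₂ * w₁ = w₁ * x₂) (h22 : x₂ * w₂ = w₂ * x₂) :
    (x₁ * x₂) * (w₁ * w₂) = (w₁ * w₂) * (x₁ * x₂) := by
  calc x₁ * x₂ * (w₁ * w₂) = x₁ * (x₂ * w₁) * w₂ := by group
    _ = x₁ * (w₁ * x₂) * w₂ := by rw [h21]
    _ = (x₁ * w₁) * (x₂ * w₂) := by group
    _ = (w₁ * x₁) * (w₂ * x₂) := by rw [h11, h22]
    _ = w₁ * (x₁ * w₂) * x₂ := by group
    _ = w₁ * (w₂ * x₁) * x₂ := by rw [h12]
    _ = w₁ * w₂ * (x₁ * x₂) := by group

/-- A subgroup with more than four elements has an element outside any four given elements. -/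
theorem exists_mem_ne_four [Finite G] (F : Subgroup G) (h : 4 < Nat.card F) (a b c d : G) :
    ∃ g ∈ F, g ≠ a ∧ g ≠ b ∧ g ≠ c ∧ g ≠ d := by
  classical
  by_contra hcon
  push Not at hcon
  have hsub : (F : Set G) ⊆ ((({a, b, c, d} : Finset G) : Set G)) := by
    intro g hg
    by_cases h1 : g = a
    · simp [h1]
    by_cases h2 : g = b
    · simp [h2]
    by_cases h3 : g = c
    · simp [h3]
    have := hcon g hg h1 h2 h3
    simp [this]
  have h1 : Nat.card F ≤ Nat.card ((({a, b, c, d} : Finset G) : Set G)) :=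
    Nat.card_mono (Finset.finite_toSet _) hsub
  have h2 : Nat.card ((({a, b, c, d} : Finset G) : Set G)) = ({a, b, c, d} : Finset G).card := by
    rw [Nat.card_coe_set_eq, Set.ncard_coe_finset]
  have h3 : ({a, b, c, d} : Finset G).card ≤ 4 := Finset.card_le_four
  omega

/-- Signalizer data on an elementary abelian `2`-subgroup `F`. -/
structure SigData (F : Subgroup G) (z : G) : Prop where
  comm : ∀ a ∈ F, ∀ b ∈ F, a * b = b * a
  sq : ∀ a ∈ F, a * a = 1
  hz : z ∈ F
  hz1 : z ≠ 1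
  hθz : centralizerPPrimeCore 2 z = ⊥
  bal : ∀ e ∈ F, e ≠ 1 → ∀ f ∈ F, f ≠ 1 →
    centralizerPPrimeCore 2 e ⊓ Subgroup.centralizer ({f} : Set G) ≤ centralizerPPrimeCore 2 f

namespace SigData

variable [Finite G] {F : Subgroup G} {z : G}

theorem mem_cent (h : SigData F z) {a b : G} (ha : a ∈ F) (hb : b ∈ F) :
    a ∈ Subgroup.centralizer ({b} : Set G) := by
  rw [Subgroup.mem_centralizer_singleton_iff]
  exact h.comm a ha b hb

theorem theta_comm_base (e x : G) (hx : x ∈ centralizerPPrimeCore 2 e) : e * x = x * e := by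
  have := H37.centralizerPPrimeCore_le_centralizer 2 e hx
  rw [Subgroup.mem_centralizer_singleton_iff] at this
  exact this.symm

/-- `z` inverts `θ e`. -/
theorem inv (h : SigData F z) {e : G} (he : e ∈ F) (he1 : e ≠ 1) :
    ∀ x ∈ centralizerPPrimeCore 2 e, z * x * z⁻¹ = x⁻¹ := by
  apply Cfsg.Agent.H60.fpf_inv (centralizerPPrimeCore 2 e) z (h.sq z h.hz)
  · intro k hk
    exact H37.conj_mem_centralizerPPrimeCore 2 (h.mem_cent h.hz he) hk
  · intro k hk hzk
    have hkz : k ∈ Subgroup.centralizer ({z} : Set G) := by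
      rw [Subgroup.mem_centralizer_singleton_iff]
      calc k * z = (z * k * z⁻¹) * z := by rw [hzk]
        _ = z * k := by group
    have := h.bal e he he1 z h.hz h.hz1 ⟨hk, hkz⟩
    rw [h.hθz] at this
    exact Subgroup.mem_bot.mp this

/-- `θ e` is abelian. -/
theorem comm' (h : SigData F z) {e : G} (he : e ∈ F) (he1 : e ≠ 1) :
    ∀ a ∈ centralizerPPrimeCore 2 e, ∀ b ∈ centralizerPPrimeCore 2 e, a * b = b * a :=
  Cfsg.Agent.H60.comm_of_inv (centralizerPPrimeCore 2 e) z (h.inv he he1)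

theorem odd_order (e : G) {a : G} (ha : a ∈ centralizerPPrimeCore 2 e) : Odd (orderOf a) := by
  have h2 : orderOf a ∣ Nat.card (centralizerPPrimeCore 2 e) := by
    have := orderOf_dvd_natCard (⟨a, ha⟩ : centralizerPPrimeCore 2 e)
    rwa [Subgroup.orderOf_mk] at this
  have h3 : (orderOf a).Coprime 2 :=
    Nat.Coprime.coprime_dvd_left h2 (H37.card_centralizerPPrimeCore_coprime 2 e)
  exact Nat.coprime_two_right.mp h3

theorem no_inv (e : G) : ∀ a ∈ centralizerPPrimeCore 2 e, a * a = 1 → a = 1 := by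
  intro a ha haa
  have h1 : orderOf a ∣ 2 := orderOf_dvd_of_pow_eq_one (by rw [pow_two]; exact haa)
  have h3 : (orderOf a).Coprime 2 := Nat.coprime_two_right.mpr (odd_order e ha)
  exact orderOf_eq_one_iff.mp (Nat.Coprime.eq_one_of_dvd h3 h1)

/-- Decomposition of `θ e` under `g ∈ F`. -/
theorem decomp (h : SigData F z) {e : G} (he : e ∈ F) (he1 : e ≠ 1) {g : G} (hg : g ∈ F)
    {x : G} (hx : x ∈ centralizerPPrimeCore 2 e) :
    ∃ x₁ x₂ : G, x = x₁ * x₂ ∧ x₁ ∈ centralizerPPrimeCore 2 e ∧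
      x₂ ∈ centralizerPPrimeCore 2 e ∧ g * x₁ = x₁ * g ∧ (z * g) * x₂ = x₂ * (z * g) := by
  obtain ⟨r, hr, hrr⟩ := Cfsg.Agent.H60.exists_sq_eq (centralizerPPrimeCore 2 e)
    (h.comm' he he1) (no_inv e) x hx
  have hgg : g * g = 1 := h.sq g hg
  have hr' : g * r * g⁻¹ ∈ centralizerPPrimeCore 2 e :=
    H37.conj_mem_centralizerPPrimeCore 2 (h.mem_cent hg he) hr
  have hc : (g * r * g⁻¹) * r = r * (g * r * g⁻¹) := h.comm' he he1 _ hr' r hr
  have e1 : g * (g * r * g⁻¹) * g⁻¹ = r := by
    calc g * (g * r * g⁻¹) * g⁻¹ = (g * g) * r * (g * g)⁻¹ := by group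
      _ = r := by rw [hgg]; group
  have hc2 : (g * r * g⁻¹)⁻¹ * r = r * (g * r * g⁻¹)⁻¹ := by
    calc (g * r * g⁻¹)⁻¹ * r = (g * r * g⁻¹)⁻¹ * (r * (g * r * g⁻¹)) * (g * r * g⁻¹)⁻¹ := by group
      _ = (g * r * g⁻¹)⁻¹ * ((g * r * g⁻¹) * r) * (g * r * g⁻¹)⁻¹ := by rw [hc]
      _ = r * (g * r * g⁻¹)⁻¹ := by group
  refine ⟨r * (g * r * g⁻¹), r * (g * r * g⁻¹)⁻¹, ?_, Subgroup.mul_mem _ hr hr',
    Subgroup.mul_mem _ hr (Subgroup.inv_mem _ hr'), ?_, ?_⟩
  · rw [← hrr]
    calc r * r = r * (r * (g * r * g⁻¹)) * (g * r * g⁻¹)⁻¹ := by group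
      _ = r * ((g * r * g⁻¹) * r) * (g * r * g⁻¹)⁻¹ := by rw [hc]
      _ = r * (g * r * g⁻¹) * (r * (g * r * g⁻¹)⁻¹) := by group
  · calc g * (r * (g * r * g⁻¹)) = (g * r * g⁻¹) * (g * (g * r * g⁻¹) * g⁻¹) * g := by group
      _ = (g * r * g⁻¹) * r * g := by rw [e1]
      _ = r * (g * r * g⁻¹) * g := by rw [hc]
  · have i1 : z * (g * r * g⁻¹) * z⁻¹ = (g * r * g⁻¹)⁻¹ := h.inv he he1 _ hr'
    have i2 : z * r * z⁻¹ = r⁻¹ := h.inv he he1 r hr
    have key : (z * g) * (r * (g * r * g⁻¹)⁻¹) * (z * g)⁻¹ = r * (g * r * g⁻¹)⁻¹ := by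
      calc (z * g) * (r * (g * r * g⁻¹)⁻¹) * (z * g)⁻¹
          = (z * (g * r * g⁻¹) * z⁻¹) * (z * (g * (g * r * g⁻¹) * g⁻¹) * z⁻¹)⁻¹ := by group
        _ = (z * (g * r * g⁻¹) * z⁻¹) * (z * r * z⁻¹)⁻¹ := by rw [e1]
        _ = (g * r * g⁻¹)⁻¹ * r := by rw [i1, i2, inv_inv]
        _ = r * (g * r * g⁻¹)⁻¹ := hc2
    exact mul_inv_eq_iff_eq_mul.mp key

/-- Two elements of `θ e`, `θ f` centralized by a common `h ∈ F#` commute. -/
theorem comm_common (h : SigData F z) {e f c : G} (he : e ∈ F) (he1 : e ≠ 1) (hf : f ∈ F)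
    (hf1 : f ≠ 1) (hc : c ∈ F) (hc1 : c ≠ 1) {x w : G} (hx : x ∈ centralizerPPrimeCore 2 e)
    (hw : w ∈ centralizerPPrimeCore 2 f) (hcx : c * x = x * c) (hcw : c * w = w * c) :
    x * w = w * x := by
  have hx' : x ∈ centralizerPPrimeCore 2 c := by
    apply h.bal e he he1 c hc hc1
    refine Subgroup.mem_inf.mpr ⟨hx, ?_⟩
    rw [Subgroup.mem_centralizer_singleton_iff]; exact hcx.symm
  have hw' : w ∈ centralizerPPrimeCore 2 c := by
    apply h.bal f hf hf1 c hc hc1
    refine Subgroup.mem_inf.mpr ⟨hw, ?_⟩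
    rw [Subgroup.mem_centralizer_singleton_iff]; exact hcw.symm
  exact h.comm' hc hc1 x hx' w hw'

/-- All the `θ e` commute pairwise. -/
theorem comm_all (h : SigData F z) (h8 : 4 < Nat.card F) {e f : G} (he : e ∈ F) (he1 : e ≠ 1)
    (hf : f ∈ F) (hf1 : f ≠ 1) {x w : G} (hx : x ∈ centralizerPPrimeCore 2 e)
    (hw : w ∈ centralizerPPrimeCore 2 f) : x * w = w * x := by
  have hzz : z * z = 1 := h.sq z h.hz
  have hee : e * e = 1 := h.sq e he
  have hff : f * f = 1 := h.sq f hf
  have hex : e * x = x * e := theta_comm_base e x hx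
  have hfw : f * w = w * f := theta_comm_base f w hw
  by_cases hef : e = f
  · subst hef
    exact h.comm' he he1 x hx w hw
  by_cases hzf : f = z * e
  · -- third element
    obtain ⟨g, hg, hg1, hgz, hge, hgze⟩ := exists_mem_ne_four F h8 1 z e (z * e)
    have hgg : g * g = 1 := h.sq g hg
    obtain ⟨x₁, x₂, rfl, hx₁, hx₂, hgx₁, hzgx₂⟩ := h.decomp he he1 hg hx
    obtain ⟨w₁, w₂, rfl, hw₁, hw₂, hgw₁, hzgw₂⟩ := h.decomp hf hf1 hg hw
    have hzg : z * g ∈ F := F.mul_mem h.hz hg
    have hzg1 : z * g ≠ 1 := by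
      intro h0
      apply hgz
      calc g = (z * z) * g := by rw [hzz, one_mul]
        _ = z * (z * g) := by group
        _ = z := by rw [h0, mul_one]
    have heg : e * g ∈ F := F.mul_mem he hg
    have heg1 : e * g ≠ 1 := by
      intro h0
      apply hge
      calc g = (e * e) * g := by rw [hee, one_mul]
        _ = e * (e * g) := by group
        _ = e := by rw [h0, mul_one]
    have hezg : e * (z * g) ∈ F := F.mul_mem he hzg
    have hezg1 : e * (z * g) ≠ 1 := by
      intro h0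
      apply hgze
      have h1 : z * (e * (z * g)) = e * g := by
        calc z * (e * (z * g)) = (z * e) * z * g := by group
          _ = (e * z) * z * g := by rw [h.comm z h.hz e he]
          _ = e * (z * z) * g := by group
          _ = e * g := by rw [hzz, mul_one]
      rw [h0, mul_one] at h1
      -- h1 : z = e * g
      calc g = (e * e) * g := by rw [hee, one_mul]
        _ = e * (e * g) := by group
        _ = e * z := by rw [← h1]
        _ = z * e := h.comm e he z h.hz
    have hex₁ : e * x₁ = x₁ * e := theta_comm_base e x₁ hx₁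
    have hex₂ : e * x₂ = x₂ * e := theta_comm_base e x₂ hx₂
    have hfw₁ : f * w₁ = w₁ * f := theta_comm_base f w₁ hw₁
    have hfw₂ : f * w₂ = w₂ * f := theta_comm_base f w₂ hw₂
    apply comm_of_decomp
    · exact h.comm_common he he1 hf hf1 hg hg1 hx₁ hw₁ hgx₁ hgw₁
    · -- common element e * g = f * (z * g)
      have c1 : (e * g) * x₁ = x₁ * (e * g) :=
        ((show Commute e x₁ from hex₁).mul_left (show Commute g x₁ from hgx₁)).eq
      have hfzg : f * (z * g) = e * g := by
        rw [hzf]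
        calc z * e * (z * g) = (z * e) * z * g := by group
          _ = (e * z) * z * g := by rw [h.comm z h.hz e he]
          _ = e * (z * z) * g := by group
          _ = e * g := by rw [hzz, mul_one]
      have c2 : (e * g) * w₂ = w₂ * (e * g) := by
        rw [← hfzg]
        exact ((show Commute f w₂ from hfw₂).mul_left (show Commute (z * g) w₂ from hzgw₂)).eq
      exact h.comm_common he he1 hf hf1 heg heg1 hx₁ hw₂ c1 c2
    · -- common element e * (z * g) = f * g
      have c1 : (e * (z * g)) * x₂ = x₂ * (e * (z * g)) :=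
        ((show Commute e x₂ from hex₂).mul_left (show Commute (z * g) x₂ from hzgx₂)).eq
      have hfg : f * g = e * (z * g) := by
        rw [hzf]
        calc z * e * g = (z * e) * g := by group
          _ = (e * z) * g := by rw [h.comm z h.hz e he]
          _ = e * (z * g) := by group
      have c2 : (e * (z * g)) * w₁ = w₁ * (e * (z * g)) := by
        rw [← hfg]
        exact ((show Commute f w₁ from hfw₁).mul_left (show Commute g w₁ from hgw₁)).eq
      exact h.comm_common he he1 hf hf1 hezg hezg1 hx₂ hw₁ c1 c2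
    · exact h.comm_common he he1 hf hf1 hzg hzg1 hx₂ hw₂ hzgx₂ hzgw₂
  · -- `g = e * f`
    have hg : e * f ∈ F := F.mul_mem he hf
    have hg1 : e * f ≠ 1 := by
      intro h0
      apply hef
      calc e = e * (f * f) := by rw [hff, mul_one]
        _ = (e * f) * f := by group
        _ = f := by rw [h0, one_mul]
    have hzg : z * (e * f) ∈ F := F.mul_mem h.hz hg
    have hzg1 : z * (e * f) ≠ 1 := by
      intro h0
      apply hzf
      calc f = (z * (e * f))⁻¹ * (z * e) * (f * f) := by group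
        _ = z * e := by rw [h0, hff]; group
    obtain ⟨x₁, x₂, rfl, hx₁, hx₂, hgx₁, hzgx₂⟩ := h.decomp he he1 hg hx
    obtain ⟨w₁, w₂, rfl, hw₁, hw₂, hgw₁, hzgw₂⟩ := h.decomp hf hf1 hg hw
    have hex₁ : e * x₁ = x₁ * e := theta_comm_base e x₁ hx₁
    have hex₂ : e * x₂ = x₂ * e := theta_comm_base e x₂ hx₂
    have hfw₁ : f * w₁ = w₁ * f := theta_comm_base f w₁ hw₁
    have hfw₂ : f * w₂ = w₂ * f := theta_comm_base f w₂ hw₂
    apply comm_of_decomp
    · exact h.comm_common he he1 hf hf1 hg hg1 hx₁ hw₁ hgx₁ hgw₁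
    · -- common element `f = e * (e * f)`
      have hfe : e * (e * f) = f := by
        calc e * (e * f) = (e * e) * f := by group
          _ = f := by rw [hee, one_mul]
      have c1 : f * x₁ = x₁ * f := by
        rw [← hfe]
        exact ((show Commute e x₁ from hex₁).mul_left (show Commute (e * f) x₁ from hgx₁)).eq
      exact h.comm_common he he1 hf hf1 hf hf1 hx₁ hw₂ c1 hfw₂
    · -- common element `e = (e * f) * f`
      have hef' : (e * f) * f = e := by
        calc (e * f) * f = e * (f * f) := by group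
          _ = e := by rw [hff, mul_one]
      have c2 : e * w₁ = w₁ * e := by
        rw [← hef']
        exact ((show Commute (e * f) w₁ from hgw₁).mul_left (show Commute f w₁ from hfw₁)).eq
      exact h.comm_common he he1 hf hf1 he he1 hx₂ hw₁ hex₂ c2
    · exact h.comm_common he he1 hf hf1 hzg hzg1 hx₂ hw₂ hzgx₂ hzgw₂

/-- If a Sylow `2`-subgroup `S` normalizes `F` and normalizes no nontrivial subgroup of odd
order, every `θ e`, `e ∈ F#`, is trivial. -/
theorem theta_eq_bot (h : SigData F z) (h8 : 4 < Nat.card F) (S : Subgroup G)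
    (hSF : S ≤ Subgroup.normalizer (F : Set G))
    (hinv : ∀ X : Subgroup G, Odd (Nat.card ↥X) → S ≤ Subgroup.normalizer (X : Set G) → X = ⊥)
    {e : G} (he : e ∈ F) (he1 : e ≠ 1) : centralizerPPrimeCore 2 e = ⊥ := by
  classical
  set W : Subgroup G := ⨆ a : {a : G // a ∈ F ∧ a ≠ 1}, centralizerPPrimeCore 2 (a : G) with hW
  have hle : ∀ a : {a : G // a ∈ F ∧ a ≠ 1}, centralizerPPrimeCore 2 (a : G) ≤ W :=
    fun a => le_iSup (fun a : {a : G // a ∈ F ∧ a ≠ 1} => centralizerPPrimeCore 2 (a : G)) a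
  -- `W` is commutative
  have h1 : ∀ j : {a : G // a ∈ F ∧ a ≠ 1},
      W ≤ Subgroup.centralizer ((centralizerPPrimeCore 2 (j : G) : Subgroup G) : Set G) := by
    intro j
    apply iSup_le
    intro i x hx
    rw [Subgroup.mem_centralizer_iff]
    intro w hw
    exact (h.comm_all h8 i.2.1 i.2.2 j.2.1 j.2.2 hx hw).symm
  have h2 : W ≤ Subgroup.centralizer (W : Set G) := by
    apply iSup_le
    intro j
    exact Subgroup.le_centralizer_iff.mp (h1 j)
  have hWc : ∀ a ∈ W, ∀ b ∈ W, a * b = b * a := by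
    intro a ha b hb
    exact (Subgroup.mem_centralizer_iff.mp (h2 ha) b hb).symm
  -- every element of `W` has odd order
  have hodd : ∀ w (hw : w ∈ W), Odd (orderOf w) := by
    intro w hw
    refine Subgroup.iSup_induction' (fun a : {a : G // a ∈ F ∧ a ≠ 1} =>
      centralizerPPrimeCore 2 (a : G)) (C := fun x _ => Odd (orderOf x)) ?_ ?_ ?_ hw
    · intro i x hx
      exact odd_order (i : G) hx
    · rw [orderOf_one]; exact odd_one
    · intro x y hx hy hox hoy
      have hc : Commute x y := hWc x hx y hy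
      have hd : orderOf (x * y) ∣ orderOf x * orderOf y :=
        hc.orderOf_mul_dvd_lcm.trans (Nat.lcm_dvd_mul _ _)
      exact Odd.of_dvd_nat (hox.mul hoy) hd
  have hWodd : Odd (Nat.card W) := by
    rw [← Nat.not_even_iff_odd]
    intro hev
    have : Fact (Nat.Prime 2) := ⟨Nat.prime_two⟩
    obtain ⟨w, hw⟩ := exists_prime_orderOf_dvd_card' (G := W) 2 (even_iff_two_dvd.mp hev)
    have h3 := hodd (w : G) w.2
    rw [Subgroup.orderOf_coe, hw] at h3
    exact (Nat.not_even_iff_odd.mpr h3) even_two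
  -- `S` normalizes `W`
  have hSW : S ≤ Subgroup.normalizer (W : Set G) := by
    apply Cfsg.Agent.H54.le_normalizer_of_conj_mem
    intro s hs w hw
    refine Subgroup.iSup_induction (fun a : {a : G // a ∈ F ∧ a ≠ 1} =>
      centralizerPPrimeCore 2 (a : G)) (C := fun x => s * x * s⁻¹ ∈ W) hw ?_ ?_ ?_
    · intro i x hx
      have hi : s * (i : G) * s⁻¹ ∈ F :=
        (Subgroup.mem_normalizer_iff.mp (hSF hs) (i : G)).mp i.2.1
      have hi1 : s * (i : G) * s⁻¹ ≠ 1 := by
        intro h0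
        apply i.2.2
        calc (i : G) = s⁻¹ * (s * (i : G) * s⁻¹) * s := by group
          _ = 1 := by rw [h0]; group
      exact hle ⟨s * (i : G) * s⁻¹, hi, hi1⟩ (conj_mem_cpc 2 s (i : G) x hx)
    · have : s * 1 * s⁻¹ = 1 := by group
      rw [this]; exact W.one_mem
    · intro x y hx hy
      have : s * (x * y) * s⁻¹ = (s * x * s⁻¹) * (s * y * s⁻¹) := by group
      rw [this]; exact W.mul_mem hx hy
  have hWbot := hinv W hWodd hSW
  have := hle ⟨e, he, he1⟩
  rw [hWbot] at this
  exact le_bot_iff.mp this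

end SigData

end Cfsg.Agent.H39
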