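import Cfsg.Agent.H39.PConstr
import Cfsg.Agent.H39.Fusion3
import Cfsg.Agent.H39.Tower

set_option autoImplicit false

/-!
# Centric radical subgroups relative to a subgroup: preliminaries (helper39)
-/

namespace Cfsg.Agent.H39

open Cfsg

variable {G : Type*} [Group G]

local notation "cj(" g ", " Q ")" => Subgroup.map (MulEquiv.toMonoidHom (MulAut.conj g)) Q
local notation "N(" Q ")" => Subgroup.normalizer (SetLike.coe (Q : Subgroup _))
local notation "C(" Q ")" => Subgroup.centralizer (SetLike.coe (Q : Subgroup _))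

theorem mem_sup_left_norm {H K : Subgroup G} (h : H ≤ N(K)) {x : G} (hx : x ∈ H ⊔ K) :
    ∃ a ∈ H, ∃ b ∈ K, x = a * b := by
  have h1 := Subgroup.coe_mul_of_left_le_normalizer_right H K h
  have hx' : x ∈ ((H ⊔ K : Subgroup G) : Set G) := hx
  rw [h1] at hx'
  obtain ⟨a, ha, b, hb, rfl⟩ := hx'
  exact ⟨a, ha, b, hb, rfl⟩

theorem mem_sup_right_norm {H K : Subgroup G} (h : H ≤ N(K)) {x : G} (hx : x ∈ K ⊔ H) :
    ∃ b ∈ K, ∃ a ∈ H, x = b * a := by
  have h1 := Subgroup.coe_mul_of_right_le_normalizer_left K H h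
  have hx' : x ∈ ((K ⊔ H : Subgroup G) : Set G) := hx
  rw [h1] at hx'
  obtain ⟨b, hb, a, ha, rfl⟩ := hx'
  exact ⟨b, hb, a, ha, rfl⟩

theorem relIndex_sup_of_le_normalizer {H K : Subgroup G} (h : H ≤ N(K)) :
    K.relIndex (H ⊔ K) = K.relIndex H := by
  have hK : K ≤ N(K) := Subgroup.le_normalizer
  have hHK : H ⊔ K ≤ N(K) := sup_le h hK
  haveI : (K.subgroupOf N(K)).Normal := Subgroup.normal_in_normalizer
  rw [← Subgroup.relIndex_subgroupOf hHK, ← Subgroup.relIndex_subgroupOf h,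
    Subgroup.subgroupOf_sup h hK, Subgroup.relIndex_sup_right]

theorem card_sup_of_le_normalizer [Finite G] {H K : Subgroup G} (h : H ≤ N(K)) :
    Nat.card (H ⊔ K : Subgroup G) = Nat.card K * K.relIndex H := by
  have := Subgroup.relIndex_mul_relIndex ⊥ K (H ⊔ K) bot_le le_sup_right
  rw [Subgroup.relIndex_bot_left, Subgroup.relIndex_bot_left, relIndex_sup_of_le_normalizer h] at this
  exact this.symm

theorem card_sup_dvd' [Finite G] {H K : Subgroup G} (h : H ≤ N(K)) :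
    Nat.card (H ⊔ K : Subgroup G) ∣ Nat.card H * Nat.card K := by
  rw [card_sup_of_le_normalizer h, mul_comm]
  exact Nat.mul_dvd_mul (Subgroup.relIndex_dvd_card K H) dvd_rfl

theorem inf_eq_bot_of_coprime [Finite G] {p : ℕ} [Fact p.Prime] {S E : Subgroup G}
    (hS : IsPGroup p S) (hE : (Nat.card E).Coprime p) : S ⊓ E = ⊥ := by
  have h1 : Nat.card (S ⊓ E : Subgroup G) ∣ Nat.card S := Subgroup.card_dvd_of_le inf_le_left
  have h2 : Nat.card (S ⊓ E : Subgroup G) ∣ Nat.card E := Subgroup.card_dvd_of_le inf_le_right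
  obtain ⟨a, ha⟩ := IsPGroup.iff_card.mp hS
  rw [ha] at h1
  exact Subgroup.card_eq_one.mp (Nat.eq_one_of_dvd_coprimes (hE.pow_right a) h2 h1)

theorem conj_eq_of_coprime [Finite G] {p : ℕ} [Fact p.Prime] {S E : Subgroup G}
    (hS : IsPGroup p S) (hE : (Nat.card E).Coprime p) (hSE : S ≤ N(E)) {e x : G} (he : e ∈ E)
    (hx : x ∈ S) (h : e * x * e⁻¹ ∈ S) : e * x * e⁻¹ = x := by
  have h1 : e * x * e⁻¹ * x⁻¹ ∈ S ⊓ E := by
    refine Subgroup.mem_inf.mpr ⟨mul_mem h (inv_mem hx), ?_⟩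
    have h2 : x * e⁻¹ * x⁻¹ ∈ E := (Subgroup.mem_normalizer_iff.mp (hSE hx) _).mp (inv_mem he)
    have e1 : e * x * e⁻¹ * x⁻¹ = e * (x * e⁻¹ * x⁻¹) := by group
    rw [e1]; exact mul_mem he h2
  rw [inf_eq_bot_of_coprime hS hE, Subgroup.mem_bot] at h1
  calc e * x * e⁻¹ = (e * x * e⁻¹ * x⁻¹) * x := by group
    _ = x := by rw [h1, one_mul]

theorem sylIn_sup_of_coprime [Finite G] {p : ℕ} [Fact p.Prime] {A F : Subgroup G}
    (hA : IsPGroup p A) (hF : (Nat.card F).Coprime p) (h : A ≤ N(F)) : SylIn p A (A ⊔ F) := by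
  refine ⟨le_sup_left, hA, ?_⟩
  intro hdvd
  have h1 : Nat.card A * A.relIndex (A ⊔ F) = Nat.card (A ⊔ F : Subgroup G) := by
    have := Subgroup.relIndex_mul_relIndex ⊥ A (A ⊔ F) bot_le le_sup_left
    rwa [Subgroup.relIndex_bot_left, Subgroup.relIndex_bot_left] at this
  have h2 := card_sup_dvd' h
  rw [← h1] at h2
  have h3 : A.relIndex (A ⊔ F) ∣ Nat.card F := Nat.dvd_of_mul_dvd_mul_left Nat.card_pos h2
  have h4 : p ∣ Nat.card F := dvd_trans hdvd h3
  exact (Nat.Prime.coprime_iff_not_dvd (Fact.out : p.Prime)).mp hF.symm h4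

/-- A `p`-subgroup of `A F` (`F` a `p'`-subgroup normalized by the `p`-group `A`) is conjugate
into `A` by an element of `F`. -/
theorem coprime_conj [Finite G] {p : ℕ} [Fact p.Prime] {A F B : Subgroup G}
    (hA : IsPGroup p A) (hF : (Nat.card F).Coprime p) (h : A ≤ N(F)) (hB : IsPGroup p B)
    (hBle : B ≤ A ⊔ F) : ∃ f ∈ F, ∀ b ∈ B, f * b * f⁻¹ ∈ A := by
  have hsyl := sylIn_sup_of_coprime hA hF h
  obtain ⟨y, hy, hyB⟩ := exists_conj_mem_of_isPGroup hsyl.1 hsyl.2.1 hsyl.2.2 hBle hB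
  obtain ⟨a, ha, f, hf, rfl⟩ := mem_sup_left_norm h hy
  refine ⟨f, hf, fun b hb => ?_⟩
  have h1 := hyB b hb
  have h2 : a⁻¹ * (a * f * b * (a * f)⁻¹) * a ∈ A := mul_mem (mul_mem (inv_mem ha) h1) ha
  have e : a⁻¹ * (a * f * b * (a * f)⁻¹) * a = f * b * f⁻¹ := by group
  rwa [e] at h2

theorem coprime_fusion [Finite G] {p : ℕ} [Fact p.Prime] {A E N' : Subgroup G}
    (hA : IsPGroup p A) (hE : (Nat.card E).Coprime p) (hAE : A ≤ N(E)) (hAN : A ≤ N')
    {e : G} (he : e ∈ E) (hconj : ∀ a ∈ A, e * a * e⁻¹ ∈ N') :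
    ∃ f ∈ E ⊓ N', ∀ a ∈ A, f * a * f⁻¹ = e * a * e⁻¹ := by
  have hF : (Nat.card (E ⊓ N' : Subgroup G)).Coprime p :=
    Nat.Coprime.coprime_dvd_left (Subgroup.card_dvd_of_le inf_le_left) hE
  have hAF : A ≤ N(E ⊓ N') := by
    intro a ha
    apply mem_normalizer_of_conjMap_le
    rw [inf_conjMap, conjMap_of_mem_normalizer (hAE ha),
      conjMap_of_mem_normalizer (Subgroup.le_normalizer (hAN ha))]
  have hBp : IsPGroup p (cj(e, A)) := isPGroup_conjMap hA
  have hBle : cj(e, A) ≤ A ⊔ (E ⊓ N') := by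
    rw [conjMap_le_iff]
    intro a ha
    have h1 : e * a * e⁻¹ * a⁻¹ ∈ E ⊓ N' := by
      refine Subgroup.mem_inf.mpr ⟨?_, mul_mem (hconj a ha) (inv_mem (hAN ha))⟩
      have h2 : a * e⁻¹ * a⁻¹ ∈ E := (Subgroup.mem_normalizer_iff.mp (hAE ha) _).mp (inv_mem he)
      have e1 : e * a * e⁻¹ * a⁻¹ = e * (a * e⁻¹ * a⁻¹) := by group
      rw [e1]; exact mul_mem he h2
    have e2 : e * a * e⁻¹ = (e * a * e⁻¹ * a⁻¹) * a := by group
    rw [e2]
    exact mul_mem (Subgroup.mem_sup_right h1) (Subgroup.mem_sup_left ha)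
  obtain ⟨f, hf, hfB⟩ := coprime_conj hA hF hAF hBp hBle
  refine ⟨f⁻¹, inv_mem hf, fun a ha => ?_⟩
  have h3 : f * (e * a * e⁻¹) * f⁻¹ ∈ A := hfB _ (conj_mem_conjMap ha)
  have h4 : (f * e) * a * (f * e)⁻¹ = a := by
    apply conj_eq_of_coprime hA hE hAE (mul_mem (Subgroup.mem_inf.mp hf).1 he) ha
    have e3 : (f * e) * a * (f * e)⁻¹ = f * (e * a * e⁻¹) * f⁻¹ := by group
    rw [e3]; exact h3
  calc f⁻¹ * a * f⁻¹⁻¹ = f⁻¹ * ((f * e) * a * (f * e)⁻¹) * f := by rw [h4]; group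
    _ = e * a * e⁻¹ := by group

theorem le_pPrimePCore_of_relIndex [Finite G] {p : ℕ} [Fact p.Prime] {X : Subgroup G}
    (hn : X.Normal) (hle : pPrimePCore p G ≤ X)
    (hk : ∃ k, (pPrimePCore p G).relIndex X = p ^ k) : X ≤ pPrimePCore p G := by
  obtain ⟨k, hk⟩ := hk
  obtain ⟨j, hj⟩ := relIndex_pPrimeCore (G := G) p
  have h1 : (pPrimeCore p G).relIndex X = p ^ (j + k) := by
    rw [← Subgroup.relIndex_mul_relIndex (pPrimeCore p G) (pPrimePCore p G) X
      (pPrimeCore_le_pPrimePCore p) hle, hj, hk, pow_add]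
  have h2 : Nat.card (X.map (QuotientGroup.mk' (pPrimeCore p G))) = p ^ (j + k) := by
    have h3 := Subgroup.relIndex_comap (⊥ : Subgroup (G ⧸ pPrimeCore p G))
      (QuotientGroup.mk' (pPrimeCore p G)) X
    have h4 : pPrimeCore p G
        = (⊥ : Subgroup (G ⧸ pPrimeCore p G)).comap (QuotientGroup.mk' (pPrimeCore p G)) :=
      (QuotientGroup.ker_mk' _).symm
    rw [← h4, Subgroup.relIndex_bot_left] at h3
    rw [← h3, h1]
  have h5 : IsPGroup p (X.map (QuotientGroup.mk' (pPrimeCore p G))) := IsPGroup.of_card h2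
  have h6 : (X.map (QuotientGroup.mk' (pPrimeCore p G))).Normal :=
    hn.map _ (QuotientGroup.mk'_surjective _)
  have h7 := le_pCore h6 h5
  intro x hx
  unfold pPrimePCore
  rw [Subgroup.mem_comap]
  exact h7 (Subgroup.mem_map_of_mem _ hx)

/-- The subgroups `O_{p'}(M) ≤ O_{p',p}(M)` of a subgroup `M`, with their properties expressed in
the ambient group. -/
theorem exists_upper_series [Finite G] (p : ℕ) [Fact p.Prime] (M : Subgroup G) :
    ∃ E L : Subgroup G, E ≤ L ∧ L ≤ M ∧ M ≤ N(E) ∧ M ≤ N(L) ∧ (Nat.card E).Coprime p ∧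
      (∀ D : Subgroup G, D ≤ M → M ≤ N(D) → (Nat.card D).Coprime p → D ≤ E) ∧
      (∃ k, E.relIndex L = p ^ k) ∧
      (∀ D : Subgroup G, D ≤ M → IsPGroup p D → M ≤ N(D) → D ≤ L) ∧
      (∀ X : Subgroup G, L ≤ X → X ≤ M → M ≤ N(X) → (∃ k, L.relIndex X = p ^ k) → X ≤ L) := by
  have hinj := M.subtype_injective
  have hE0 : ((pPrimeCore p ↥M).map M.subtype).subgroupOf M = pPrimeCore p ↥M :=
    Subgroup.comap_map_eq_self_of_injective hinj _
  have hL0 : ((pPrimePCore p ↥M).map M.subtype).subgroupOf M = pPrimePCore p ↥M :=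
    Subgroup.comap_map_eq_self_of_injective hinj _
  refine ⟨(pPrimeCore p ↥M).map M.subtype, (pPrimePCore p ↥M).map M.subtype,
    Subgroup.map_mono (pPrimeCore_le_pPrimePCore p), Subgroup.map_subtype_le _, ?_, ?_, ?_, ?_,
    ?_, ?_, ?_⟩
  · rw [← Subgroup.normal_subgroupOf_iff_le_normalizer (Subgroup.map_subtype_le _), hE0]
    exact pPrimeCore_normal' p
  · rw [← Subgroup.normal_subgroupOf_iff_le_normalizer (Subgroup.map_subtype_le _), hL0]
    exact pPrimePCore_normal' p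
  · rw [Subgroup.card_map_of_injective hinj]
    exact pPrimeCore_coprime p
  · intro D hDM hMD hD
    have h1 : (D.subgroupOf M).Normal :=
      (Subgroup.normal_subgroupOf_iff_le_normalizer hDM).mpr hMD
    have h2 : Nat.card (D.subgroupOf M) = Nat.card D :=
      Nat.card_congr (Subgroup.subgroupOfEquivOfLe hDM).toEquiv
    have h3 := le_pPrimeCore h1 (by rw [h2]; exact hD)
    intro d hd
    exact ⟨⟨d, hDM hd⟩, h3 (Subgroup.mem_subgroupOf.mpr hd), rfl⟩
  · obtain ⟨k, hk⟩ := relIndex_pPrimeCore (G := ↥M) p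
    exact ⟨k, by rw [Subgroup.relIndex_map_map_of_injective _ _ hinj]; exact hk⟩
  · intro D hDM hDp hMD
    have h1 : (D.subgroupOf M).Normal :=
      (Subgroup.normal_subgroupOf_iff_le_normalizer hDM).mpr hMD
    have h2 : IsPGroup p (D.subgroupOf M) := hDp.comap_of_injective M.subtype hinj
    have h0 := pPrimeCore_normal' (G := ↥M) p
    have h3 : (D.subgroupOf M ⊔ pPrimeCore p ↥M).Normal := inferInstance
    have h4 := le_pPrimePCore_of_sup_normal h2 h3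
    intro d hd
    exact ⟨⟨d, hDM hd⟩, h4 (Subgroup.mem_subgroupOf.mpr hd), rfl⟩
  · intro X hLX hXM hMX hk
    have h1 : (X.subgroupOf M).Normal :=
      (Subgroup.normal_subgroupOf_iff_le_normalizer hXM).mpr hMX
    have h2 : pPrimePCore p ↥M ≤ X.subgroupOf M := by
      intro y hy
      exact Subgroup.mem_subgroupOf.mpr (hLX ⟨y, hy, rfl⟩)
    have h3 : ∃ k, (pPrimePCore p ↥M).relIndex (X.subgroupOf M) = p ^ k := by
      obtain ⟨k, hk⟩ := hk
      refine ⟨k, ?_⟩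
      rw [← hk, ← Subgroup.relIndex_subgroupOf hXM, hL0]
    have h4 := le_pPrimePCore_of_relIndex h1 h2 h3
    intro x hx
    exact ⟨⟨x, hXM hx⟩, h4 (Subgroup.mem_subgroupOf.mpr hx), rfl⟩

/-- `R` is centric relative to `M`: every `p`-subgroup of `C_M(R)` lies in `R`. -/
def CentricIn (p : ℕ) (M R : Subgroup G) : Prop :=
  ∀ D : Subgroup G, IsPGroup p D → D ≤ C(R) ⊓ M → D ≤ R

/-- `R` is radical relative to `M`: `N_M(R) / R C_M(R)` has no nontrivial normal `p`-subgroup. -/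
def RadicalIn (p : ℕ) (M R : Subgroup G) : Prop :=
  ∀ X : Subgroup G, X ≤ N(R) ⊓ M → (∀ n ∈ N(R) ⊓ M, ∀ x ∈ X, n * x * n⁻¹ ∈ X) →
    R ⊔ (C(R) ⊓ M) ≤ X → (∃ k : ℕ, (R ⊔ (C(R) ⊓ M)).relIndex X = p ^ k) → X ≤ R ⊔ (C(R) ⊓ M)

end Cfsg.Agent.H39
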