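import Cfsg.Agent.H39.CRad

set_option autoImplicit false

/-!
# The least centric radical subgroup of a `p`-constrained subgroup (helper39)
-/

namespace Cfsg.Agent.H39

open Cfsg

variable {G : Type*} [Group G]

local notation "cj(" g ", " Q ")" => Subgroup.map (MulEquiv.toMonoidHom (MulAut.conj g)) Q
local notation "N(" Q ")" => Subgroup.normalizer (SetLike.coe (Q : Subgroup _))
local notation "C(" Q ")" => Subgroup.centralizer (SetLike.coe (Q : Subgroup _))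

set_option maxHeartbeats 1000000 in
/-- Let `M` contain the Sylow `p`-subgroup `P` and normalize a subgroup `W₀ ≤ P` with
`C_P(W₀) ≤ W₀`.  Then `Q = P ∩ O_{p',p}(M)` is the least centric radical subgroup of `P`
relative to `M`, is normal in `P`, and `N_M(Q)` controls strong fusion in `P` with respect to
`M`. -/
theorem exists_least_cr [Finite G] {p : ℕ} [Fact p.Prime] (P : Sylow p G) (M W₀ : Subgroup G)
    (hPM : (P : Subgroup G) ≤ M) (hW₀P : W₀ ≤ (P : Subgroup G)) (hMW : M ≤ N(W₀))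
    (hcent : C(W₀) ⊓ (P : Subgroup G) ≤ W₀) :
    ∃ Q : Subgroup G, Q ≤ (P : Subgroup G) ∧ (P : Subgroup G) ≤ N(Q) ∧ CentricIn p M Q ∧
      RadicalIn p M Q ∧
      (∀ R : Subgroup G, R ≤ (P : Subgroup G) → CentricIn p M R → RadicalIn p M R → Q ≤ R) ∧
      ∀ A : Subgroup G, A ≤ (P : Subgroup G) → ∀ g ∈ M, cj(g, A) ≤ (P : Subgroup G) →
        ∃ h ∈ N(Q) ⊓ M, ∀ a ∈ A, h * a * h⁻¹ = g * a * g⁻¹ := by
  classical
  have hPp : IsPGroup p (P : Subgroup G) := P.isPGroup'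
  have hPsyl : SylIn p (P : Subgroup G) M := (sylIn_top P).of_le_right hPM le_top
  obtain ⟨E, L, hEL, hLM, hME, hML, hEcop, hEmax, ⟨kEL, hkEL⟩, hLp, hLmax⟩ :=
    exists_upper_series p M
  have hEM : E ≤ M := hEL.trans hLM
  have hPE : (P : Subgroup G) ≤ N(E) := hPM.trans hME
  obtain ⟨Q, hQdef⟩ : ∃ Q : Subgroup G, Q = (P : Subgroup G) ⊓ L := ⟨_, rfl⟩
  have hQP : Q ≤ (P : Subgroup G) := by rw [hQdef]; exact inf_le_left
  have hQL : Q ≤ L := by rw [hQdef]; exact inf_le_right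
  have hQM : Q ≤ M := hQP.trans hPM
  have hQp : IsPGroup p Q := hPp.to_le hQP
  have hQsyl : SylIn p Q L := by rw [hQdef]; exact sylIn_inf_of_normal hPsyl hLM hML
  have hPNQ : (P : Subgroup G) ≤ N(Q) := by
    intro x hx
    apply mem_normalizer_of_conjMap_le
    rw [hQdef, inf_conjMap, conjMap_of_mem_normalizer (Subgroup.le_normalizer hx),
      conjMap_of_mem_normalizer (hML (hPM hx))]
  have hQE : Q ≤ N(E) := hQP.trans hPE
  -- `L = Q E`
  have hLeq : L ≤ Q ⊔ E := by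
    have hle : Q ⊔ E ≤ L := sup_le hQL hEL
    rw [← Subgroup.relIndex_eq_one]
    have h1 : (Q ⊔ E).relIndex L ∣ Q.relIndex L :=
      Dvd.intro_left _ (Subgroup.relIndex_mul_relIndex Q (Q ⊔ E) L le_sup_left hle)
    have h2 : (Q ⊔ E).relIndex L ∣ p ^ kEL := by
      rw [← hkEL]
      exact Dvd.intro_left _ (Subgroup.relIndex_mul_relIndex E (Q ⊔ E) L le_sup_right hle)
    obtain ⟨j, -, hj⟩ := (Nat.dvd_prime_pow (Fact.out : p.Prime)).mp h2
    have hj0 : j = 0 := by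
      by_contra hne
      exact hQsyl.2.2 (dvd_trans (hj ▸ dvd_pow_self p hne) h1)
    rw [hj, hj0, pow_zero]
  have hLqe : ∀ l ∈ L, ∃ q ∈ Q, ∃ e ∈ E, l = q * e :=
    fun l hl => mem_sup_left_norm hQE (hLeq hl)
  have hLeq' : ∀ l ∈ L, ∃ e ∈ E, ∃ q ∈ Q, l = e * q := by
    intro l hl
    have : l ∈ E ⊔ Q := by rw [sup_comm]; exact hLeq hl
    exact mem_sup_right_norm hQE this
  -- the Frattini argument
  have hfrat : ∀ m ∈ M, ∃ n ∈ N(Q) ⊓ M, ∃ e ∈ E, m = n * e := by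
    intro m hm
    obtain ⟨l, hl, hlm⟩ := frattini_elt hQsyl (hML (inv_mem hm))
    obtain ⟨q, hq, e, he, rfl⟩ := hLqe l hl
    refine ⟨m * (q * e)⁻¹ * q, Subgroup.mem_inf.mpr ⟨?_, ?_⟩, e, he, by group⟩
    · have h1 : m * (q * e)⁻¹ ∈ N(Q) := by
        have := inv_mem hlm
        have e1 : (q * e * m⁻¹)⁻¹ = m * (q * e)⁻¹ := by group
        rwa [e1] at this
      exact mul_mem h1 (Subgroup.le_normalizer hq)
    · exact mul_mem (mul_mem hm (inv_mem (hLM hl))) (hQM hq)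
  -- `W₀ ≤ Q`
  have hW₀M : W₀ ≤ M := hW₀P.trans hPM
  have hW₀p : IsPGroup p W₀ := hPp.to_le hW₀P
  have hW₀Q : W₀ ≤ Q := by rw [hQdef]; exact le_inf hW₀P (hLp W₀ hW₀M hW₀p hMW)
  -- the centralizer of `W₀` in `M`
  obtain ⟨C₀, hC₀def⟩ : ∃ C₀ : Subgroup G, C₀ = C(W₀) ⊓ M := ⟨_, rfl⟩
  obtain ⟨Z₀, hZ₀def⟩ : ∃ Z₀ : Subgroup G, Z₀ = W₀ ⊓ C(W₀) := ⟨_, rfl⟩
  have hC₀M : C₀ ≤ M := by rw [hC₀def]; exact inf_le_right
  have hMC₀ : M ≤ N(C₀) := by
    intro m hm
    apply mem_normalizer_of_conjMap_le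
    rw [hC₀def, inf_conjMap,
      conjMap_of_mem_normalizer (normalizer_le_normalizer_centralizer _ (hMW hm)),
      conjMap_of_mem_normalizer (Subgroup.le_normalizer hm)]
  have hZ₀W : Z₀ ≤ W₀ := by rw [hZ₀def]; exact inf_le_left
  have hZ₀eq : (P : Subgroup G) ⊓ C₀ = Z₀ := by
    rw [hC₀def, hZ₀def]
    apply le_antisymm
    · intro x hx
      obtain ⟨hxP, hxC⟩ := Subgroup.mem_inf.mp hx
      have hxC' := (Subgroup.mem_inf.mp hxC).1
      exact Subgroup.mem_inf.mpr ⟨hcent (Subgroup.mem_inf.mpr ⟨hxC', hxP⟩), hxC'⟩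
    · intro x hx
      obtain ⟨hxW, hxC⟩ := Subgroup.mem_inf.mp hx
      exact Subgroup.mem_inf.mpr ⟨hW₀P hxW, Subgroup.mem_inf.mpr ⟨hxC, hW₀M hxW⟩⟩
  have hZ₀syl : SylIn p Z₀ C₀ := by rw [← hZ₀eq]; exact sylIn_inf_of_normal hPsyl hC₀M hMC₀
  have hC₀cent : C₀ ≤ C(Z₀) := by
    rw [hC₀def]
    exact le_trans inf_le_left (Subgroup.centralizer_le hZ₀W)
  have hZ : ∀ D : Subgroup G, IsPGroup p D → D ≤ C₀ → D ≤ Z₀ := by
    intro D hD hDC
    obtain ⟨c, hc, hcD⟩ := exists_conj_mem_of_isPGroup hZ₀syl.1 hZ₀syl.2.1 hZ₀syl.2.2 hDC hD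
    intro d hd
    have h1 := hcD d hd
    have h2 := Subgroup.mem_centralizer_iff.mp (hC₀cent hc) _ h1
    have h3 : c * d = c * (c * d * c⁻¹) := by rw [← h2]; group
    have h4 : d = c * d * c⁻¹ := mul_left_cancel h3
    rw [h4]; exact h1
  have hcentric : CentricIn p M Q := by
    intro D hD hDle
    have h1 : D ≤ C₀ := by
      rw [hC₀def]
      exact le_inf (le_trans (le_trans hDle inf_le_left) (Subgroup.centralizer_le hW₀Q))
        (le_trans hDle inf_le_right)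
    exact le_trans (hZ D hD h1) (hZ₀W.trans hW₀Q)
  -- `C_M(W₀) ≤ L`
  have hC₀L : C₀ ≤ L := by
    obtain ⟨D₀, hD₀C, hCD₀, hD₀cop, hD₀Z, k₀, hk₀⟩ :=
      exists_normal_complement_of_central hZ₀syl hC₀cent
    have hMD₀ : M ≤ N(D₀) := by
      intro m hm
      apply mem_normalizer_of_conjMap_le
      have h1 : cj(m, D₀) ≤ C₀ := by
        have := conjMap_mono (g := m) hD₀C
        rwa [conjMap_of_mem_normalizer (hMC₀ hm)] at this
      exact le_of_coprime_of_relIndex_pow hD₀C h1 hCD₀ hk₀ (by rw [card_conjMap]; exact hD₀cop)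
    have hD₀E : D₀ ≤ E := hEmax D₀ (hD₀C.trans hC₀M) hMD₀ hD₀cop
    rw [← hD₀Z]
    exact sup_le (hD₀E.trans hEL) (hZ₀W.trans (hW₀Q.trans hQL))
  have hCQL : C(Q) ⊓ M ≤ L := by
    refine le_trans ?_ hC₀L
    rw [hC₀def]
    exact inf_le_inf_right _ (Subgroup.centralizer_le hW₀Q)
  have hYeq : ∀ l ∈ L, l ∈ N(Q) → l ∈ Q ⊔ (C(Q) ⊓ M) := by
    intro l hl hlN
    obtain ⟨e, he, q, hq, rfl⟩ := hLeq' l hl
    have heN : e ∈ N(Q) := by
      have := mul_mem hlN (inv_mem (Subgroup.le_normalizer hq))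
      rwa [mul_inv_cancel_right] at this
    have heC : e ∈ C(Q) := by
      rw [Subgroup.mem_centralizer_iff]
      intro x hx
      have h1 : e * x * e⁻¹ ∈ Q := (Subgroup.mem_normalizer_iff.mp heN x).mp hx
      have h2 := conj_eq_of_coprime hQp hEcop hQE he hx h1
      calc x * e = (e * x * e⁻¹) * e := by rw [h2]
        _ = e * x := by group
    exact mul_mem (Subgroup.mem_sup_right (Subgroup.mem_inf.mpr ⟨heC, hEM he⟩))
      (Subgroup.mem_sup_left hq)
  have hradical : RadicalIn p M Q := by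
    intro X hXN hXinv hYX ⟨k, hk⟩
    have hXM : X ≤ M := hXN.trans inf_le_right
    have hYL : Q ⊔ (C(Q) ⊓ M) ≤ L := sup_le hQL hCQL
    have hXL : X ≤ N(L) := hXM.trans hML
    have hMX₂ : M ≤ N(X ⊔ L) := by
      intro m hm
      obtain ⟨n, hn, e, he, rfl⟩ := hfrat m hm
      have hnX : n ∈ N(X) := mem_normalizer_of_conjMap_le (conjMap_le_iff.mpr (hXinv n hn))
      have hnL : n ∈ N(L) := hML (Subgroup.mem_inf.mp hn).2
      have h1 : n ∈ N(X ⊔ L) := by
        apply mem_normalizer_of_conjMap_le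
        rw [Subgroup.map_sup, conjMap_of_mem_normalizer hnX, conjMap_of_mem_normalizer hnL]
      exact mul_mem h1 (Subgroup.le_normalizer (Subgroup.mem_sup_right (hEL he)))
    have hinf : L ⊓ X = Q ⊔ (C(Q) ⊓ M) := by
      apply le_antisymm
      · intro x hx
        obtain ⟨hxL, hxX⟩ := Subgroup.mem_inf.mp hx
        exact hYeq x hxL (Subgroup.mem_inf.mp (hXN hxX)).1
      · exact le_inf hYL hYX
    have hidx : L.relIndex (X ⊔ L) = p ^ k := by
      rw [relIndex_sup_of_le_normalizer hXL, ← Subgroup.inf_relIndex_right, hinf, hk]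
    have h2 := hLmax (X ⊔ L) le_sup_right (sup_le hXM hLM) hMX₂ ⟨k, hidx⟩
    intro x hx
    exact hYeq x (h2 (Subgroup.mem_sup_left hx)) (Subgroup.mem_inf.mp (hXN hx)).1
  have hfusion : ∀ A : Subgroup G, A ≤ (P : Subgroup G) → ∀ g ∈ M,
      cj(g, A) ≤ (P : Subgroup G) → ∃ h ∈ N(Q) ⊓ M, ∀ a ∈ A, h * a * h⁻¹ = g * a * g⁻¹ := by
    intro A hA g hg hgA
    obtain ⟨n, hn, e, he, rfl⟩ := hfrat g hg
    have hPN' : (P : Subgroup G) ≤ N(Q) ⊓ M := le_inf hPNQ hPM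
    have hconj : ∀ a ∈ A, e * a * e⁻¹ ∈ N(Q) ⊓ M := by
      intro a ha
      have h1 : n * e * a * (n * e)⁻¹ ∈ (P : Subgroup G) := hgA (conj_mem_conjMap ha)
      have h2 := mul_mem (mul_mem (inv_mem hn) (hPN' h1)) hn
      have e1 : n⁻¹ * (n * e * a * (n * e)⁻¹) * n = e * a * e⁻¹ := by group
      rwa [e1] at h2
    obtain ⟨f, hf, hfa⟩ :=
      coprime_fusion (hPp.to_le hA) hEcop (hA.trans hPE) (hA.trans hPN') he hconj
    refine ⟨n * f, mul_mem hn (Subgroup.mem_inf.mp hf).2, fun a ha => ?_⟩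
    calc n * f * a * (n * f)⁻¹ = n * (f * a * f⁻¹) * n⁻¹ := by group
      _ = n * (e * a * e⁻¹) * n⁻¹ := by rw [hfa a ha]
      _ = n * e * a * (n * e)⁻¹ := by group
  have hleast : ∀ R : Subgroup G, R ≤ (P : Subgroup G) → CentricIn p M R → RadicalIn p M R →
      Q ≤ R := by
    intro R hRP hRc hRr
    have hRM : R ≤ M := hRP.trans hPM
    have hRp : IsPGroup p R := hPp.to_le hRP
    have hLN : ∀ l ∈ L, l ∈ N(R) → ∃ e ∈ E, e ∈ C(R) ∧ ∃ q ∈ Q, q ∈ N(R) ∧ l = e * q := by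
      intro l hl hlN
      obtain ⟨e, he, q, hq, rfl⟩ := hLeq' l hl
      have h1 : ∀ r ∈ R, e * (q * r * q⁻¹) * e⁻¹ = q * r * q⁻¹ := by
        intro r hr
        have hqr : q * r * q⁻¹ ∈ (P : Subgroup G) :=
          mul_mem (mul_mem (hQP hq) (hRP hr)) (inv_mem (hQP hq))
        apply conj_eq_of_coprime hPp hEcop hPE he hqr
        have h2 : (e * q) * r * (e * q)⁻¹ ∈ R := (Subgroup.mem_normalizer_iff.mp hlN r).mp hr
        have e1 : (e * q) * r * (e * q)⁻¹ = e * (q * r * q⁻¹) * e⁻¹ := by group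
        rw [← e1]; exact hRP h2
      have hqN : q ∈ N(R) := by
        apply mem_normalizer_of_conjMap_le
        rw [conjMap_le_iff]
        intro r hr
        have h2 : (e * q) * r * (e * q)⁻¹ ∈ R := (Subgroup.mem_normalizer_iff.mp hlN r).mp hr
        have e1 : (e * q) * r * (e * q)⁻¹ = e * (q * r * q⁻¹) * e⁻¹ := by group
        rw [e1, h1 r hr] at h2
        exact h2
      refine ⟨e, he, ?_, q, hq, hqN, rfl⟩
      rw [Subgroup.mem_centralizer_iff]
      intro r hr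
      have hr₀ : q⁻¹ * r * q ∈ R := by
        have := (Subgroup.mem_normalizer_iff.mp (inv_mem hqN) r).mp hr
        simpa using this
      have h3 := h1 _ hr₀
      have e2 : q * (q⁻¹ * r * q) * q⁻¹ = r := by group
      rw [e2] at h3
      calc r * e = (e * r * e⁻¹) * e := by rw [h3]
        _ = e * r := by group
    obtain ⟨Y, hYdef⟩ : ∃ Y : Subgroup G, Y = R ⊔ (C(R) ⊓ M) := ⟨_, rfl⟩
    obtain ⟨NR, hNRdef⟩ : ∃ NR : Subgroup G, NR = N(R) ⊓ M := ⟨_, rfl⟩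
    have hRr' : ∀ X : Subgroup G, X ≤ NR → (∀ n ∈ NR, ∀ x ∈ X, n * x * n⁻¹ ∈ X) → Y ≤ X →
        (∃ k : ℕ, Y.relIndex X = p ^ k) → X ≤ Y := by
      rw [hYdef, hNRdef]; exact hRr
    have hNRM : NR ≤ M := by rw [hNRdef]; exact inf_le_right
    have hNRN : NR ≤ N(R) := by rw [hNRdef]; exact inf_le_left
    have hYNR : Y ≤ NR := by
      rw [hYdef, hNRdef]
      exact sup_le (le_inf Subgroup.le_normalizer hRM)
        (inf_le_inf_right _ (Subgroup.centralizer_le_normalizer _))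
    have hNRY : NR ≤ N(Y) := by
      intro n hn
      apply mem_normalizer_of_conjMap_le
      rw [hYdef, Subgroup.map_sup, inf_conjMap, conjMap_of_mem_normalizer (hNRN hn),
        conjMap_of_mem_normalizer (normalizer_le_normalizer_centralizer _ (hNRN hn)),
        conjMap_of_mem_normalizer (Subgroup.le_normalizer (hNRM hn))]
    have hNRLN : NR ≤ N(L ⊓ NR) := by
      intro n hn
      apply mem_normalizer_of_conjMap_le
      rw [inf_conjMap, conjMap_of_mem_normalizer (hML (hNRM hn)),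
        conjMap_of_mem_normalizer (Subgroup.le_normalizer hn)]
    have hXle : Y ⊔ (L ⊓ NR) ≤ NR := sup_le hYNR inf_le_right
    have hXinv : ∀ n ∈ NR, ∀ x ∈ Y ⊔ (L ⊓ NR), n * x * n⁻¹ ∈ Y ⊔ (L ⊓ NR) := by
      intro n hn x hx
      have h1 : n ∈ N(Y ⊔ (L ⊓ NR)) := by
        apply mem_normalizer_of_conjMap_le
        rw [Subgroup.map_sup, conjMap_of_mem_normalizer (hNRY hn),
          conjMap_of_mem_normalizer (hNRLN hn)]
      exact (Subgroup.mem_normalizer_iff.mp h1 x).mp hx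
    obtain ⟨T, hTdef⟩ : ∃ T : Subgroup G, T = Q ⊓ N(R) := ⟨_, rfl⟩
    have hTp : IsPGroup p T := by rw [hTdef]; exact hQp.to_le inf_le_left
    have hTLN : T ≤ L ⊓ NR := by
      rw [hTdef, hNRdef]
      exact le_inf (inf_le_left.trans hQL) (le_inf inf_le_right (inf_le_left.trans hQM))
    obtain ⟨I₀, hI₀def⟩ : ∃ I₀ : Subgroup G, I₀ = Y ⊓ (L ⊓ NR) := ⟨_, rfl⟩
    have hTI₀ : T ≤ N(I₀) := by
      intro t ht
      have htNR : t ∈ NR := (Subgroup.mem_inf.mp (hTLN ht)).2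
      apply mem_normalizer_of_conjMap_le
      rw [hI₀def, inf_conjMap, conjMap_of_mem_normalizer (hNRY htNR),
        conjMap_of_mem_normalizer (hNRLN htNR)]
    have hLNRle : L ⊓ NR ≤ T ⊔ I₀ := by
      intro l hl
      obtain ⟨hlL, hlNR⟩ := Subgroup.mem_inf.mp hl
      obtain ⟨e, he, heC, q, hq, hqN, rfl⟩ := hLN l hlL (hNRN hlNR)
      have hqT : q ∈ T := by rw [hTdef]; exact Subgroup.mem_inf.mpr ⟨hq, hqN⟩
      have heI : e ∈ I₀ := by
        rw [hI₀def]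
        have heCM : e ∈ C(R) ⊓ M := Subgroup.mem_inf.mpr ⟨heC, hEM he⟩
        refine Subgroup.mem_inf.mpr ⟨?_, Subgroup.mem_inf.mpr ⟨hEL he, ?_⟩⟩
        · rw [hYdef]; exact Subgroup.mem_sup_right heCM
        · rw [hNRdef]
          exact Subgroup.mem_inf.mpr ⟨Subgroup.centralizer_le_normalizer _ heC, hEM he⟩
      exact mul_mem (Subgroup.mem_sup_right heI) (Subgroup.mem_sup_left hqT)
    have hidx : ∃ k : ℕ, Y.relIndex (Y ⊔ (L ⊓ NR)) = p ^ k := by
      have hLNRY : L ⊓ NR ≤ N(Y) := inf_le_right.trans hNRY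
      have h1 : Y.relIndex (Y ⊔ (L ⊓ NR)) = I₀.relIndex (L ⊓ NR) := by
        rw [sup_comm, relIndex_sup_of_le_normalizer hLNRY, ← Subgroup.inf_relIndex_right, hI₀def]
      have h2 : L ⊓ NR = T ⊔ I₀ :=
        le_antisymm hLNRle (sup_le hTLN (by rw [hI₀def]; exact inf_le_right))
      have h3 : I₀.relIndex (L ⊓ NR) = I₀.relIndex T := by
        rw [h2, relIndex_sup_of_le_normalizer hTI₀]
      have h4 : I₀.relIndex T ∣ Nat.card T := Subgroup.relIndex_dvd_card I₀ T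
      obtain ⟨a, ha⟩ := IsPGroup.iff_card.mp hTp
      rw [ha] at h4
      obtain ⟨j, -, hj⟩ := (Nat.dvd_prime_pow (Fact.out : p.Prime)).mp h4
      exact ⟨j, by rw [h1, h3, hj]⟩
    have hXY : Y ⊔ (L ⊓ NR) ≤ Y := hRr' _ hXle hXinv le_sup_left hidx
    have hTR : T ≤ R := by
      intro t ht
      have htY : t ∈ R ⊔ (C(R) ⊓ M) := by
        rw [← hYdef]; exact hXY (Subgroup.mem_sup_right (hTLN ht))
      have hCN : C(R) ⊓ M ≤ N(R) := inf_le_left.trans (Subgroup.centralizer_le_normalizer _)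
      obtain ⟨r, hr, c, hc, rfl⟩ := mem_sup_right_norm hCN htY
      have hTRp : IsPGroup p (T ⊔ R : Subgroup G) :=
        hPp.to_le (sup_le (by rw [hTdef]; exact inf_le_left.trans hQP) hRP)
      have hcU : c ∈ (T ⊔ R) ⊓ (C(R) ⊓ M) := by
        refine Subgroup.mem_inf.mpr ⟨?_, hc⟩
        have e1 : c = r⁻¹ * (r * c) := by group
        rw [e1]
        exact mul_mem (Subgroup.mem_sup_right (inv_mem hr)) (Subgroup.mem_sup_left ht)
      have hcR : c ∈ R := hRc _ (hTRp.to_le inf_le_left) inf_le_right hcU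
      exact mul_mem hr hcR
    have hRQ : R ≤ N(Q) := hRP.trans hPNQ
    by_contra hQR
    have hlt : R < R ⊔ Q := lt_of_le_of_ne le_sup_left (fun h => hQR (h ▸ le_sup_right))
    have hRQp : IsPGroup p (R ⊔ Q : Subgroup G) := hPp.to_le (sup_le hRP hQP)
    have h1 := lt_inf_normalizer hRQp hlt
    apply not_le_of_gt h1
    intro x hx
    obtain ⟨hx1, hx2⟩ := Subgroup.mem_inf.mp hx
    obtain ⟨r, hr, q, hq, rfl⟩ := mem_sup_left_norm hRQ hx1
    have hqN : q ∈ N(R) := by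
      have := mul_mem (inv_mem (Subgroup.le_normalizer hr)) hx2
      rwa [inv_mul_cancel_left] at this
    exact mul_mem hr (hTR (by rw [hTdef]; exact Subgroup.mem_inf.mpr ⟨hq, hqN⟩))
  exact ⟨Q, hQP, hPNQ, hcentric, hradical, hleast, hfusion⟩

end Cfsg.Agent.H39
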