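import Cfsg.Agent.H29.QuadP
import Cfsg.Agent.H29.QuadLift
import Cfsg.Agent.H40.KInfE
import Cfsg.Agent.H39.Cores

set_option autoImplicit false

/-!
# `SL₂(p)`-free automizers give normalizer-`p`-stability in all sections (helper39)
-/

namespace Cfsg.Agent.H39

open Cfsg Cfsg.Agent.H29 Cfsg.Agent.H29.QP
open scoped commutatorElement

universe u

section cN

variable {G : Type*} [Group G]

/-- Conjugation action of the normalizer of `Q` on `Q`. -/
def cN (Q : Subgroup G) : ↥(Subgroup.normalizer (Q : Set G)) →* MulAut ↥Q where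
  toFun x :=
    { toFun := fun h => ⟨x * h * (x : G)⁻¹, (Subgroup.mem_normalizer_iff.mp x.2 h).mp h.2⟩
      invFun := fun h => ⟨(x : G)⁻¹ * h * x, by
        have := (Subgroup.mem_normalizer_iff.mp (Subgroup.inv_mem _ x.2) h).mp h.2
        simpa using this⟩
      left_inv := fun h => by apply Subtype.ext; simp [mul_assoc]
      right_inv := fun h => by apply Subtype.ext; simp [mul_assoc]
      map_mul' := fun a b => by apply Subtype.ext; simp [mul_assoc] }
  map_one' := by ext h; simp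
  map_mul' := fun x y => by ext h; simp [mul_assoc]

theorem cN_apply (Q : Subgroup G) (x : ↥(Subgroup.normalizer (Q : Set G))) (h : ↥Q) :
    ((cN Q x h : ↥Q) : G) = x * h * (x : G)⁻¹ := rfl

/-- The left regular representation of `P`. -/
def lreg (P : Subgroup G) : ↥P →* Equiv.Perm ↥P := MulAction.toPermHom ↥P ↥P

theorem lreg_apply (P : Subgroup G) (u x : ↥P) : lreg P u x = u * x := rfl

/-- The permutation action of the normalizer of `P` on `P`. -/
def aPerm (P : Subgroup G) : ↥(Subgroup.normalizer (P : Set G)) →* Equiv.Perm ↥P :=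
  (MulAut.toPerm ↥P).comp (cN P)

theorem aPerm_apply (P : Subgroup G) (n : ↥(Subgroup.normalizer (P : Set G))) (x : ↥P) :
    ((aPerm P n x : ↥P) : G) = n * x * (n : G)⁻¹ := rfl

theorem aPerm_conj_lreg (P : Subgroup G) (n : ↥(Subgroup.normalizer (P : Set G))) (u : ↥P) :
    aPerm P n * lreg P u * (aPerm P n)⁻¹ = lreg P (cN P n u) := by
  rw [← map_inv]
  apply Equiv.ext
  intro x
  apply Subtype.ext
  simp only [Equiv.Perm.mul_apply, aPerm_apply, lreg_apply, Subgroup.coe_mul, cN_apply,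
    Subgroup.coe_inv]
  group

theorem comm_lreg_aPerm (P : Subgroup G) (u : ↥P) (m : ↥(Subgroup.normalizer (P : Set G))) :
    ⁅lreg P u, aPerm P m⁆ = lreg P (u * cN P m u⁻¹) := by
  have h1 := aPerm_conj_lreg P m u⁻¹
  rw [commutatorElement_def, map_mul, ← h1, map_inv]
  group

theorem coe_mul_cN (P : Subgroup G) (u : ↥P) (m : ↥(Subgroup.normalizer (P : Set G))) :
    ((u * cN P m u⁻¹ : ↥P) : G) = ⁅(u : G), (m : G)⁆ := by
  rw [Subgroup.coe_mul, cN_apply, commutatorElement_def, Subgroup.coe_inv]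
  group

theorem perm_quad (P : Subgroup G) (n : ↥(Subgroup.normalizer (P : Set G)))
    (hq : ⁅⁅P, Subgroup.zpowers (n : G)⁆, Subgroup.zpowers (n : G)⁆ = ⊥) :
    ⁅⁅(lreg P).range, Subgroup.zpowers (aPerm P n)⁆, Subgroup.zpowers (aPerm P n)⁆ = ⊥ := by
  have h1 : ⁅(lreg P).range, Subgroup.zpowers (aPerm P n)⁆
      ≤ ((⁅P, Subgroup.zpowers (n : G)⁆).subgroupOf P).map (lreg P) := by
    rw [Subgroup.commutator_le]
    rintro _ ⟨u, rfl⟩ _ ⟨k, rfl⟩
    simp only
    rw [← map_zpow, comm_lreg_aPerm]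
    refine Subgroup.mem_map_of_mem _ ?_
    rw [Subgroup.mem_subgroupOf, coe_mul_cN, Subgroup.coe_zpow]
    exact Subgroup.commutator_mem_commutator u.2 (Subgroup.zpow_mem_zpowers _ k)
  rw [eq_bot_iff]
  refine le_trans (Subgroup.commutator_mono h1 le_rfl) ?_
  rw [Subgroup.commutator_le]
  rintro _ ⟨w, hw, rfl⟩ _ ⟨k, rfl⟩
  simp only
  rw [← map_zpow, comm_lreg_aPerm]
  have e : (w * cN P (n ^ k) w⁻¹ : ↥P) = 1 := by
    apply Subtype.ext
    rw [coe_mul_cN, Subgroup.coe_one, Subgroup.coe_zpow]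
    have h2 : ⁅(w : G), (n : G) ^ k⁆ ∈ ⁅⁅P, Subgroup.zpowers (n : G)⁆, Subgroup.zpowers (n : G)⁆ :=
      Subgroup.commutator_mem_commutator (Subgroup.mem_subgroupOf.mp hw)
        (Subgroup.zpow_mem_zpowers _ k)
    rw [hq] at h2
    exact Subgroup.mem_bot.mp h2
  rw [e, map_one]
  exact Subgroup.mem_bot.mpr rfl

end cN

section stab

variable {p : ℕ} [Fact p.Prime]

/-- An element acting quadratically on a `p`-subgroup `P` maps into `O_p` of the automizer of
`P`, when the automizer is `SL₂(p)`-free. -/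
theorem quad_mem_pCore_range (hp2 : p ≠ 2) {X : Type u} [Group X] [Finite X] (P : Subgroup X)
    (hP : IsPGroup p P) (hfree : ¬ InvSL p ↥(cN P).range)
    (a : ↥(Subgroup.normalizer (P : Set X)))
    (hq : ⁅⁅P, Subgroup.zpowers (a : X)⁆, Subgroup.zpowers (a : X)⁆ = ⊥) :
    (cN P).rangeRestrict a ∈ pCore p ↥(cN P).range := by
  classical
  obtain ⟨π, hπ⟩ : ∃ π : ↥(Subgroup.normalizer (P : Set X)) →* ↥(cN P).range,
      π = (cN P).rangeRestrict := ⟨_, rfl⟩
  have hπs : Function.Surjective π := by rw [hπ]; exact (cN P).rangeRestrict_surjective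
  have hπv : ∀ n, ((π n : ↥(cN P).range) : MulAut ↥P) = cN P n := by
    intro n; rw [hπ]; rfl
  rw [← hπ]
  obtain ⟨ι₀, hι₀⟩ : ∃ ι₀ : ↥(cN P).range →* Equiv.Perm ↥P,
      ι₀ = (MulAut.toPerm ↥P).comp (cN P).range.subtype := ⟨_, rfl⟩
  have hι₀π : ∀ n, ι₀ (π n) = aPerm P n := by
    intro n; rw [hι₀, hπ]; rfl
  have hPr : IsPGroup p ↥(lreg P).range :=
    IsPGroup.of_surjective hP (lreg P).rangeRestrict (lreg P).rangeRestrict_surjective
  have hnorm : ∀ n : ↥(Subgroup.normalizer (P : Set X)),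
      aPerm P n ∈ Subgroup.normalizer (((lreg P).range : Subgroup (Equiv.Perm ↥P)) : Set _) := by
    intro n
    apply mem_normalizer_of_conjMap_le
    rw [conjMap_le_iff]
    rintro _ ⟨u, rfl⟩
    rw [aPerm_conj_lreg]
    exact ⟨_, rfl⟩
  have key : ∀ g : ↥(Subgroup.normalizer (P : Set X)),
      IsPGroup p ↥(Subgroup.closure ({π a, π (g * a * g⁻¹)} : Set ↥(cN P).range)) := by
    intro g
    obtain ⟨Γ, hΓ⟩ : ∃ Γ : Subgroup ↥(cN P).range,
        Γ = Subgroup.closure ({π a, π (g * a * g⁻¹)} : Set ↥(cN P).range) := ⟨_, rfl⟩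
    have haΓ : π a ∈ Γ := by rw [hΓ]; exact Subgroup.subset_closure (by simp)
    have hbΓ : π (g * a * g⁻¹) ∈ Γ := by rw [hΓ]; exact Subgroup.subset_closure (by simp)
    have hgen : Subgroup.closure {(⟨π a, haΓ⟩ : ↥Γ), ⟨π (g * a * g⁻¹), hbΓ⟩} = ⊤ := by
      subst hΓ
      exact closure_pair_top (π a) (π (g * a * g⁻¹))
    have hι : ∀ γ : ↥Γ, (ι₀.comp Γ.subtype) γ
        ∈ Subgroup.normalizer (((lreg P).range : Subgroup (Equiv.Perm ↥P)) : Set _) := by
      intro γ
      obtain ⟨n, hn⟩ := hπs (γ : ↥(cN P).range)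
      have : (ι₀.comp Γ.subtype) γ = aPerm P n := by
        rw [← hι₀π, hn]; rfl
      rw [this]
      exact hnorm n
    have hqa : ⁅⁅(lreg P).range, Subgroup.zpowers ((ι₀.comp Γ.subtype) ⟨π a, haΓ⟩)⁆,
        Subgroup.zpowers ((ι₀.comp Γ.subtype) ⟨π a, haΓ⟩)⁆ = ⊥ := by
      have : (ι₀.comp Γ.subtype) ⟨π a, haΓ⟩ = aPerm P a := hι₀π a
      rw [this]
      exact perm_quad P a hq
    have hqb : ⁅⁅(lreg P).range, Subgroup.zpowers ((ι₀.comp Γ.subtype) ⟨π (g * a * g⁻¹), hbΓ⟩)⁆,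
        Subgroup.zpowers ((ι₀.comp Γ.subtype) ⟨π (g * a * g⁻¹), hbΓ⟩)⁆ = ⊥ := by
      have : (ι₀.comp Γ.subtype) ⟨π (g * a * g⁻¹), hbΓ⟩ = aPerm P (g * a * g⁻¹) :=
        hι₀π (g * a * g⁻¹)
      rw [this]
      exact perm_quad P (g * a * g⁻¹) (conj_quad P g.2 hq)
    have hmain := quad_pg_pgroup hp2 (X := Equiv.Perm ↥P) (lreg P).range hPr (ι₀.comp Γ.subtype)
      hι hgen hqa hqb
    rw [← hΓ]
    rcases hmain with h | h
    · intro γ
      obtain ⟨k, hk⟩ := h γ
      refine ⟨k, ?_⟩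
      have h1 : ∀ u : ↥P, (((γ : ↥(cN P).range) : MulAut ↥P) ^ p ^ k) u = u := by
        intro u
        have h2 := Subgroup.mem_centralizer_iff.mp hk (lreg P u) ⟨u, rfl⟩
        have h3 := congrArg (fun τ : Equiv.Perm ↥P => τ 1) h2
        simp only [Equiv.Perm.mul_apply, lreg_apply, mul_one] at h3
        have h4 : ∀ y : ↥P, ((ι₀.comp Γ.subtype) γ ^ p ^ k) y
            = (((γ : ↥(cN P).range) : MulAut ↥P) ^ p ^ k) y := by
          intro y
          rw [← map_pow, hι₀]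
          rfl
        rw [h4, h4, map_one, mul_one] at h3
        exact h3.symm
      apply Subtype.ext
      apply Subtype.ext
      rw [Subgroup.coe_pow, Subgroup.coe_pow, Subgroup.coe_one, Subgroup.coe_one]
      exact MulEquiv.ext h1
    · exact absurd (invSL_of_injective Γ.subtype Γ.subtype_injective h) hfree
  have hBS : ∀ gb : ↥(cN P).range, IsPGroup p ↥(Subgroup.zpowers (π a) ⊔
      (Subgroup.zpowers (π a)).map (MulAut.conj gb).toMonoidHom) := by
    intro gb
    obtain ⟨g, rfl⟩ := hπs gb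
    refine (key g).to_le (sup_le ?_ ?_)
    · rw [Subgroup.zpowers_le]; exact Subgroup.subset_closure (by simp)
    · rw [MonoidHom.map_zpowers, Subgroup.zpowers_le]
      have e : (MulAut.conj (π g)).toMonoidHom (π a) = π (g * a * g⁻¹) := by
        simp [MulAut.conj_apply]
      rw [e]
      exact Subgroup.subset_closure (by simp)
  have hX : IsPGroup p (Subgroup.zpowers (π a)) := (hBS 1).to_le le_sup_left
  obtain ⟨Nb, hN, hNp, hXN⟩ := Cfsg.Agent.H5.baer_suzuki _ hX hBS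
  exact le_pCore hN hNp (hXN (Subgroup.mem_zpowers _))

/-- Stability in helper40's form from `SL₂(p)`-freeness of the automizers of normal
`p`-subgroups. -/
theorem nStab_of_free (hp2 : p ≠ 2) {Z : Type u} [Group Z] [Finite Z]
    (h : ∀ V : Subgroup Z, V.Normal → IsPGroup p V → ¬ InvSL p ↥(cN V).range) :
    Cfsg.Agent.H40.KInf.NStab p Z := by
  intro V hVn hVp
  have hall : ∀ g : Z, g ∈ Subgroup.normalizer (V : Set Z) := by
    intro g
    rw [Subgroup.normalizer_eq_top_iff.mpr hVn]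
    exact Subgroup.mem_top g
  refine ⟨((pCore p ↥(cN V).range).comap (cN V).rangeRestrict).map
    (Subgroup.normalizer (V : Set Z)).subtype, ?_, ?_, ?_⟩
  · constructor
    rintro _ ⟨x, hx, rfl⟩ g
    refine ⟨⟨g, hall g⟩ * x * ⟨g, hall g⟩⁻¹, ?_, rfl⟩
    rw [SetLike.mem_coe, Subgroup.mem_comap] at hx ⊢
    rw [map_mul, map_mul, map_inv]
    exact (pCore_normal' p).conj_mem _ hx _
  · rintro _ ⟨x, hx, rfl⟩ hcop v hv
    rw [SetLike.mem_coe, Subgroup.mem_comap] at hx
    have h1 : orderOf ((cN V).rangeRestrict x) ∣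
        orderOf ((Subgroup.normalizer (V : Set Z)).subtype x) := by
      rw [Subgroup.coe_subtype, Subgroup.orderOf_coe]
      exact orderOf_map_dvd _ x
    have h2 := Nat.Coprime.coprime_dvd_left h1 hcop
    obtain ⟨j, hj⟩ := (pCore_isPGroup p) ⟨_, hx⟩
    have hj' := congrArg Subtype.val hj
    rw [Subgroup.coe_pow, Subgroup.coe_one] at hj'
    have h3 := Cfsg.Agent.H40.KInf.eq_one_of_coprime_of_pow h2 hj'
    have h4 : cN V x = 1 := congrArg Subtype.val h3
    have h5 := congrArg (fun α : MulAut ↥V => ((α ⟨v, hv⟩ : ↥V) : Z)) h4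
    simp only [cN_apply, MulAut.one_apply] at h5
    rw [commutatorElement_def, Subgroup.coe_subtype]
    calc v * (x : Z) * v⁻¹ * (x : Z)⁻¹ = v * ((x : Z) * v * (x : Z)⁻¹)⁻¹ := by group
      _ = 1 := by rw [h5, mul_inv_cancel]
  · intro a ha
    exact ⟨⟨a, hall a⟩, quad_mem_pCore_range hp2 V hVp (h V hVn hVp) ⟨a, hall a⟩ ha, rfl⟩

omit [Fact p.Prime] in
theorem invSL_of_ker_le {N A B : Type*} [Group N] [Group A] [Group B] (θ : N →* A)
    (hθ : Function.Surjective θ) (ρ : N →* B) (hker : ρ.ker ≤ θ.ker) (h : InvSL p A) :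
    InvSL p ↥ρ.range := by
  refine invSL_of_surjective ((QuotientGroup.lift ρ.ker θ hker).comp
    (QuotientGroup.quotientKerEquivRange ρ).symm.toMonoidHom) ?_ h
  intro a
  obtain ⟨n, rfl⟩ := hθ a
  refine ⟨QuotientGroup.quotientKerEquivRange ρ (QuotientGroup.mk n), ?_⟩
  simp

/-- `SL₂(p)`-free automizers pass to sections. -/
theorem free_section {G : Type u} [Group G] [Finite G]
    (hG : ∀ Q : Subgroup G, IsPGroup p Q → ¬ InvSL p ↥(cN Q).range)
    (K : Subgroup G) {Z : Type u} [Group Z] (f : ↥K →* Z) (hf : Function.Surjective f)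
    (V : Subgroup Z) (hV : IsPGroup p V) : ¬ InvSL p ↥(cN V).range := by
  intro hInv
  obtain ⟨P₀, hP₀, hP₀V, hNV⟩ := lift_normalizer f hf V hV
  obtain ⟨Q, hQ⟩ : ∃ Q : Subgroup G, Q = P₀.map K.subtype := ⟨_, rfl⟩
  have hQp : IsPGroup p Q := by rw [hQ]; exact hP₀.map _
  have hfN : ∀ n : ↥(Subgroup.normalizer (P₀ : Set ↥K)),
      (f.comp (Subgroup.normalizer (P₀ : Set ↥K)).subtype) n ∈ Subgroup.normalizer (V : Set Z) := by
    intro n
    rw [← hNV]
    exact Subgroup.mem_map_of_mem _ n.2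
  obtain ⟨fN, hfNdef⟩ : ∃ fN : ↥(Subgroup.normalizer (P₀ : Set ↥K)) →*
      ↥(Subgroup.normalizer (V : Set Z)), ∀ n, ((fN n : ↥(Subgroup.normalizer (V : Set Z))) : Z)
        = f (n : ↥K) :=
    ⟨(f.comp (Subgroup.normalizer (P₀ : Set ↥K)).subtype).codRestrict _ hfN, fun n => rfl⟩
  have hfNs : Function.Surjective fN := by
    rintro ⟨z, hz⟩
    have hz' := hz
    rw [← hNV] at hz'
    obtain ⟨n, hn, rfl⟩ := hz'
    exact ⟨⟨n, hn⟩, Subtype.ext (hfNdef _)⟩
  have hjN : ∀ n : ↥(Subgroup.normalizer (P₀ : Set ↥K)),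
      (K.subtype.comp (Subgroup.normalizer (P₀ : Set ↥K)).subtype) n
        ∈ Subgroup.normalizer (Q : Set G) := by
    intro n
    rw [hQ]
    exact Subgroup.le_normalizer_map K.subtype (Subgroup.mem_map_of_mem _ n.2)
  obtain ⟨j, hjdef⟩ : ∃ j : ↥(Subgroup.normalizer (P₀ : Set ↥K)) →*
      ↥(Subgroup.normalizer (Q : Set G)), ∀ n, ((j n : ↥(Subgroup.normalizer (Q : Set G))) : G)
        = ((n : ↥K) : G) :=
    ⟨(K.subtype.comp (Subgroup.normalizer (P₀ : Set ↥K)).subtype).codRestrict _ hjN, fun n => rfl⟩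
  have hθ : Function.Surjective ((cN V).rangeRestrict.comp fN) :=
    (cN V).rangeRestrict_surjective.comp hfNs
  have hker : ((cN Q).comp j).ker ≤ ((cN V).rangeRestrict.comp fN).ker := by
    intro n hn
    rw [MonoidHom.mem_ker] at hn ⊢
    apply Subtype.ext
    apply MulEquiv.ext
    rintro ⟨v, hv⟩
    apply Subtype.ext
    have hv' : v ∈ P₀.map f := by rw [hP₀V]; exact hv
    obtain ⟨q, hq, rfl⟩ := hv'
    have hqQ : ((q : ↥K) : G) ∈ Q := by rw [hQ]; exact ⟨q, hq, rfl⟩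
    have h1 := congrArg (fun α : MulAut ↥Q => ((α ⟨(q : G), hqQ⟩ : ↥Q) : G)) hn
    simp only [MonoidHom.comp_apply, cN_apply, MulAut.one_apply, hjdef] at h1
    have h2 : (n : ↥K) * q * (n : ↥K)⁻¹ = q := Subtype.ext (by simpa using h1)
    show ((fN n : ↥(Subgroup.normalizer (V : Set Z))) : Z) * f q
      * ((fN n : ↥(Subgroup.normalizer (V : Set Z))) : Z)⁻¹ = f q
    rw [hfNdef, ← map_inv, ← map_mul, ← map_mul, h2]
  have h1 := invSL_of_ker_le _ hθ _ hker hInv
  have hle : ((cN Q).comp j).range ≤ (cN Q).range := by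
    rintro _ ⟨n, rfl⟩
    exact ⟨j n, rfl⟩
  exact hG Q hQp (invSL_of_injective (Subgroup.inclusion hle) (Subgroup.inclusion_injective hle) h1)

omit [Fact p.Prime] in
theorem section_of_surj_ker {G : Type*} [Group G] {S : Type*} [Group S] (H : Subgroup G)
    (g : ↥H →* S) (hg : Function.Surjective g) :
    ∃ (_ : ((g.ker.map H.subtype).subgroupOf H).Normal),
      Nonempty ((↥H ⧸ (g.ker.map H.subtype).subgroupOf H) ≃* S) := by
  have key : ∀ N : Subgroup ↥H, N = g.ker → ∃ _ : N.Normal, Nonempty ((↥H ⧸ N) ≃* S) := by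
    rintro N rfl
    exact ⟨inferInstance, ⟨QuotientGroup.quotientKerEquivOfSurjective g hg⟩⟩
  exact key _ (Subgroup.comap_map_eq_self_of_injective (Subgroup.subtype_injective H) _)

omit [Fact p.Prime] in
/-- The hypothesis of S1953 gives `SL₂(p)`-free automizers. -/
theorem autFree_of_hfree {G : Type*} [Group G]
    (hfree : ∀ Q : Subgroup G, IsPGroup p ↥Q → ¬ ∃ (H K : Subgroup G) (_ : (K.subgroupOf H).Normal),
      Subgroup.centralizer (Q : Set G) ≤ K ∧ K ≤ H ∧ H ≤ Subgroup.normalizer (Q : Set G) ∧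
      Nonempty ((↥H ⧸ K.subgroupOf H) ≃* Matrix.SpecialLinearGroup (Fin 2) (ZMod p)))
    (Q : Subgroup G) (hQ : IsPGroup p Q) : ¬ InvSL p ↥(cN Q).range := by
  rintro ⟨KA, fA, hfA⟩
  apply hfree Q hQ
  obtain ⟨c, hc⟩ : ∃ c : ↥(Subgroup.normalizer (Q : Set G)) →* ↥(cN Q).range,
      c = (cN Q).rangeRestrict := ⟨_, rfl⟩
  have hcs : Function.Surjective c := by rw [hc]; exact (cN Q).rangeRestrict_surjective
  have hg₀ : Function.Surjective (fA.comp (c.subgroupComap KA)) :=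
    hfA.comp (c.subgroupComap_surjective_of_surjective KA hcs)
  have hg : Function.Surjective ((fA.comp (c.subgroupComap KA)).comp
      ((KA.comap c).equivMapOfInjective (Subgroup.normalizer (Q : Set G)).subtype
        (Subgroup.subtype_injective _)).symm.toMonoidHom) :=
    hg₀.comp (MulEquiv.surjective _)
  obtain ⟨hL, hiso⟩ := section_of_surj_ker _ _ hg
  refine ⟨_, _, hL, ?_, Subgroup.map_subtype_le _, Subgroup.map_subtype_le _, hiso⟩
  intro x hx
  have hxN : x ∈ Subgroup.normalizer (Q : Set G) := Subgroup.centralizer_le_normalizer _ hx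
  have hc1 : c ⟨x, hxN⟩ = 1 := by
    rw [hc]
    apply Subtype.ext
    apply MulEquiv.ext
    intro q
    apply Subtype.ext
    show x * (q : G) * x⁻¹ = q
    have := Subgroup.mem_centralizer_iff.mp hx q q.2
    rw [← this]
    group
  have hxH₀ : (⟨x, hxN⟩ : ↥(Subgroup.normalizer (Q : Set G))) ∈ KA.comap c := by
    rw [Subgroup.mem_comap, hc1]
    exact one_mem _
  refine ⟨(KA.comap c).equivMapOfInjective (Subgroup.normalizer (Q : Set G)).subtype
    (Subgroup.subtype_injective _) ⟨⟨x, hxN⟩, hxH₀⟩, ?_, rfl⟩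
  rw [SetLike.mem_coe, MonoidHom.mem_ker]
  simp only [MonoidHom.comp_apply, MulEquiv.coe_toMonoidHom, MulEquiv.symm_apply_apply]
  have h1 : (c.subgroupComap KA) ⟨⟨x, hxN⟩, hxH₀⟩ = 1 := Subtype.ext hc1
  rw [h1, map_one]

/-- `SL₂(p)`-free automizers: every section is stable in helper40's sense. -/
theorem secNStab_of_hfree (hp2 : p ≠ 2) {G : Type u} [Group G] [Finite G]
    (hfree : ∀ Q : Subgroup G, IsPGroup p ↥Q → ¬ ∃ (H K : Subgroup G) (_ : (K.subgroupOf H).Normal),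
      Subgroup.centralizer (Q : Set G) ≤ K ∧ K ≤ H ∧ H ≤ Subgroup.normalizer (Q : Set G) ∧
      Nonempty ((↥H ⧸ K.subgroupOf H) ≃* Matrix.SpecialLinearGroup (Fin 2) (ZMod p))) :
    Cfsg.Agent.H40.KInf.SecNStab p G := by
  intro Z _ _ hZ
  obtain ⟨K, f, hf⟩ := hZ
  exact nStab_of_free hp2 (fun V _ hV => free_section (autFree_of_hfree hfree) K f hf V hV)

end stab

end Cfsg.Agent.H39
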