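import Cfsg.Agent.H39.KSeq3
import Cfsg.Agent.H39.SLFree
import Cfsg.Agent.H40.KInfF

set_option autoImplicit false

/-!
# The lower K-infinity subgroup: self-centralizing, and control of strong fusion in explicit form
(helper39)
-/

namespace Cfsg.Agent.H39

open Cfsg Cfsg.Agent.H40.Sec Cfsg.Agent.H40.KInf

universe u

local notation "cj(" g ", " Q ")" => Subgroup.map (MulEquiv.toMonoidHom (MulAut.conj g)) Q
local notation "N(" Q ")" => Subgroup.normalizer (SetLike.coe (Q : Subgroup _))

theorem centralizer_kInfLower_le {P : Type u} [Group P] [Finite P] {p : ℕ} [Fact p.Prime]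
    (hP : IsPGroup p P) :
    Subgroup.centralizer ((kInfLower P : Subgroup P) : Set P) ≤ kInfLower P := by
  have h0 : kSeqEven P 0 ≤ kInfLower P := le_iSup (kSeqEven P) 0
  exact le_trans (Subgroup.centralizer_le h0)
    (le_trans (centralizer_sSup_lower_le hP (kSeqOdd P 0)) h0)

theorem centralizer_induced_kInfLower {G : Type u} [Group G] [Finite G] {p : ℕ} [Fact p.Prime]
    (P : Subgroup G) (hP : IsPGroup p P) :
    Subgroup.centralizer ((inducedFunctor kInfLower P : Subgroup G) : Set G) ⊓ P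
      ≤ inducedFunctor kInfLower P := by
  intro x hx
  obtain ⟨hxc, hxP⟩ := Subgroup.mem_inf.mp hx
  have h1 : (⟨x, hxP⟩ : ↥P) ∈ Subgroup.centralizer ((kInfLower ↥P : Subgroup ↥P) : Set ↥P) := by
    rw [Subgroup.mem_centralizer_iff]
    intro w hw
    apply Subtype.ext
    exact Subgroup.mem_centralizer_iff.mp hxc w ⟨w, hw, rfl⟩
  exact ⟨⟨x, hxP⟩, centralizer_kInfLower_le hP h1, rfl⟩

theorem induced_kInfLower_le {G : Type u} [Group G] (P : Subgroup G) :
    inducedFunctor kInfLower P ≤ P := Subgroup.map_subtype_le _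

theorem le_normalizer_induced_kInfLower {G : Type u} [Group G] [Finite G] {p : ℕ} [Fact p.Prime]
    (P : Subgroup G) (hP : IsPGroup p P) : P ≤ N(inducedFunctor kInfLower P) := by
  intro g hg
  apply mem_normalizer_of_conjMap_le
  rw [← cf_conj (isConjugacyFunctor_induced isCharPFunctor_kInfLower) hP g,
    conjMap_of_mem_normalizer (Subgroup.le_normalizer hg)]

/-- Control of strong fusion by the normalizer of the lower K-infinity subgroup, in explicit
form. -/
theorem kInf_csf {G : Type u} [Group G] [Finite G] {p : ℕ} [Fact p.Prime]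
    (hst : SecNStab p G) (S : Sylow p G) (A : Subgroup G) (hA : A ≤ (S : Subgroup G)) (g : G)
    (hg : cj(g, A) ≤ (S : Subgroup G)) :
    ∃ x ∈ N(inducedFunctor kInfLower (S : Subgroup G)), ∀ a ∈ A, x * a * x⁻¹ = g * a * g⁻¹ := by
  classical
  have h𝓦 : ∀ W' ∈ ({kInfLower} : Set (∀ (Q : Type u) [Group Q], Subgroup Q)),
      IsCharPFunctor.{u} p W' := by
    rintro W' rfl
    exact isCharPFunctor_kInfLower
  have hyp : Hyp (fun (Y : Type u) [Group Y] =>
      FamilyControlsStrongFusionIn p (IndFam {kInfLower} Y) ⊤) p G := by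
    intro Y _ _ hY hcon
    obtain ⟨T⟩ : Nonempty (Sylow p Y) := inferInstance
    exact familyControlsStrongFusionIn_iff.mpr
      ⟨T, sylIn_top T, fsf_of_normal (Set.mem_singleton kInfLower) _
        (kInf_normal_of_secNStab (hst.of_isSec hY) hcon T).1⟩
  have h1 := fsf_of_hyp h𝓦 _ G rfl hyp S
  obtain ⟨g', d, hg'⟩ := h1 A hA g (Subgroup.mem_top _) hg
  exact ⟨g', fchain_single_mem d, hg'⟩

end Cfsg.Agent.H39
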