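import Cfsg.Agent.H39.CRad2
import Cfsg.Agent.H39.KInfCent

set_option autoImplicit false

/-!
# Centric radical subgroups: transfer along control of strong fusion, and the main theorem for
groups with `SL₂(p)`-free automizers (helper39)
-/

namespace Cfsg.Agent.H39

open Cfsg

universe u

section transfer

variable {G : Type*} [Group G]

local notation "cj(" g ", " Q ")" => Subgroup.map (MulEquiv.toMonoidHom (MulAut.conj g)) Q
local notation "N(" Q ")" => Subgroup.normalizer (SetLike.coe (Q : Subgroup _))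
local notation "C(" Q ")" => Subgroup.centralizer (SetLike.coe (Q : Subgroup _))

theorem inv_mul_mem_centralizer_of_conj {R : Subgroup G} {x g : G}
    (h : ∀ r ∈ R, x * r * x⁻¹ = g * r * g⁻¹) : x⁻¹ * g ∈ C(R) := by
  rw [Subgroup.mem_centralizer_iff]
  intro r hr
  have h1 := h r hr
  have h2 : x⁻¹ * (g * r * g⁻¹) * x = r := by rw [← h1]; group
  calc r * (x⁻¹ * g) = (x⁻¹ * (g * r * g⁻¹) * x) * (x⁻¹ * g) := by rw [h2]
    _ = x⁻¹ * g * r := by group

theorem centricIn_iff [Finite G] {p : ℕ} [Fact p.Prime] (P : Sylow p G) {M : Subgroup G}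
    (hPM : (P : Subgroup G) ≤ M)
    (hctl : ∀ A : Subgroup G, A ≤ (P : Subgroup G) → ∀ g : G, cj(g, A) ≤ (P : Subgroup G) →
      ∃ x ∈ M, ∀ a ∈ A, x * a * x⁻¹ = g * a * g⁻¹)
    {R : Subgroup G} (hR : R ≤ (P : Subgroup G)) : CentricIn p ⊤ R ↔ CentricIn p M R := by
  constructor
  · intro h D hD hDle
    exact h D hD (le_trans hDle (inf_le_inf_left _ le_top))
  · intro h D hD hDle
    have hDC : D ≤ C(R) := hDle.trans inf_le_left
    have hRp : IsPGroup p R := P.isPGroup'.to_le hR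
    have hU : IsPGroup p (D ⊔ R : Subgroup G) :=
      IsPGroup.to_sup_of_normal_right' hD hRp (hDC.trans (Subgroup.centralizer_le_normalizer _))
    obtain ⟨g, hg⟩ := exists_conj_mem_sylow P hU
    have hgR : cj(g, R) ≤ (P : Subgroup G) :=
      conjMap_le_iff.mpr (fun r hr => hg r (Subgroup.mem_sup_right hr))
    obtain ⟨x, hx, hxR⟩ := hctl R hR g hgR
    have hc : x⁻¹ * g ∈ C(R) := inv_mul_mem_centralizer_of_conj hxR
    have hD' : cj(x⁻¹ * g, D) ≤ C(R) ⊓ M := by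
      rw [conjMap_le_iff]
      intro d hd
      refine Subgroup.mem_inf.mpr ⟨mul_mem (mul_mem hc (hDC hd)) (inv_mem hc), ?_⟩
      have h1 : g * d * g⁻¹ ∈ (P : Subgroup G) := hg d (Subgroup.mem_sup_left hd)
      have h2 := mul_mem (mul_mem (inv_mem hx) (hPM h1)) hx
      have e : x⁻¹ * (g * d * g⁻¹) * x = x⁻¹ * g * d * (x⁻¹ * g)⁻¹ := by group
      rwa [e] at h2
    have h3 := h _ (isPGroup_conjMap hD) hD'
    intro d hd
    have h4 : x⁻¹ * g * d * (x⁻¹ * g)⁻¹ ∈ R := h3 (conj_mem_conjMap hd)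
    have h5 := Subgroup.mem_centralizer_iff.mp hc _ h4
    have h6 : (x⁻¹ * g) * d = (x⁻¹ * g) * ((x⁻¹ * g) * d * (x⁻¹ * g)⁻¹) := by rw [← h5]; group
    have h7 : d = (x⁻¹ * g) * d * (x⁻¹ * g)⁻¹ := mul_left_cancel h6
    rw [h7]; exact h4

theorem radicalIn_iff [Finite G] {p : ℕ} [Fact p.Prime] (P : Sylow p G) {M : Subgroup G}
    (hPM : (P : Subgroup G) ≤ M)
    (hctl : ∀ A : Subgroup G, A ≤ (P : Subgroup G) → ∀ g : G, cj(g, A) ≤ (P : Subgroup G) →
      ∃ x ∈ M, ∀ a ∈ A, x * a * x⁻¹ = g * a * g⁻¹)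
    {R : Subgroup G} (hR : R ≤ (P : Subgroup G)) : RadicalIn p ⊤ R ↔ RadicalIn p M R := by
  have hRM : R ≤ M := hR.trans hPM
  have hCN : C(R) ≤ N(R) := Subgroup.centralizer_le_normalizer _
  have hN : ∀ n ∈ N(R), ∃ x ∈ N(R) ⊓ M, ∃ c ∈ C(R), n = x * c := by
    intro n hn
    have hnR : cj(n, R) ≤ (P : Subgroup G) := by rw [conjMap_of_mem_normalizer hn]; exact hR
    obtain ⟨x, hx, hxR⟩ := hctl R hR n hnR
    have hc : x⁻¹ * n ∈ C(R) := inv_mul_mem_centralizer_of_conj hxR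
    refine ⟨x, Subgroup.mem_inf.mpr ⟨?_, hx⟩, x⁻¹ * n, hc, by group⟩
    have := mul_mem hn (inv_mem (hCN hc))
    have e : n * (x⁻¹ * n)⁻¹ = x := by group
    rwa [e] at this
  have hded : ∀ z ∈ R ⊔ C(R), z ∈ M → z ∈ R ⊔ (C(R) ⊓ M) := by
    intro z hz hzM
    obtain ⟨r, hr, c, hc, rfl⟩ := mem_sup_right_norm hCN hz
    have hcM : c ∈ M := by
      have := mul_mem (inv_mem (hRM hr)) hzM
      rwa [inv_mul_cancel_left] at this
    exact mul_mem (Subgroup.mem_sup_left hr)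
      (Subgroup.mem_sup_right (Subgroup.mem_inf.mpr ⟨hc, hcM⟩))
  have hYM : R ⊔ (C(R) ⊓ M) ≤ R ⊔ C(R) := sup_le_sup_left inf_le_left _
  have hYMM : R ⊔ (C(R) ⊓ M) ≤ M := sup_le hRM inf_le_right
  have hNY : N(R) ≤ N(R ⊔ C(R)) := by
    intro n hn
    apply mem_normalizer_of_conjMap_le
    rw [Subgroup.map_sup, conjMap_of_mem_normalizer hn,
      conjMap_of_mem_normalizer (normalizer_le_normalizer_centralizer _ hn)]
  constructor
  · intro h X' hX'N hX'inv hYX' ⟨k, hk⟩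
    have hX'NR : X' ≤ N(R) := hX'N.trans inf_le_left
    have hX'M : X' ≤ M := hX'N.trans inf_le_right
    have hRX' : R ≤ X' := le_sup_left.trans hYX'
    have hX'Y : X' ≤ N(R ⊔ C(R)) := hX'NR.trans hNY
    have hinf : (R ⊔ C(R)) ⊓ X' = R ⊔ (C(R) ⊓ M) := by
      apply le_antisymm
      · intro z hz
        obtain ⟨hz1, hz2⟩ := Subgroup.mem_inf.mp hz
        exact hded z hz1 (hX'M hz2)
      · exact le_inf hYM hYX'
    have hsup : X' ⊔ (R ⊔ C(R)) = X' ⊔ C(R) := by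
      rw [← sup_assoc, sup_eq_left.mpr hRX']
    have g1 : X' ⊔ C(R) ≤ N(R) ⊓ ⊤ := by rw [inf_top_eq]; exact sup_le hX'NR hCN
    have g2 : ∀ n ∈ N(R) ⊓ ⊤, ∀ x ∈ X' ⊔ C(R), n * x * n⁻¹ ∈ X' ⊔ C(R) := by
      intro n hn x hx
      rw [inf_top_eq] at hn
      have hnN : n ∈ N(X' ⊔ C(R)) := by
        obtain ⟨y, hy, c, hc, rfl⟩ := hN n hn
        have hyX' : y ∈ N(X') :=
          mem_normalizer_of_conjMap_le (conjMap_le_iff.mpr (hX'inv y hy))
        have hyC : y ∈ N(C(R)) :=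
          normalizer_le_normalizer_centralizer _ (Subgroup.mem_inf.mp hy).1
        have h2 : y ∈ N(X' ⊔ C(R)) := by
          apply mem_normalizer_of_conjMap_le
          rw [Subgroup.map_sup, conjMap_of_mem_normalizer hyX', conjMap_of_mem_normalizer hyC]
        exact mul_mem h2 (Subgroup.le_normalizer (Subgroup.mem_sup_right hc))
      exact (Subgroup.mem_normalizer_iff.mp hnN x).mp hx
    have g3 : R ⊔ (C(R) ⊓ ⊤) ≤ X' ⊔ C(R) := by
      rw [inf_top_eq]; exact sup_le (hRX'.trans le_sup_left) le_sup_right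
    have g4 : ∃ k : ℕ, (R ⊔ (C(R) ⊓ ⊤)).relIndex (X' ⊔ C(R)) = p ^ k := by
      refine ⟨k, ?_⟩
      rw [inf_top_eq, ← hsup, relIndex_sup_of_le_normalizer hX'Y, ← Subgroup.inf_relIndex_right,
        hinf, hk]
    have h1 := h _ g1 g2 g3 g4
    intro x hx
    have hx1 : x ∈ R ⊔ C(R) := by
      have := h1 (Subgroup.mem_sup_left hx)
      rwa [inf_top_eq] at this
    exact hded x hx1 (hX'M hx)
  · intro h X hXN hXinv hYX ⟨k, hk⟩
    rw [inf_top_eq] at hXN hYX hk ⊢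
    have hXeq : X ≤ (X ⊓ M) ⊔ (R ⊔ C(R)) := by
      intro x hx
      obtain ⟨y, hy, c, hc, rfl⟩ := hN x (hXN hx)
      have hcX : c ∈ X := hYX (Subgroup.mem_sup_right hc)
      have hyX : y ∈ X := by
        have := mul_mem hx (inv_mem hcX)
        rwa [mul_inv_cancel_right] at this
      exact mul_mem
        (Subgroup.mem_sup_left (Subgroup.mem_inf.mpr ⟨hyX, (Subgroup.mem_inf.mp hy).2⟩))
        (Subgroup.mem_sup_right (Subgroup.mem_sup_right hc))
    have hXeq' : (X ⊓ M) ⊔ (R ⊔ C(R)) = X := le_antisymm (sup_le inf_le_left hYX) hXeq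
    have hX'Y : X ⊓ M ≤ N(R ⊔ C(R)) := (inf_le_left.trans hXN).trans hNY
    have hinf : (R ⊔ C(R)) ⊓ (X ⊓ M) = R ⊔ (C(R) ⊓ M) := by
      apply le_antisymm
      · intro z hz
        obtain ⟨hz1, hz2⟩ := Subgroup.mem_inf.mp hz
        exact hded z hz1 (Subgroup.mem_inf.mp hz2).2
      · exact le_inf hYM (le_inf (hYM.trans hYX) hYMM)
    have g2 : ∀ n ∈ N(R) ⊓ M, ∀ x ∈ X ⊓ M, n * x * n⁻¹ ∈ X ⊓ M := by
      intro n hn x hx
      obtain ⟨hx1, hx2⟩ := Subgroup.mem_inf.mp hx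
      obtain ⟨hn1, hn2⟩ := Subgroup.mem_inf.mp hn
      exact Subgroup.mem_inf.mpr ⟨hXinv n (by rw [inf_top_eq]; exact hn1) x hx1,
        mul_mem (mul_mem hn2 hx2) (inv_mem hn2)⟩
    have g4 : ∃ k : ℕ, (R ⊔ (C(R) ⊓ M)).relIndex (X ⊓ M) = p ^ k := by
      refine ⟨k, ?_⟩
      rw [← hinf, Subgroup.inf_relIndex_right, ← relIndex_sup_of_le_normalizer hX'Y, hXeq', hk]
    have h1 := h (X ⊓ M) (inf_le_inf_right _ hXN) g2 (le_inf (hYM.trans hYX) hYMM) g4
    rw [← hXeq']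
    exact sup_le (h1.trans hYM) le_rfl

theorem centric_formal_iff [Finite G] {p : ℕ} [Fact p.Prime] {Q : Subgroup G}
    (hQ : IsPGroup p Q) :
    (∃ R : Sylow p ↥(Subgroup.centralizer (Q : Set G)),
        (R : Subgroup ↥(Subgroup.centralizer (Q : Set G))).map
          (Subgroup.centralizer (Q : Set G)).subtype = Q ⊓ Subgroup.centralizer (Q : Set G)) ↔
      CentricIn p ⊤ Q := by
  constructor
  · rintro ⟨R, hR⟩ D hD hDle
    rw [inf_top_eq] at hDle
    have hZp : IsPGroup p (Q ⊓ C(Q) : Subgroup G) := hQ.to_le inf_le_left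
    have hDZ : D ≤ N(Q ⊓ C(Q)) :=
      (hDle.trans (Subgroup.centralizer_le inf_le_left)).trans
        (Subgroup.centralizer_le_normalizer _)
    have hU : IsPGroup p (D ⊔ (Q ⊓ C(Q)) : Subgroup G) :=
      IsPGroup.to_sup_of_normal_right' hD hZp hDZ
    have hU' : IsPGroup p ((D ⊔ (Q ⊓ C(Q))).subgroupOf C(Q)) :=
      hU.comap_of_injective _ (Subgroup.subtype_injective _)
    have hle : (R : Subgroup ↥C(Q)) ≤ (D ⊔ (Q ⊓ C(Q))).subgroupOf C(Q) := by
      intro y hy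
      rw [Subgroup.mem_subgroupOf]
      have : (y : G) ∈ Q ⊓ C(Q) := by rw [← hR]; exact ⟨y, hy, rfl⟩
      exact Subgroup.mem_sup_right this
    have heq := R.is_maximal' hU' hle
    intro d hd
    have h1 : (⟨d, hDle hd⟩ : ↥C(Q)) ∈ (R : Subgroup ↥C(Q)) := by
      rw [← heq, Subgroup.mem_subgroupOf]; exact Subgroup.mem_sup_left hd
    have h2 : d ∈ Q ⊓ C(Q) := by rw [← hR]; exact ⟨_, h1, rfl⟩
    exact (Subgroup.mem_inf.mp h2).1
  · intro h
    have hZp : IsPGroup p ((Q ⊓ C(Q)).subgroupOf C(Q)) :=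
      (hQ.to_le inf_le_left).comap_of_injective _ (Subgroup.subtype_injective _)
    refine ⟨⟨(Q ⊓ C(Q)).subgroupOf C(Q), hZp, ?_⟩, ?_⟩
    · intro Q' hQ' hle
      have h1 : Q'.map C(Q).subtype ≤ Q :=
        h _ (hQ'.map _) (by rw [inf_top_eq]; exact Subgroup.map_subtype_le _)
      apply le_antisymm _ hle
      intro y hy
      rw [Subgroup.mem_subgroupOf]
      exact Subgroup.mem_inf.mpr ⟨h1 ⟨y, hy, rfl⟩, y.2⟩
    · exact Subgroup.map_subgroupOf_eq_of_le inf_le_right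

theorem radical_formal_iff [Finite G] {p : ℕ} {Q : Subgroup G} :
    (∀ X : Subgroup G, X ≤ Subgroup.normalizer (Q : Set G) →
        (∀ n ∈ Subgroup.normalizer (Q : Set G), X.map (MulAut.conj n).toMonoidHom = X) →
        Q ⊔ Subgroup.centralizer (Q : Set G) ≤ X →
        (∃ k : ℕ, (Q ⊔ Subgroup.centralizer (Q : Set G)).relIndex X = p ^ k) →
        X = Q ⊔ Subgroup.centralizer (Q : Set G)) ↔ RadicalIn p ⊤ Q := by
  constructor
  · intro h X hXN hXinv hYX hk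
    rw [inf_top_eq] at hXN hYX hk ⊢
    have := h X hXN (fun n hn => conjMap_eq_of_le (conjMap_le_iff.mpr
      (hXinv n (by rw [inf_top_eq]; exact hn)))) hYX hk
    exact le_of_eq this
  · intro h X hXN hXinv hYX hk
    apply le_antisymm _ hYX
    have h0 := h X (by rw [inf_top_eq]; exact hXN) (fun n hn x hx => by
      rw [inf_top_eq] at hn
      have h2 : n * x * n⁻¹ ∈ X.map (MulAut.conj n).toMonoidHom := conj_mem_conjMap hx
      rwa [hXinv n hn] at h2) (by rw [inf_top_eq]; exact hYX) (by rw [inf_top_eq]; exact hk)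
    rwa [inf_top_eq] at h0

end transfer

section main

variable {G : Type u} [Group G]

local notation "cj(" g ", " Q ")" => Subgroup.map (MulEquiv.toMonoidHom (MulAut.conj g)) Q
local notation "N(" Q ")" => Subgroup.normalizer (SetLike.coe (Q : Subgroup _))
local notation "C(" Q ")" => Subgroup.centralizer (SetLike.coe (Q : Subgroup _))

/-- Groups with `SL₂(p)`-free automizers (`p` odd): there is a least centric radical subgroup of
a Sylow `p`-subgroup `P`; it is normal in `P` and its normalizer controls strong fusion in `P`. -/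
theorem sl2_free_least_cr [Finite G] {p : ℕ} [Fact p.Prime] (hp : p ≠ 2) (P : Sylow p G)
    (hfree : ∀ Q : Subgroup G, IsPGroup p ↥Q → ¬ ∃ (H K : Subgroup G) (_ : (K.subgroupOf H).Normal),
      Subgroup.centralizer (Q : Set G) ≤ K ∧ K ≤ H ∧ H ≤ Subgroup.normalizer (Q : Set G) ∧
      Nonempty ((↥H ⧸ K.subgroupOf H) ≃* Matrix.SpecialLinearGroup (Fin 2) (ZMod p))) :
    ∃ Q : Subgroup G, Q ≤ (P : Subgroup G) ∧ CentricIn p ⊤ Q ∧ RadicalIn p ⊤ Q ∧
      (∀ R : Subgroup G, R ≤ (P : Subgroup G) → CentricIn p ⊤ R → RadicalIn p ⊤ R → Q ≤ R) ∧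
      (P : Subgroup G) ≤ N(Q) ∧
      ∀ A : Subgroup G, A ≤ (P : Subgroup G) → ∀ g : G, cj(g, A) ≤ (P : Subgroup G) →
        ∃ h ∈ N(Q), ∃ c ∈ C(A), g = h * c := by
  have hst := secNStab_of_hfree hp hfree
  have hPp : IsPGroup p (P : Subgroup G) := P.isPGroup'
  obtain ⟨W₀, hW₀⟩ : ∃ W₀ : Subgroup G, W₀ = inducedFunctor kInfLower (P : Subgroup G) :=
    ⟨_, rfl⟩
  have hW₀P : W₀ ≤ (P : Subgroup G) := by rw [hW₀]; exact induced_kInfLower_le _
  have hPN : (P : Subgroup G) ≤ N(W₀) := by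
    rw [hW₀]; exact le_normalizer_induced_kInfLower _ hPp
  have hcent : C(W₀) ⊓ (P : Subgroup G) ≤ W₀ := by
    rw [hW₀]; exact centralizer_induced_kInfLower _ hPp
  have hctl : ∀ A : Subgroup G, A ≤ (P : Subgroup G) → ∀ g : G, cj(g, A) ≤ (P : Subgroup G) →
      ∃ x ∈ N(W₀), ∀ a ∈ A, x * a * x⁻¹ = g * a * g⁻¹ := by
    intro A hA g hg
    rw [hW₀]
    exact kInf_csf hst P A hA g hg
  obtain ⟨Q, hQP, hPNQ, hQc, hQr, hleast, hfus⟩ :=
    exists_least_cr P N(W₀) W₀ hPN hW₀P le_rfl hcent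
  refine ⟨Q, hQP, (centricIn_iff P hPN hctl hQP).mpr hQc, (radicalIn_iff P hPN hctl hQP).mpr hQr,
    ?_, hPNQ, ?_⟩
  · intro R hRP hRc hRr
    exact hleast R hRP ((centricIn_iff P hPN hctl hRP).mp hRc)
      ((radicalIn_iff P hPN hctl hRP).mp hRr)
  · intro A hA g hg
    obtain ⟨x, hx, hxA⟩ := hctl A hA g hg
    have hxA' : cj(x, A) ≤ (P : Subgroup G) := by
      rw [conjMap_le_iff]
      intro a ha
      rw [hxA a ha]
      exact hg (conj_mem_conjMap ha)
    obtain ⟨h, hh, hhA⟩ := hfus A hA x hx hxA'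
    refine ⟨h, (Subgroup.mem_inf.mp hh).1, h⁻¹ * g, ?_, by group⟩
    exact inv_mul_mem_centralizer_of_conj (fun a ha => (hhA a ha).trans (hxA a ha))

end main

end Cfsg.Agent.H39
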