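import Cfsg.Agent.H39.PConstr
import Mathlib

set_option autoImplicit false

namespace Cfsg.Agent.H39

open Cfsg

local notation "cj(" g ", " Q ")" => Subgroup.map (MulEquiv.toMonoidHom (MulAut.conj g)) Q
local notation "N(" Q ")" => Subgroup.normalizer (SetLike.coe (Q : Subgroup _))

/-- Fixed points of the whole group are a direct factor of the fixed points of a Sylow subgroup,
for an action on an abelian `p`-group. -/
theorem fixed_points_direct_factor {L : Type*} [Group L] [Finite L] {M : Type*} [CommGroup M]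
    [Finite M] [MulDistribMulAction L M] {p : ℕ} [Fact p.Prime] (hM : IsPGroup p M)
    (T : Sylow p L) :
    ∃ K : Subgroup M, (∀ k ∈ K, ∀ t ∈ (T : Subgroup L), t • k = k) ∧
      (∀ k ∈ K, (∀ l : L, l • k = k) → k = 1) ∧
      ∀ c : M, (∀ t ∈ (T : Subgroup L), t • c = c) →
        ∃ w : M, (∀ l : L, l • w = w) ∧ c * w⁻¹ ∈ K := by
  classical
  haveI : Fintype (L ⧸ (T : Subgroup L)) := Fintype.ofFinite _
  let τ : M →* M :=
    { toFun := fun c => ∏ q : L ⧸ (T : Subgroup L), q.out • c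
      map_one' := by simp
      map_mul' := fun a b => by simp only [smul_mul']; exact Finset.prod_mul_distrib }
  have hτ : ∀ c, τ c = ∏ q : L ⧸ (T : Subgroup L), q.out • c := fun _ => rfl
  let F : Subgroup M :=
    { carrier := {c | ∀ t ∈ (T : Subgroup L), t • c = c}
      mul_mem' := fun {a b} ha hb t ht => by rw [smul_mul', ha t ht, hb t ht]
      one_mem' := fun t _ => smul_one t
      inv_mem' := fun {a} ha t ht => by rw [smul_inv', ha t ht] }
  have hF : ∀ c, c ∈ F ↔ ∀ t ∈ (T : Subgroup L), t • c = c := fun _ => Iff.rfl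
  have hpow : ∀ w : M, (∀ l : L, l • w = w) → τ w = w ^ (T : Subgroup L).index := by
    intro w hw
    rw [hτ, Finset.prod_congr rfl (fun q _ => hw q.out), Finset.prod_const, Finset.card_univ,
      Subgroup.index, Nat.card_eq_fintype_card]
  have hcop : Nat.Coprime (T : Subgroup L).index (Nat.card M) := by
    obtain ⟨a, ha⟩ := IsPGroup.iff_card.mp hM
    rw [ha]
    apply Nat.Coprime.pow_right
    exact ((Nat.Prime.coprime_iff_not_dvd (Fact.out : p.Prime)).mpr T.not_dvd_index).symm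
  have hfixτ : ∀ c : M, (∀ t ∈ (T : Subgroup L), t • c = c) → ∀ l : L, l • τ c = τ c := by
    intro c₀ hc₀ l
    have hout : ∀ x : L, ((QuotientGroup.mk x : L ⧸ (T : Subgroup L)).out) • c₀ = x • c₀ := by
      intro x
      obtain ⟨t, ht⟩ := QuotientGroup.mk_out_eq_mul (T : Subgroup L) x
      rw [ht, mul_smul, hc₀ t t.2]
    calc l • τ c₀ = ∏ q : L ⧸ (T : Subgroup L), l • (q.out • c₀) := Finset.smul_prod' ..
      _ = ∏ q : L ⧸ (T : Subgroup L),
            ((MulAction.toPerm l : Equiv.Perm (L ⧸ (T : Subgroup L))) q).out • c₀ := by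
          refine Finset.prod_congr rfl (fun q _ => ?_)
          have : (MulAction.toPerm l : Equiv.Perm (L ⧸ (T : Subgroup L))) q
              = QuotientGroup.mk (l * q.out) := by
            conv_lhs => rw [← QuotientGroup.out_eq' q]
            rfl
          rw [this, hout, mul_smul]
      _ = τ c₀ := Equiv.prod_comp (MulAction.toPerm l : Equiv.Perm (L ⧸ (T : Subgroup L)))
            (fun q => q.out • c₀)
  refine ⟨τ.ker ⊓ F, ?_, ?_, ?_⟩
  · intro k hk t ht
    exact (hF k).mp (Subgroup.mem_inf.mp hk).2 t ht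
  · intro k hk hfix
    have h1 : τ k = 1 := MonoidHom.mem_ker.mp (Subgroup.mem_inf.mp hk).1
    rw [hpow k hfix] at h1
    have h2 : orderOf k ∣ (T : Subgroup L).index := orderOf_dvd_of_pow_eq_one h1
    have h3 : orderOf k ∣ Nat.card M := orderOf_dvd_natCard k
    exact orderOf_eq_one_iff.mp (Nat.eq_one_of_dvd_coprimes hcop h2 h3)
  · intro c hc
    obtain ⟨u, v, huv⟩ := Nat.isCoprime_iff_coprime.mpr hcop
    have hw : ∀ l : L, l • (τ c ^ u) = τ c ^ u := by
      intro l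
      rw [smul_zpow', hfixτ c hc l]
    refine ⟨τ c ^ u, hw, Subgroup.mem_inf.mpr ⟨?_, ?_⟩⟩
    · rw [MonoidHom.mem_ker, map_mul, map_inv, hpow _ hw, ← zpow_natCast, ← zpow_mul]
      have h4 : u * ((T : Subgroup L).index : ℤ) = 1 - v * (Nat.card M : ℤ) := by linarith
      rw [h4, zpow_sub, zpow_one, zpow_mul', zpow_natCast, pow_card_eq_one', one_zpow, inv_one,
        mul_one, mul_inv_cancel]
    · rw [hF]
      intro t ht
      rw [smul_mul', smul_inv', hc t ht, hw t]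

variable {G : Type*} [Group G]

/-- The same, for subgroups `V`, `S ≤ N` of a finite group, `N` acting on the abelian `p`-group `V`
by conjugation. -/
theorem fixed_direct_factor_subgroup [Finite G] {p : ℕ} [Fact p.Prime] {N V S : Subgroup G}
    (hVN : N ≤ N(V)) (hVab : ∀ a ∈ V, ∀ b ∈ V, a * b = b * a) (hVp : IsPGroup p V)
    (hS : SylIn p S N) :
    ∃ K : Subgroup G, K ≤ V ∧ (∀ k ∈ K, ∀ s ∈ S, s * k = k * s) ∧
      (∀ k ∈ K, (∀ n ∈ N, n * k = k * n) → k = 1) ∧
      ∀ c ∈ V, (∀ s ∈ S, s * c = c * s) → ∃ w ∈ V, (∀ n ∈ N, n * w = w * n) ∧ c * w⁻¹ ∈ K := by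
  letI instC : CommGroup ↥V := { (inferInstance : Group ↥V) with
    mul_comm := fun a b => Subtype.ext (hVab a.1 a.2 b.1 b.2) }
  letI instA : MulDistribMulAction ↥N ↥V :=
    { smul := fun n v => ⟨n.1 * v.1 * n.1⁻¹, (Subgroup.mem_normalizer_iff.mp (hVN n.2) v.1).mp v.2⟩
      one_smul := fun v => Subtype.ext (show (1 : ↥N).1 * v.1 * (1 : ↥N).1⁻¹ = v.1 by simp)
      mul_smul := fun a b v => Subtype.ext
        (show (a * b).1 * v.1 * (a * b).1⁻¹ = a.1 * (b.1 * v.1 * b.1⁻¹) * a.1⁻¹ by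
          simp [mul_assoc])
      smul_mul := fun n a b => Subtype.ext
        (show n.1 * (a.1 * b.1) * n.1⁻¹ = (n.1 * a.1 * n.1⁻¹) * (n.1 * b.1 * n.1⁻¹) by
          simp [mul_assoc])
      smul_one := fun n => Subtype.ext (show n.1 * (1 : G) * n.1⁻¹ = 1 by simp) }
  have hsmul : ∀ (n : ↥N) (v : ↥V), ((n • v : ↥V) : G) = n.1 * v.1 * n.1⁻¹ := fun _ _ => rfl
  have hfixiff : ∀ (n : ↥N) (v : ↥V), n • v = v ↔ n.1 * v.1 = v.1 * n.1 := by
    intro n v
    rw [Subtype.ext_iff, hsmul]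
    constructor
    · intro h
      calc n.1 * v.1 = (n.1 * v.1 * n.1⁻¹) * n.1 := by group
        _ = v.1 * n.1 := by rw [h]
    · intro h
      rw [h]; group
  have hS' : IsPGroup p (S.subgroupOf N) := hS.2.1.comap_of_injective N.subtype N.subtype_injective
  have hidx : ¬ p ∣ (S.subgroupOf N).index := hS.2.2
  obtain ⟨K, hK1, hK2, hK3⟩ := fixed_points_direct_factor (L := ↥N) (M := ↥V) hVp
    (hS'.toSylow hidx)
  have hT : ∀ t : ↥N, t ∈ ((hS'.toSylow hidx : Sylow p ↥N) : Subgroup ↥N) ↔ t.1 ∈ S := by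
    intro t
    rw [IsPGroup.toSylow_coe hS' hidx, Subgroup.mem_subgroupOf]
  refine ⟨K.map V.subtype, Subgroup.map_subtype_le _, ?_, ?_, ?_⟩
  · rintro _ ⟨k, hk, rfl⟩ s hs
    exact (hfixiff ⟨s, hS.1 hs⟩ k).mp (hK1 k hk ⟨s, hS.1 hs⟩ ((hT _).mpr hs))
  · rintro _ ⟨k, hk, rfl⟩ hfix
    have := hK2 k hk (fun l => (hfixiff l k).mpr (hfix l.1 l.2))
    rw [this]; rfl
  · intro c hc hcS
    obtain ⟨w, hw, hcw⟩ := hK3 ⟨c, hc⟩ (fun t ht => (hfixiff t ⟨c, hc⟩).mpr (hcS t.1 ((hT t).mp ht)))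
    exact ⟨w.1, w.2, fun n hn => (hfixiff ⟨n, hn⟩ w).mp (hw ⟨n, hn⟩), ⟨_, hcw, rfl⟩⟩

end Cfsg.Agent.H39
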