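import Cfsg.Agent.H39.DirectFactor

set_option autoImplicit false

namespace Cfsg.Agent.H39

open Cfsg

variable {G : Type*} [Group G]

local notation "cj(" g ", " Q ")" => Subgroup.map (MulEquiv.toMonoidHom (MulAut.conj g)) Q
local notation "N(" Q ")" => Subgroup.normalizer (SetLike.coe (Q : Subgroup _))

/-- Core of statement S1944. -/
theorem weakly_closed_direct_factor [Finite G] {p : ℕ} [Fact p.Prime] (S : Sylow p G)
    (hZ : (S : Subgroup G) ⊓ Subgroup.centralizer ((S : Subgroup G) : Set G) ≤ pPrimePCore p G) :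
    ∃ W K : Subgroup G, (∀ x : G, x ∈ W ↔ (x ∈ (S : Subgroup G) ∧
        ∀ g : G, g * x * g⁻¹ ∈ (S : Subgroup G) → g * x * g⁻¹ = x)) ∧
      K ≤ (S : Subgroup G) ⊓ Subgroup.centralizer ((S : Subgroup G) : Set G) ∧ W ⊓ K = ⊥ ∧
      W ⊔ K = (S : Subgroup G) ⊓ Subgroup.centralizer ((S : Subgroup G) : Set G) := by
  have hKn : (pPrimeCore p G).Normal := pPrimeCore_normal' p
  have hLn : (pPrimePCore p G).Normal := pPrimePCore_normal' p
  have hSp : IsPGroup p (S : Subgroup G) := S.isPGroup'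
  have hLtop : ∀ g : G, g ∈ N(pPrimePCore p G) := by
    intro g
    rw [Subgroup.normalizer_eq_top_iff.mpr hLn]; exact Subgroup.mem_top g
  set P : Subgroup G := (S : Subgroup G) ⊓ pPrimePCore p G with hPdef
  have hP : SylIn p P (pPrimePCore p G) :=
    sylIn_inf_of_normal (sylIn_top S) le_top (fun g _ => hLtop g)
  have hLeq := pPrimePCore_eq_sup hP
  set V : Subgroup G := P ⊓ Subgroup.centralizer (P : Set G) with hVdef
  have hPS : P ≤ (S : Subgroup G) := inf_le_left
  have hVP : V ≤ P := inf_le_left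
  have hVS : V ≤ (S : Subgroup G) := hVP.trans hPS
  have hZV : (S : Subgroup G) ⊓ Subgroup.centralizer ((S : Subgroup G) : Set G) ≤ V := by
    intro z hz
    refine Subgroup.mem_inf.mpr ⟨Subgroup.mem_inf.mpr ⟨(Subgroup.mem_inf.mp hz).1, hZ hz⟩, ?_⟩
    exact Subgroup.centralizer_le (fun x hx => hPS hx) (Subgroup.mem_inf.mp hz).2
  have hSN : (S : Subgroup G) ≤ N(P) := by
    intro s hs
    apply mem_normalizer_of_conjMap_le
    rw [hPdef, inf_conjMap, conjMap_of_normal hLn,
      conjMap_of_mem_normalizer (Subgroup.le_normalizer hs)]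
  have hSsyl : SylIn p (S : Subgroup G) (N(P)) := (sylIn_top S).of_le_right hSN le_top
  have hNV : N(P) ≤ N(V) := by
    intro n hn
    apply mem_normalizer_of_conjMap_le
    rw [hVdef, inf_conjMap, conjMap_of_mem_normalizer hn,
      conjMap_of_mem_normalizer (normalizer_le_normalizer_centralizer _ hn)]
  have hVab : ∀ a ∈ V, ∀ b ∈ V, a * b = b * a := by
    intro a ha b hb
    exact (Subgroup.mem_centralizer_iff.mp (Subgroup.mem_inf.mp hb).2) a (hVP ha)
  have hVp : IsPGroup p V := hSp.to_le hVS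
  -- Frattini
  have hfr : ∀ g : G, ∃ k ∈ pPrimeCore p G, ∃ n ∈ N(P), g = k * n := by
    intro g
    obtain ⟨c, hcL, hcg⟩ := frattini_elt hP (hLtop g)
    have hc' : c⁻¹ ∈ P ⊔ pPrimeCore p G := by rw [← hLeq]; exact inv_mem hcL
    obtain ⟨s, hs, k, hk, hsk⟩ := Subgroup.mem_sup_of_normal_right.mp hc'
    refine ⟨s * k * s⁻¹, hKn.conj_mem k hk s, s * (c * g),
      mul_mem (Subgroup.le_normalizer hs) hcg, ?_⟩
    have : s * k * s⁻¹ * (s * (c * g)) = (s * k) * c * g := by group
    rw [this, hsk]; group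
  obtain ⟨K, hKV, hK1, hK2, hK3⟩ := fixed_direct_factor_subgroup hNV hVab hVp hSsyl
  have hKZ : K ≤ (S : Subgroup G) ⊓ Subgroup.centralizer ((S : Subgroup G) : Set G) := by
    intro k hk
    refine Subgroup.mem_inf.mpr ⟨hVS (hKV hk), ?_⟩
    rw [Subgroup.mem_centralizer_iff]
    intro s hs
    exact hK1 k hk s hs
  refine ⟨V ⊓ Subgroup.centralizer ((N(P) : Subgroup G) : Set G), K, ?_, hKZ, ?_, ?_⟩
  · intro x
    constructor
    · intro hx
      obtain ⟨hxV, hxN⟩ := Subgroup.mem_inf.mp hx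
      refine ⟨hVS hxV, ?_⟩
      intro g hg
      obtain ⟨k, hk, n, hn, rfl⟩ := hfr g
      have h1 : n * x * n⁻¹ = x := by
        have := (Subgroup.mem_centralizer_iff.mp hxN) n hn
        rw [this]; group
      have h2 : k * n * x * (k * n)⁻¹ = k * x * k⁻¹ := by
        calc k * n * x * (k * n)⁻¹ = k * (n * x * n⁻¹) * k⁻¹ := by group
          _ = k * x * k⁻¹ := by rw [h1]
      rw [h2] at hg ⊢
      have h3 : k * x * k⁻¹ * x⁻¹ ∈ (S : Subgroup G) ⊓ pPrimeCore p G := by
        refine Subgroup.mem_inf.mpr ⟨mul_mem hg (inv_mem (hVS hxV)), ?_⟩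
        have e : k * x * k⁻¹ * x⁻¹ = k * (x * k⁻¹ * x⁻¹) := by group
        rw [e]; exact mul_mem hk (hKn.conj_mem _ (inv_mem hk) x)
      rw [isPGroup_inf_pPrimeCore hSp, Subgroup.mem_bot] at h3
      exact mul_inv_eq_one.mp h3
    · rintro ⟨hxS, hx⟩
      have hxZ : x ∈ (S : Subgroup G) ⊓ Subgroup.centralizer ((S : Subgroup G) : Set G) := by
        refine Subgroup.mem_inf.mpr ⟨hxS, ?_⟩
        rw [Subgroup.mem_centralizer_iff]
        intro s hs
        have h1 : s * x * s⁻¹ ∈ (S : Subgroup G) := mul_mem (mul_mem hs hxS) (inv_mem hs)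
        have h2 := hx s h1
        calc s * x = (s * x * s⁻¹) * s := by group
          _ = x * s := by rw [h2]
      have hxV := hZV hxZ
      refine Subgroup.mem_inf.mpr ⟨hxV, ?_⟩
      rw [Subgroup.mem_centralizer_iff]
      intro n hn
      have h1 : n * x * n⁻¹ ∈ V := (Subgroup.mem_normalizer_iff.mp (hNV hn) x).mp hxV
      have h2 := hx n (hVS h1)
      calc n * x = (n * x * n⁻¹) * n := by group
        _ = x * n := by rw [h2]
  · rw [eq_bot_iff]
    intro x hx
    obtain ⟨hxW, hxK⟩ := Subgroup.mem_inf.mp hx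
    rw [Subgroup.mem_bot]
    apply hK2 x hxK
    intro n hn
    exact (Subgroup.mem_centralizer_iff.mp (Subgroup.mem_inf.mp hxW).2) n hn
  · apply le_antisymm
    · refine sup_le ?_ hKZ
      intro x hx
      obtain ⟨hxV, hxN⟩ := Subgroup.mem_inf.mp hx
      refine Subgroup.mem_inf.mpr ⟨hVS hxV, ?_⟩
      rw [Subgroup.mem_centralizer_iff]
      intro s hs
      exact (Subgroup.mem_centralizer_iff.mp hxN) s (hSN hs)
    · intro z hz
      have hzV := hZV hz
      obtain ⟨w, hwV, hwN, hzw⟩ := hK3 z hzV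
        (fun s hs => (Subgroup.mem_centralizer_iff.mp (Subgroup.mem_inf.mp hz).2) s hs)
      have e : z = w * (z * w⁻¹) := by
        rw [hVab w hwV (z * w⁻¹) (mul_mem hzV (inv_mem hwV))]; group
      rw [e]
      exact Subgroup.mul_mem_sup (Subgroup.mem_inf.mpr ⟨hwV, by
        rw [Subgroup.mem_centralizer_iff]; exact hwN⟩) hzw

end Cfsg.Agent.H39
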