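import Mathlib
import Cfsg.Agent.H92.Extra
import Cfsg.Prelude.Def_TwoFusion

set_option autoImplicit false
open Cfsg.Agent.H92

namespace Cfsg.Agent.H39.J2

/-- A subset `S` of a finite group stable under conjugation by an element `g` with `g ^ p = 1`
(`p` prime) has size congruent mod `p` to the number of its elements commuting with `g`. -/
theorem ncard_modEq_conj_fixed {G : Type*} [Group G] [Finite G] (p : ℕ) [Fact p.Prime] (g : G)
    (hg : g ^ p = 1) (S : Set G) (hS : ∀ a ∈ S, g * a * g⁻¹ ∈ S) :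
    S.ncard ≡ ({a | a ∈ S ∧ g * a = a * g} : Set G).ncard [MOD p] := by
  classical
  let _ : Fintype G := Fintype.ofFinite G
  let f : Function.End ↥S := fun a => ⟨g * a.1 * g⁻¹, hS a.1 a.2⟩
  have hpow : ∀ n : ℕ, ∀ a : ↥S, ((f ^ n) a).1 = g ^ n * a.1 * (g ^ n)⁻¹ := by
    intro n
    induction n with
    | zero =>
      intro a
      rw [pow_zero, pow_zero]
      show a.1 = 1 * a.1 * 1⁻¹
      simp
    | succ n ih =>
      intro a
      rw [pow_succ' f]
      have h1 : ((f * f ^ n) a).1 = g * ((f ^ n) a).1 * g⁻¹ := rfl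
      rw [h1, ih a, pow_succ']; group
  have hf : f ^ p ^ 1 = 1 := by
    rw [pow_one]
    funext a
    apply Subtype.ext
    rw [hpow p a, hg]
    show 1 * a.1 * 1⁻¹ = a.1
    simp
  have key := Equiv.Perm.card_fixedPoints_modEq (p := p) (n := 1) hf
  have h1 : Fintype.card ↥S = S.ncard := by
    rw [← Nat.card_eq_fintype_card, Nat.card_coe_set_eq]
  have h2 : Fintype.card ↥(Function.fixedPoints f) =
      ({a | a ∈ S ∧ g * a = a * g} : Set G).ncard := by
    rw [← Nat.card_eq_fintype_card, Nat.card_coe_set_eq]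
    have h3 : ({a | a ∈ S ∧ g * a = a * g} : Set G) =
        Subtype.val '' (Function.fixedPoints f) := by
      ext a
      constructor
      · rintro ⟨haS, hac⟩
        refine ⟨⟨a, haS⟩, ?_, rfl⟩
        show f ⟨a, haS⟩ = ⟨a, haS⟩
        apply Subtype.ext
        show g * a * g⁻¹ = a
        rw [hac]; group
      · rintro ⟨b, hb, rfl⟩
        refine ⟨b.2, ?_⟩
        have h4 : (f b).1 = b.1 := congrArg Subtype.val hb
        have h5 : g * b.1 * g⁻¹ = b.1 := h4
        calc g * b.1 = (g * b.1 * g⁻¹) * g := by group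
          _ = b.1 * g := by rw [h5]
    rw [h3, Set.ncard_image_of_injective _ Subtype.val_injective]
  rw [h1, h2] at key
  exact key

/-- 10 non-central involutions in `2^{1+4}_-` (piece S3313-G, exact statement posted by
helper47). -/
theorem es32_invol {G : Type*} [Group G] [Finite G] {Q : Subgroup G} {z : G} (h : ESPair Q z)
    (hcard : Nat.card Q = 32)
    (hB1 : ∀ s ∈ Q, s ≠ 1 → s ≠ z → Nat.card {x : G // x ∈ Q ∧ x * s = s * x} = 16)
    (hB2 : Nat.card {a : G // a ∈ Q ∧ a * a = 1} = 12 ∨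
      Nat.card {a : G // a ∈ Q ∧ a * a = 1} = 20)
    (g : G) (hg : orderOf g = 5) (hgz : g * z = z * g) :
    Nat.card {a : G // a ∈ Q ∧ a * a = 1 ∧ a ≠ 1 ∧ a ≠ z} = 10 ∧
    ∀ a ∈ Q, a * a = 1 → a ≠ 1 → a ≠ z → ∀ b ∈ Q, b * b = 1 → b * a = a * b →
      b = 1 ∨ b = z ∨ b = a ∨ b = z * a := by
  classical
  have : Fact (Nat.Prime 5) := ⟨by norm_num⟩
  have hfin : ∀ s : Set G, s.Finite := fun s => Set.toFinite s
  have hg5 : g ^ 5 = 1 := by rw [← hg]; exact pow_orderOf_eq_one g
  have hQc : (Q : Set G).ncard = 32 := by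
    rw [← hcard]; exact (Nat.card_coe_set_eq (Q : Set G)).symm
  have hzinv : z⁻¹ = z := inv_eq_of_mul_eq_one_left h.z_sq
  -- Step 1: the fixed points of `g` on `Q` are `1, z`.
  have hF : ∀ a ∈ Q, g * a = a * g → a = 1 ∨ a = z := by
    have hmod := ncard_modEq_conj_fixed 5 g hg5 (Q : Set G) (fun a ha => h.norm g hgz a ha)
    have hFeq : ({a | a ∈ (Q : Set G) ∧ g * a = a * g} : Set G) =
        ((Q ⊓ Subgroup.centralizer {g} : Subgroup G) : Set G) := by
      ext a
      simp only [Set.mem_ofPred_eq, SetLike.mem_coe, Subgroup.mem_inf,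
        Subgroup.mem_centralizer_iff, Set.mem_singleton_iff, forall_eq]
    have hdvd : ({a | a ∈ (Q : Set G) ∧ g * a = a * g} : Set G).ncard ∣ 32 := by
      rw [hFeq, ← hcard]
      have h1 := Subgroup.card_dvd_of_le (inf_le_left : Q ⊓ Subgroup.centralizer {g} ≤ Q)
      have h2 : Nat.card ↥(Q ⊓ Subgroup.centralizer {g} : Subgroup G) =
          ((Q ⊓ Subgroup.centralizer {g} : Subgroup G) : Set G).ncard :=
        Nat.card_coe_set_eq _
      rw [← h2]; exact h1
    rw [hQc] at hmod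
    have hsub : ({a | a ∈ (Q : Set G) ∧ g * a = a * g} : Set G) ⊆ (Q : Set G) :=
      fun a ha => ha.1
    have hcases : ({a | a ∈ (Q : Set G) ∧ g * a = a * g} : Set G).ncard = 2 ∨
        ({a | a ∈ (Q : Set G) ∧ g * a = a * g} : Set G).ncard = 32 := by
      generalize ({a | a ∈ (Q : Set G) ∧ g * a = a * g} : Set G).ncard = d at hdvd hmod
      have hle := Nat.le_of_dvd (by norm_num) hdvd
      unfold Nat.ModEq at hmod
      interval_cases d <;> omega
    rcases hcases with h2 | h32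
    · have hsub2 : ({1, z} : Set G) ⊆ {a | a ∈ (Q : Set G) ∧ g * a = a * g} := by
        rintro x (rfl | rfl)
        · exact ⟨Q.one_mem, by simp⟩
        · exact ⟨h.z_mem, hgz⟩
      have heq := Set.eq_of_subset_of_ncard_le hsub2
        (by rw [h2, Set.ncard_pair (Ne.symm h.z_ne)]) (hfin _)
      intro a ha hac
      have : a ∈ ({1, z} : Set G) := by rw [heq]; exact ⟨ha, hac⟩
      simpa using this
    · exfalso
      have heq := Set.eq_of_subset_of_ncard_le hsub (by rw [h32, hQc]) (hfin _)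
      have hall : ∀ q ∈ Q, q * g = g * q := by
        intro q hq
        have : q ∈ ({a | a ∈ (Q : Set G) ∧ g * a = a * g} : Set G) := by rw [heq]; exact hq
        exact this.2.symm
      rcases h.cent g hall with h1 | h1
      · rw [h1] at hg; simp at hg
      · have h3 : orderOf g ∣ 2 := orderOf_dvd_of_pow_eq_one (by rw [h1, pow_two, h.z_sq])
        rw [hg] at h3
        omega
  -- Step 2: the number of non-central involutions is 10.
  have hN0 : ({a | a ∈ Q ∧ a * a = 1} : Set G).ncard = 12 ∨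
      ({a | a ∈ Q ∧ a * a = 1} : Set G).ncard = 20 := by
    rcases hB2 with h1 | h1
    · left; rw [← h1]; exact (Nat.card_coe_set_eq _).symm
    · right; rw [← h1]; exact (Nat.card_coe_set_eq _).symm
  have hJN : ({a | a ∈ Q ∧ a * a = 1 ∧ a ≠ 1 ∧ a ≠ z} : Set G) =
      {a | a ∈ Q ∧ a * a = 1} \ {1, z} := by
    ext a
    simp only [Set.mem_ofPred_eq, Set.mem_sdiff, Set.mem_insert_iff, Set.mem_singleton_iff,
      not_or]
    tauto
  have hsub3 : ({1, z} : Set G) ⊆ {a | a ∈ Q ∧ a * a = 1} := by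
    rintro x (rfl | rfl)
    · exact ⟨Q.one_mem, by simp⟩
    · exact ⟨h.z_mem, h.z_sq⟩
  have hJcard : ({a | a ∈ Q ∧ a * a = 1 ∧ a ≠ 1 ∧ a ≠ z} : Set G).ncard =
      ({a | a ∈ Q ∧ a * a = 1} : Set G).ncard - 2 := by
    rw [hJN, Set.ncard_sdiff hsub3 (hfin _), Set.ncard_pair (Ne.symm h.z_ne)]
  have hJmod : ({a | a ∈ Q ∧ a * a = 1 ∧ a ≠ 1 ∧ a ≠ z} : Set G).ncard ≡ 0 [MOD 5] := by
    have hmod := ncard_modEq_conj_fixed 5 g hg5
      ({a | a ∈ Q ∧ a * a = 1 ∧ a ≠ 1 ∧ a ≠ z} : Set G) (by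
        rintro a ⟨haQ, haa, ha1, haz⟩
        refine ⟨h.norm g hgz a haQ, ?_, ?_, ?_⟩
        · calc g * a * g⁻¹ * (g * a * g⁻¹) = g * (a * a) * g⁻¹ := by group
            _ = 1 := by rw [haa]; group
        · intro h1
          apply ha1
          calc a = g⁻¹ * (g * a * g⁻¹) * g := by group
            _ = 1 := by rw [h1]; group
        · intro h1
          apply haz
          calc a = g⁻¹ * (g * a * g⁻¹) * g := by group
            _ = g⁻¹ * (z * g) := by rw [h1, mul_assoc]
            _ = z := by rw [← hgz]; group)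
    have hempty : ({a | a ∈ ({a | a ∈ Q ∧ a * a = 1 ∧ a ≠ 1 ∧ a ≠ z} : Set G) ∧
        g * a = a * g} : Set G) = ∅ := by
      ext a
      simp only [Set.mem_ofPred_eq, Set.mem_empty_iff_false, iff_false]
      rintro ⟨⟨haQ, -, ha1, haz⟩, hac⟩
      rcases hF a haQ hac with h1 | h1
      · exact ha1 h1
      · exact haz h1
    rw [hempty, Set.ncard_empty] at hmod
    exact hmod
  have hN12 : ({a | a ∈ Q ∧ a * a = 1} : Set G).ncard = 12 := by
    rcases hN0 with h1 | h1
    · exact h1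
    · exfalso
      rw [hJcard, h1] at hJmod
      unfold Nat.ModEq at hJmod
      omega
  have hJ10 : ({a | a ∈ Q ∧ a * a = 1 ∧ a ≠ 1 ∧ a ≠ z} : Set G).ncard = 10 := by
    rw [hJcard, hN12]
  refine ⟨by rw [← hJ10]; exact Nat.card_coe_set_eq _, ?_⟩
  -- Steps 3 and 4.
  intro a haQ haa ha1 haz b hbQ hbb hba
  have hainv : a⁻¹ = a := inv_eq_of_mul_eq_one_left haa
  have hCa : ({x | x ∈ Q ∧ x * a = a * x} : Set G).ncard = 16 := by
    rw [← hB1 a haQ ha1 haz]; exact (Nat.card_coe_set_eq _).symm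
  have hNa : ({u | u ∈ Q ∧ ¬ u * a = a * u} : Set G).ncard = 16 := by
    have h1 : ({u | u ∈ Q ∧ ¬ u * a = a * u} : Set G) =
        (Q : Set G) \ {x | x ∈ Q ∧ x * a = a * x} := by
      ext u
      simp only [Set.mem_ofPred_eq, Set.mem_sdiff, SetLike.mem_coe, not_and]
      tauto
    rw [h1, Set.ncard_sdiff (fun x hx => hx.1) (hfin _), hQc, hCa]
  -- the key relation for non-commuting elements
  have hrel : ∀ u ∈ Q, ¬ u * a = a * u → u * a = z * a * u := by
    intro u huQ hnc
    rcases h.comm u huQ a haQ with h1 | h1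
    · exfalso
      apply hnc
      calc u * a = (u * a * u⁻¹ * a⁻¹) * a * u := by group
        _ = a * u := by rw [h1, one_mul]
    · calc u * a = (u * a * u⁻¹ * a⁻¹) * a * u := by group
        _ = z * a * u := by rw [h1]
  have hncm : ∀ u : G, ¬ u * a = a * u → ¬ (u * a) * a = a * (u * a) := by
    intro u hnc hc
    apply hnc
    have : (u * a) * a = (a * u) * a := by rw [hc, mul_assoc]
    exact mul_right_cancel this
  have hA12 : ({u | u ∈ Q ∧ u * u = z ∧ ¬ u * a = a * u} : Set G) =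
      (fun u => u * a) '' {u | u ∈ Q ∧ u * u = 1 ∧ ¬ u * a = a * u} := by
    ext v
    constructor
    · rintro ⟨hvQ, hvv, hnc⟩
      refine ⟨v * a, ⟨Q.mul_mem hvQ haQ, ?_, hncm v hnc⟩, ?_⟩
      · have h1 := hrel v hvQ hnc
        calc v * a * (v * a) = (v * a) * v * a := by group
          _ = (z * a * v) * v * a := by rw [h1]
          _ = z * a * (v * v) * a := by group
          _ = z * (a * z) * a := by rw [hvv]; group
          _ = z * (z * a) * a := by rw [h.z_central a haQ]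
          _ = (z * z) * (a * a) := by group
          _ = 1 := by rw [h.z_sq, haa, one_mul]
      · show v * a * a = v
        rw [mul_assoc, haa, mul_one]
    · rintro ⟨u, ⟨huQ, huu, hnc⟩, rfl⟩
      refine ⟨Q.mul_mem huQ haQ, ?_, hncm u hnc⟩
      have h1 := hrel u huQ hnc
      calc u * a * (u * a) = (u * a) * u * a := by group
        _ = (z * a * u) * u * a := by rw [h1]
        _ = z * a * (u * u) * a := by group
        _ = z * (a * a) := by rw [huu]; group
        _ = z := by rw [haa, mul_one]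
  have hA12c : ({u | u ∈ Q ∧ u * u = z ∧ ¬ u * a = a * u} : Set G).ncard =
      ({u | u ∈ Q ∧ u * u = 1 ∧ ¬ u * a = a * u} : Set G).ncard := by
    rw [hA12]
    exact Set.ncard_image_of_injective _ (mul_left_injective a)
  have hNsplit : ({u | u ∈ Q ∧ ¬ u * a = a * u} : Set G) =
      {u | u ∈ Q ∧ u * u = 1 ∧ ¬ u * a = a * u} ∪ {u | u ∈ Q ∧ u * u = z ∧ ¬ u * a = a * u} := by
    ext u
    simp only [Set.mem_ofPred_eq, Set.mem_union]
    constructor
    · rintro ⟨huQ, hnc⟩
      rcases h.sq u huQ with h1 | h1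
      · exact Or.inl ⟨huQ, h1, hnc⟩
      · exact Or.inr ⟨huQ, h1, hnc⟩
    · rintro (⟨huQ, -, hnc⟩ | ⟨huQ, -, hnc⟩) <;> exact ⟨huQ, hnc⟩
  have hNdisj : Disjoint ({u | u ∈ Q ∧ u * u = 1 ∧ ¬ u * a = a * u} : Set G)
      {u | u ∈ Q ∧ u * u = z ∧ ¬ u * a = a * u} := by
    rw [Set.disjoint_left]
    rintro u ⟨-, h1, -⟩ ⟨-, h2, -⟩
    exact h.z_ne (h2.symm.trans h1)
  have hA1 : ({u | u ∈ Q ∧ u * u = 1 ∧ ¬ u * a = a * u} : Set G).ncard = 8 := by
    have h1 := Set.ncard_union_eq hNdisj (hfin _) (hfin _)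
    rw [← hNsplit, hNa, hA12c] at h1
    omega
  have hCsplit : ({a | a ∈ Q ∧ a * a = 1} : Set G) =
      {u | u ∈ Q ∧ u * u = 1 ∧ ¬ u * a = a * u} ∪ {u | u ∈ Q ∧ u * u = 1 ∧ u * a = a * u} := by
    ext u
    simp only [Set.mem_ofPred_eq, Set.mem_union]
    tauto
  have hCdisj : Disjoint ({u | u ∈ Q ∧ u * u = 1 ∧ ¬ u * a = a * u} : Set G)
      {u | u ∈ Q ∧ u * u = 1 ∧ u * a = a * u} := by
    rw [Set.disjoint_left]
    rintro u ⟨-, -, h1⟩ ⟨-, -, h2⟩
    exact h1 h2
  have hC4 : ({u | u ∈ Q ∧ u * u = 1 ∧ u * a = a * u} : Set G).ncard = 4 := by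
    have h1 := Set.ncard_union_eq hCdisj (hfin _) (hfin _)
    rw [← hCsplit, hN12, hA1] at h1
    omega
  have hza1 : z * a ≠ 1 := by
    intro h1
    apply haz
    calc a = z⁻¹ * (z * a) := by group
      _ = z := by rw [h1, hzinv, mul_one]
  have hzaz : z * a ≠ z := by
    intro h1
    apply ha1
    calc a = z⁻¹ * (z * a) := by group
      _ = 1 := by rw [h1]; group
  have hzaa : z * a ≠ a := by
    intro h1
    apply h.z_ne
    calc z = (z * a) * a⁻¹ := by group
      _ = 1 := by rw [h1]; group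
  have hfour : ({1, z, a, z * a} : Set G).ncard = 4 := by
    rw [Set.ncard_insert_of_notMem (by
        simp only [Set.mem_insert_iff, Set.mem_singleton_iff, not_or]
        exact ⟨Ne.symm h.z_ne, Ne.symm ha1, Ne.symm hza1⟩) (hfin _),
      Set.ncard_insert_of_notMem (by
        simp only [Set.mem_insert_iff, Set.mem_singleton_iff, not_or]
        exact ⟨Ne.symm haz, Ne.symm hzaz⟩) (hfin _),
      Set.ncard_pair (Ne.symm hzaa)]
  have hsub4 : ({1, z, a, z * a} : Set G) ⊆ {u | u ∈ Q ∧ u * u = 1 ∧ u * a = a * u} := by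
    intro x hx
    simp only [Set.mem_insert_iff, Set.mem_singleton_iff] at hx
    rcases hx with hx | hx | hx | hx
    · rw [hx]; exact ⟨Q.one_mem, by simp, by simp⟩
    · rw [hx]; exact ⟨h.z_mem, h.z_sq, (h.z_central a haQ).symm⟩
    · rw [hx]; exact ⟨haQ, haa, rfl⟩
    · rw [hx]
      refine ⟨Q.mul_mem h.z_mem haQ, ?_, ?_⟩
      · calc z * a * (z * a) = z * (a * z) * a := by group
          _ = z * (z * a) * a := by rw [h.z_central a haQ]
          _ = (z * z) * (a * a) := by group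
          _ = 1 := by rw [h.z_sq, haa, one_mul]
      · calc z * a * a = (z * a) * a := rfl
          _ = (a * z) * a := by rw [h.z_central a haQ]
          _ = a * (z * a) := by group
  have heq4 := Set.eq_of_subset_of_ncard_le hsub4 (by rw [hfour, hC4]) (hfin _)
  have hb : b ∈ ({1, z, a, z * a} : Set G) := by
    rw [heq4]; exact ⟨hbQ, hbb, hba⟩
  simpa using hb

end Cfsg.Agent.H39.J2
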