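import Mathlib
import Cfsg.Agent.H92.Extra
import Cfsg.Prelude.Def_TwoFusion

set_option autoImplicit false
open Cfsg.Agent.H92

namespace Cfsg.Agent.H39.J2

/-- The fibre count 8 (piece S3313-I, exact statement posted by helper47). -/
theorem f8_count {G : Type*} [Group G] [Finite G] {Q : Subgroup G} {z : G} (h : ESPair Q z)
    (hJ : Nat.card {a : G // a ∈ Q ∧ a * a = 1 ∧ a ≠ 1 ∧ a ≠ z} = 10)
    (hB3 : ∀ a ∈ Q, a * a = 1 → a ≠ 1 → a ≠ z → ∀ b ∈ Q, b * b = 1 → b * a = a * b →
      b = 1 ∨ b = z ∨ b = a ∨ b = z * a)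
    (y : G) (hy : orderOf y = 2) (hyz : y * z = z * y) (hyQ : y ∉ Q)
    (hC : Nat.card {q : G // q ∈ Q ∧ q * y = y * q} = 4)
    (hC2 : ∀ q ∈ Q, q * y = y * q → q * q = 1) :
    Nat.card {x : G // x ∈ Q ∧ orderOf x = 2 ∧ z ∈ Subgroup.zpowers (x * y)} = 8 := by
  classical
  have hyy : y * y = 1 := by
    have := pow_orderOf_eq_one y
    rw [hy, pow_two] at this
    exact this
  have hyinv : y⁻¹ = y := inv_eq_of_mul_eq_one_left hyy
  have claim : ∀ x ∈ Q, orderOf x = 2 →
      (z ∈ Subgroup.zpowers (x * y) ↔ ¬ (x * y = y * x)) := by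
    intro x hxQ hx2
    have hxx : x * x = 1 := by
      have := pow_orderOf_eq_one x
      rw [hx2, pow_two] at this
      exact this
    have hx1 : x ≠ 1 := by
      rintro rfl
      simp at hx2
    constructor
    · intro hz hcomm
      have hsq : (x * y) * (x * y) = 1 := by
        calc (x * y) * (x * y) = x * (y * x) * y := by group
          _ = x * (x * y) * y := by rw [hcomm]
          _ = (x * x) * (y * y) := by group
          _ = 1 := by rw [hxx, hyy, one_mul]
      obtain ⟨k, hk⟩ := Subgroup.mem_zpowers_iff.mp hz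
      rcases Int.even_or_odd k with ⟨m, hm⟩ | ⟨m, hm⟩
      · apply h.z_ne
        rw [← hk, hm, ← two_mul, zpow_mul, zpow_two, hsq, one_zpow]
      · have h1 : z = x * y := by
          rw [← hk, hm, zpow_add, zpow_mul, zpow_two, hsq, one_zpow, one_mul, zpow_one]
        apply hyQ
        have h2 : y = x⁻¹ * z := by rw [h1]; group
        rw [h2]
        exact Q.mul_mem (Q.inv_mem hxQ) h.z_mem
    · intro hncomm
      have hx'Q : y * x * y⁻¹ ∈ Q := h.norm y hyz x hxQ
      have hx'x' : (y * x * y⁻¹) * (y * x * y⁻¹) = 1 := by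
        calc y * x * y⁻¹ * (y * x * y⁻¹) = y * (x * x) * y⁻¹ := by group
          _ = 1 := by rw [hxx]; group
      have hx'ne : y * x * y⁻¹ ≠ x := by
        intro he
        apply hncomm
        have h3 : y * x = x * y := by
          calc y * x = (y * x * y⁻¹) * y := by group
            _ = x * y := by rw [he]
        exact h3.symm
      have hq : (x * y) * (x * y) = x * (y * x * y⁻¹) := by
        rw [hyinv]
        group
      have hxz : x ≠ z := by
        rintro rfl
        exact hncomm hyz.symm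
      have hxrec : x = y⁻¹ * (y * x * y⁻¹) * y := by group
      rcases h.sq (x * (y * x * y⁻¹)) (Q.mul_mem hxQ hx'Q) with h1 | h1
      · have hxi : x⁻¹ = x := inv_eq_of_mul_eq_one_left hxx
        have hx'i : (y * x * y⁻¹)⁻¹ = y * x * y⁻¹ := inv_eq_of_mul_eq_one_left hx'x'
        have hcomm' : (y * x * y⁻¹) * x = x * (y * x * y⁻¹) := by
          have h4 : (y * x * y⁻¹) * x = (x * (y * x * y⁻¹))⁻¹ := by
            rw [mul_inv_rev, hxi, hx'i]
          rw [h4]
          exact inv_eq_of_mul_eq_one_left h1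
        rcases hB3 x hxQ hxx hx1 hxz (y * x * y⁻¹) hx'Q hx'x' hcomm' with h2 | h2 | h2 | h2
        · exfalso
          apply hx1
          rw [hxrec, h2]; group
        · exfalso
          apply hxz
          rw [hxrec, h2, mul_assoc, ← hyz]; group
        · exact absurd h2 hx'ne
        · have h5 : (x * y) ^ (2:ℤ) = z := by
            rw [zpow_two, hq, h2, ← mul_assoc, h.z_central x hxQ, mul_assoc, hxx, mul_one]
          exact Subgroup.mem_zpowers_iff.mpr ⟨2, h5⟩
      · have h5 : (x * y) ^ (4:ℤ) = z := by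
          have h6 : (x * y) ^ (4:ℤ) = ((x * y) * (x * y)) * ((x * y) * (x * y)) := by
            rw [show (4:ℤ) = 2 + 2 from rfl, zpow_add, zpow_two]
          rw [h6, hq, h1]
        exact Subgroup.mem_zpowers_iff.mpr ⟨4, h5⟩
  have hJ' : ({a | a ∈ Q ∧ a * a = 1 ∧ a ≠ 1 ∧ a ≠ z} : Set G).ncard = 10 := by
    rw [← hJ]; exact (Nat.card_coe_set_eq _).symm
  have hC' : ({q | q ∈ Q ∧ q * y = y * q} : Set G).ncard = 4 := by
    rw [← hC]; exact (Nat.card_coe_set_eq _).symm
  have hgoal : ({x | x ∈ Q ∧ orderOf x = 2 ∧ z ∈ Subgroup.zpowers (x * y)} : Set G).ncard = 8 := by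
    have hfin : ∀ s : Set G, s.Finite := fun s => Set.toFinite s
    have h1 : ({x | x ∈ Q ∧ orderOf x = 2 ∧ z ∈ Subgroup.zpowers (x * y)} : Set G) =
        {a | a ∈ Q ∧ a * a = 1 ∧ a ≠ 1 ∧ a ≠ z} \ ({q | q ∈ Q ∧ q * y = y * q} \ {1, z}) := by
      ext x
      simp only [Set.mem_ofPred_eq, Set.mem_sdiff, Set.mem_insert_iff, Set.mem_singleton_iff]
      constructor
      · rintro ⟨hxQ, hx2, hz⟩
        have hnc := (claim x hxQ hx2).mp hz
        have hxx : x * x = 1 := by
          have := pow_orderOf_eq_one x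
          rw [hx2, pow_two] at this
          exact this
        refine ⟨⟨hxQ, hxx, ?_, ?_⟩, ?_⟩
        · rintro rfl
          simp at hx2
        · rintro rfl
          exact hnc hyz.symm
        · rintro ⟨⟨-, hc⟩, -⟩
          exact hnc hc
      · rintro ⟨⟨hxQ, hxx, hx1, hxz⟩, hn⟩
        have hx2 : orderOf x = 2 := orderOf_eq_prime (by rw [pow_two]; exact hxx) hx1
        refine ⟨hxQ, hx2, (claim x hxQ hx2).mpr ?_⟩
        intro hc
        apply hn
        refine ⟨⟨hxQ, hc⟩, ?_⟩
        rintro (h7 | h7)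
        · exact hx1 h7
        · exact hxz h7
    have h2 : ({q | q ∈ Q ∧ q * y = y * q} \ {1, z} : Set G) ⊆
        {a | a ∈ Q ∧ a * a = 1 ∧ a ≠ 1 ∧ a ≠ z} := by
      rintro x ⟨⟨hxQ, hxc⟩, hx⟩
      simp only [Set.mem_insert_iff, Set.mem_singleton_iff, not_or] at hx
      exact ⟨hxQ, hC2 x hxQ hxc, hx.1, hx.2⟩
    have h3 : ({1, z} : Set G) ⊆ {q | q ∈ Q ∧ q * y = y * q} := by
      rintro x (rfl | rfl)
      · exact ⟨Q.one_mem, by simp⟩
      · exact ⟨h.z_mem, hyz.symm⟩
    have h4 : ({1, z} : Set G).ncard = 2 := Set.ncard_pair (Ne.symm h.z_ne)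
    rw [h1, Set.ncard_sdiff h2 (hfin _), Set.ncard_sdiff h3 (hfin _), hJ', hC', h4]
  rw [← hgoal]
  exact Nat.card_coe_set_eq _

end Cfsg.Agent.H39.J2
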