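import Mathlib
import Cfsg.Agent.H39.Transfer2
import Cfsg.Agent.H39.CoreOf
import Cfsg.Agent.H39.OmegaLemma
import Cfsg.Agent.H39.PNilp2

set_option autoImplicit false

namespace Cfsg.Agent.H39

open scoped commutatorElement

variable {G : Type*} [Group G]

local notation "cj(" g ", " Q ")" => Subgroup.map (MulEquiv.toMonoidHom (MulAut.conj g)) Q
local notation "N(" Q ")" => Subgroup.normalizer (SetLike.coe Q)

/-- `g` acts on `A` as some element of `N(W)`. -/
def GoodM (W A : Subgroup G) (g : G) : Prop :=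
  ∃ h ∈ N(W), ∀ a ∈ A, h * a * h⁻¹ = g * a * g⁻¹

namespace GoodM

variable {W A A' : Subgroup G} {g g₁ g₂ c : G}

theorem of_mem (hg : g ∈ N(W)) : GoodM W A g := ⟨g, hg, fun _ _ => rfl⟩

theorem of_centralizes (hc : ∀ a ∈ A, c * a * c⁻¹ = a) : GoodM W A c :=
  ⟨1, one_mem _, fun a ha => by rw [hc a ha]; group⟩

theorem mono (h : GoodM W A g) (hA : A' ≤ A) : GoodM W A' g := by
  obtain ⟨k, hk, hka⟩ := h
  exact ⟨k, hk, fun a ha => hka a (hA ha)⟩

theorem trans (h₁ : GoodM W A g₁) (h₂ : GoodM W (cj(g₁, A)) g₂) : GoodM W A (g₂ * g₁) := by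
  obtain ⟨k₁, hk₁, e₁⟩ := h₁
  obtain ⟨k₂, hk₂, e₂⟩ := h₂
  refine ⟨k₂ * k₁, mul_mem hk₂ hk₁, fun a ha => ?_⟩
  have h3 := e₂ (g₁ * a * g₁⁻¹) (conj_mem_conjMap ha)
  have h4 : k₂ * k₁ * a * (k₂ * k₁)⁻¹ = k₂ * (k₁ * a * k₁⁻¹) * k₂⁻¹ := by group
  rw [h4, e₁ a ha, h3]
  group

theorem exists_mul (h : GoodM W A g) :
    ∃ k ∈ N(W), ∃ c ∈ Subgroup.centralizer (A : Set G), g = k * c := by
  obtain ⟨k, hk, e⟩ := h
  refine ⟨k, hk, k⁻¹ * g, ?_, by group⟩
  rw [Subgroup.mem_centralizer_iff]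
  intro a ha
  have h1 := e a ha
  have h2 : k⁻¹ * g * a = k⁻¹ * (g * a * g⁻¹) * g := by group
  rw [h2, ← h1]
  group

end GoodM

/-- A normal subgroup whose quotient has `p`-power exponent has `p`-power index. -/
theorem relIndex_eq_pow_of_pow_mem [Finite G] {p : ℕ} [Fact p.Prime] {C D : Subgroup G}
    (hCD : C ≤ D) (hnorm : D ≤ N(C)) {a : ℕ} (hpow : ∀ y ∈ D, y ^ p ^ a ∈ C) :
    ∃ n : ℕ, C.relIndex D = p ^ n := by
  haveI : (C.subgroupOf D).Normal := (Subgroup.normal_subgroupOf_iff_le_normalizer hCD).mpr hnorm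
  have hpg : IsPGroup p (↥D ⧸ C.subgroupOf D) := by
    intro x
    induction x using QuotientGroup.induction_on with
    | H y =>
      refine ⟨a, ?_⟩
      rw [← QuotientGroup.mk_pow, QuotientGroup.eq_one_iff, Subgroup.mem_subgroupOf,
        Subgroup.coe_pow]
      exact hpow y y.2
  obtain ⟨n, hn⟩ := IsPGroup.iff_card.mp hpg
  refine ⟨n, ?_⟩
  rw [← hn, ← Subgroup.index_eq_card]
  rfl

/-- Relative version of `exists_mul_of_index_pow`. -/
theorem exists_mul_of_relIndex_pow [Finite G] {p : ℕ} [Fact p.Prime] {R D C : Subgroup G}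
    (hR : SylIn p R D) {k : ℕ} (hk : C.relIndex D = p ^ k) {s : G} (hs : s ∈ D) :
    ∃ r ∈ R, ∃ c ∈ C, s = r * c := by
  let P' : Sylow p ↥D := (hR.2.1.comap_subtype : IsPGroup p (R.subgroupOf D)).toSylow hR.2.2
  obtain ⟨r, hr, c, hc, e⟩ := exists_mul_of_index_pow P' (C := C.subgroupOf D) hk ⟨s, hs⟩
  exact ⟨r, Subgroup.mem_subgroupOf.mp hr, c, Subgroup.mem_subgroupOf.mp hc,
    congrArg Subtype.val e⟩

/-- The chain `U ≥ U ∩ W ≥ U ∩ L₁(W) ≥ …`. -/
def chainD (U W : Subgroup G) : ℕ → Subgroup G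
  | 0 => U
  | (j + 1) => U ⊓ W.lowerCentralSeries j

theorem chainD_le (U W : Subgroup G) (i : ℕ) : chainD U W i ≤ U := by
  cases i with
  | zero => exact le_rfl
  | succ j => exact inf_le_left

theorem comm_mul_eq (u s t : G) : ⁅u, s * t⁆ = ⁅u, s⁆ * (s * ⁅u, t⁆ * s⁻¹) := by
  simp only [commutatorElement_def]; group

theorem comm_inv_eq (u s : G) : ⁅u, s⁻¹⁆ = s⁻¹ * (⁅u, s⁆)⁻¹ * s⁻¹⁻¹ := by
  simp only [commutatorElement_def]; group

theorem comm_conj_eq (u z s : G) : ⁅u, z * s * z⁻¹⁆ = z * ⁅z⁻¹ * u * z⁻¹⁻¹, s⁆ * z⁻¹ := by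
  simp only [commutatorElement_def]; group

/-- The stabilizer in `N(U)` of the chain. -/
def chainStab (U W : Subgroup G)
    (hnorm : ∀ z ∈ N(U), ∀ i, ∀ u ∈ chainD U W i, z * u * z⁻¹ ∈ chainD U W i) : Subgroup G where
  carrier := {s | s ∈ N(U) ∧ ∀ i, ∀ u ∈ chainD U W i, ⁅u, s⁆ ∈ chainD U W (i + 1)}
  one_mem' := ⟨one_mem _, fun i u _ => by rw [commutatorElement_one_right]; exact one_mem _⟩
  mul_mem' := by
    rintro s t ⟨hs, hs'⟩ ⟨ht, ht'⟩
    refine ⟨mul_mem hs ht, fun i u hu => ?_⟩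
    rw [comm_mul_eq]
    exact mul_mem (hs' i u hu) (hnorm s hs _ _ (ht' i u hu))
  inv_mem' := by
    rintro s ⟨hs, hs'⟩
    refine ⟨inv_mem hs, fun i u hu => ?_⟩
    rw [comm_inv_eq]
    exact hnorm s⁻¹ (inv_mem hs) _ _ (inv_mem (hs' i u hu))

/-- The step of the induction: a fully normalized `U`. -/
theorem core_step [Finite G] {p : ℕ} [Fact p.Prime] (P : Sylow p G) {W : Subgroup G}
    (hWP : W ≤ (P : Subgroup G)) (hPW : (P : Subgroup G) ≤ N(W))
    (hsc : ∀ i, ∀ x ∈ W.lowerCentralSeries i, ∀ g : G, g * x * g⁻¹ ∈ (P : Subgroup G) →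
      g * x * g⁻¹ ∈ W.lowerCentralSeries i)
    {U : Subgroup G} (hUP : U ≤ (P : Subgroup G))
    (hfn : SylIn p ((P : Subgroup G) ⊓ N(U)) (N(U)))
    (ih : ∀ B : Subgroup G, B ≤ (P : Subgroup G) → Nat.card U < Nat.card B →
      ∀ g : G, cj(g, B) ≤ (P : Subgroup G) → GoodM W B g)
    {x : G} (hx : x ∈ N(U)) : GoodM W U x := by
  have hp : p.Prime := Fact.out
  have hPp : IsPGroup p (P : Subgroup G) := P.isPGroup'
  have hUp : IsPGroup p U := hPp.to_le hUP
  by_cases hWU : W ≤ U
  · apply GoodM.of_mem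
    apply mem_normalizer_of_conjMap_le
    rw [conjMap_le_iff]
    intro w hw
    have h1 : x * w * x⁻¹ ∈ U := by
      have := conj_mem_conjMap (g := x) (hWU hw)
      rwa [conjMap_of_mem_normalizer hx] at this
    exact hsc 0 w hw x (hUP h1)
  · -- the chain is normalized by `N(U)`
    have hnorm : ∀ z ∈ N(U), ∀ i, ∀ u ∈ chainD U W i, z * u * z⁻¹ ∈ chainD U W i := by
      intro z hz i u hu
      have h1 : z * u * z⁻¹ ∈ U := by
        have := conj_mem_conjMap (g := z) (chainD_le U W i hu)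
        rwa [conjMap_of_mem_normalizer hz] at this
      cases i with
      | zero => exact h1
      | succ j => exact Subgroup.mem_inf.mpr ⟨h1, hsc j u (Subgroup.mem_inf.mp hu).2 z (hUP h1)⟩
    haveI : Group.IsNilpotent ↥W := (hPp.to_le hWP).isNilpotent
    obtain ⟨c, hc⟩ := (Subgroup.isNilpotent_iff_lowerCentralSeries W).mp inferInstance
    have hbot : chainD U W (c + 1) = ⊥ := by
      show U ⊓ W.lowerCentralSeries c = ⊥
      rw [hc, inf_bot_eq]
    have hStN : chainStab U W hnorm ≤ N(U) := fun s hs => hs.1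
    have hNSt : N(U) ≤ N(chainStab U W hnorm) := by
      intro z hz
      apply mem_normalizer_of_conjMap_le
      rw [conjMap_le_iff]
      rintro s ⟨hs, hs'⟩
      refine ⟨mul_mem (mul_mem hz hs) (inv_mem hz), fun i u hu => ?_⟩
      rw [comm_conj_eq]
      exact hnorm z hz _ _ (hs' i _ (hnorm z⁻¹ (inv_mem hz) i u hu))
    have hW1 : W ⊓ N(U) ≤ chainStab U W hnorm := by
      intro w hw
      obtain ⟨hwW, hwN⟩ := Subgroup.mem_inf.mp hw
      refine ⟨hwN, fun i u hu => ?_⟩
      have huU : u ∈ U := chainD_le U W i hu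
      have h1 : ⁅u, w⁆ ∈ U := by
        have h2 : w * u⁻¹ * w⁻¹ ∈ U := by
          have := conj_mem_conjMap (g := w) (inv_mem huU)
          rwa [conjMap_of_mem_normalizer hwN] at this
        have e : ⁅u, w⁆ = u * (w * u⁻¹ * w⁻¹) := by simp only [commutatorElement_def]; group
        rw [e]
        exact mul_mem huU h2
      cases i with
      | zero =>
        refine Subgroup.mem_inf.mpr ⟨h1, ?_⟩
        show ⁅u, w⁆ ∈ W
        have h3 : u * w * u⁻¹ ∈ W := by
          have := conj_mem_conjMap (g := u) hwW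
          rwa [conjMap_of_mem_normalizer (hPW (hUP huU))] at this
        have e : ⁅u, w⁆ = (u * w * u⁻¹) * w⁻¹ := by simp only [commutatorElement_def]
        rw [e]
        exact mul_mem h3 (inv_mem hwW)
      | succ j =>
        refine Subgroup.mem_inf.mpr ⟨h1, ?_⟩
        show ⁅u, w⁆ ∈ ⁅W.lowerCentralSeries j, W⁆
        exact Subgroup.commutator_mem_commutator (Subgroup.mem_inf.mp hu).2 hwW
    -- `p'`-elements of the stabilizer centralize `U`
    have hcent : ∀ s ∈ chainStab U W hnorm, (orderOf s).Coprime p → ∀ u ∈ U, Commute s u := by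
      intro s hs hcop
      have key : ∀ j i, i + j = c + 1 → ∀ u ∈ chainD U W i, Commute s u := by
        intro j
        induction j with
        | zero =>
          intro i hi u hu
          have hic : i = c + 1 := by omega
          subst hic
          rw [hbot, Subgroup.mem_bot] at hu
          rw [hu]
          exact Commute.one_right s
        | succ j ihj =>
          intro i hi u hu
          have h1 := ihj (i + 1) (by omega) _ (hs.2 i u hu)
          exact commute_of_commute_comm hUp hcop hs.1 (chainD_le U W i hu) h1.symm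
      intro u hu
      exact key (c + 1) 0 (by omega) u hu
    -- a Sylow subgroup of the stabilizer
    have hRsyl : SylIn p ((P : Subgroup G) ⊓ chainStab U W hnorm) (chainStab U W hnorm) := by
      have h1 := sylIn_inf_of_normal hfn hStN hNSt
      have e : (P : Subgroup G) ⊓ N(U) ⊓ chainStab U W hnorm
          = (P : Subgroup G) ⊓ chainStab U W hnorm := by
        rw [inf_assoc, inf_eq_right.mpr hStN]
      rwa [e] at h1
    have hC0n : chainStab U W hnorm ≤
        N(chainStab U W hnorm ⊓ Subgroup.centralizer (U : Set G)) := by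
      intro s hs
      apply mem_normalizer_of_conjMap_le
      rw [conjMap_le_iff]
      intro c hc
      obtain ⟨hc1, hc2⟩ := Subgroup.mem_inf.mp hc
      refine Subgroup.mem_inf.mpr ⟨mul_mem (mul_mem hs hc1) (inv_mem hs), ?_⟩
      rw [Subgroup.mem_centralizer_iff]
      intro u hu
      have hu' : s⁻¹ * u * s⁻¹⁻¹ ∈ U := by
        have := conj_mem_conjMap (g := s⁻¹) hu
        rwa [conjMap_of_mem_normalizer (inv_mem (hStN hs))] at this
      have h1 := Subgroup.mem_centralizer_iff.mp hc2 _ hu'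
      have e1 : u * (s * c * s⁻¹) = s * ((s⁻¹ * u * s⁻¹⁻¹) * c) * s⁻¹ := by group
      have e2 : s * c * s⁻¹ * u = s * (c * (s⁻¹ * u * s⁻¹⁻¹)) * s⁻¹ := by group
      rw [e1, e2, h1]
    obtain ⟨a, b, hb, hcard⟩ := Nat.exists_eq_pow_mul_and_not_dvd
      (Nat.card_pos (α := G)).ne' p hp.ne_one
    have hpow : ∀ y ∈ chainStab U W hnorm,
        y ^ p ^ a ∈ chainStab U W hnorm ⊓ Subgroup.centralizer (U : Set G) := by
      intro y hy
      refine Subgroup.mem_inf.mpr ⟨pow_mem hy _, ?_⟩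
      have h1 : orderOf (y ^ p ^ a) ∣ b := by
        apply orderOf_dvd_of_pow_eq_one
        rw [← pow_mul, ← hcard]
        exact pow_card_eq_one'
      have h2 : (orderOf (y ^ p ^ a)).Coprime p :=
        Nat.Coprime.coprime_dvd_left h1 ((Nat.Prime.coprime_iff_not_dvd hp).mpr hb).symm
      rw [Subgroup.mem_centralizer_iff]
      intro u hu
      exact (hcent _ (pow_mem hy _) h2 u hu).eq.symm
    obtain ⟨k, hk⟩ := relIndex_eq_pow_of_pow_mem inf_le_left hC0n hpow
    -- `W ∩ N(U)` is not contained in `U`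
    have hex : ∃ w ∈ W ⊓ N(U), w ∉ U := by
      have hlt : U < U ⊔ W := by
        refine lt_of_le_of_ne le_sup_left (fun h => hWU ?_)
        rw [h]
        exact le_sup_right
      have hYp : IsPGroup p (U ⊔ W : Subgroup G) := hPp.to_le (sup_le hUP hWP)
      have h1 := lt_inf_normalizer hYp hlt
      obtain ⟨y, hy, hyU⟩ := SetLike.exists_of_lt h1
      obtain ⟨hy1, hy2⟩ := Subgroup.mem_inf.mp hy
      have hUW : U ≤ N(W) := hUP.trans hPW
      have h2 : y ∈ ((U ⊔ W : Subgroup G) : Set G) := hy1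
      rw [Subgroup.coe_mul_of_left_le_normalizer_right U W hUW] at h2
      obtain ⟨u, hu, w, hw, rfl⟩ := Set.mem_mul.mp h2
      refine ⟨w, Subgroup.mem_inf.mpr ⟨hw, ?_⟩, fun hwU => hyU (mul_mem hu hwU)⟩
      have e : w = u⁻¹ * (u * w) := by group
      rw [e]
      exact mul_mem (inv_mem (Subgroup.le_normalizer hu)) hy2
    obtain ⟨w, hw, hwU⟩ := hex
    have hlt : U < U ⊔ ((P : Subgroup G) ⊓ chainStab U W hnorm) := by
      refine lt_of_le_of_ne le_sup_left (fun h => hwU ?_)
      rw [h]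
      exact (le_sup_right : (P : Subgroup G) ⊓ chainStab U W hnorm ≤ _)
        (Subgroup.mem_inf.mpr ⟨hWP (Subgroup.mem_inf.mp hw).1, hW1 hw⟩)
    -- Frattini
    obtain ⟨s, hs, hsx⟩ := frattini_elt hRsyl (hNSt hx)
    have hsxU : s * x ∈ N(U) := mul_mem (hStN hs) hx
    have hg1 : GoodM W U (s * x) := by
      have hN' : cj(s * x, U ⊔ ((P : Subgroup G) ⊓ chainStab U W hnorm))
          = U ⊔ ((P : Subgroup G) ⊓ chainStab U W hnorm) := by
        rw [Subgroup.map_sup, conjMap_of_mem_normalizer hsxU, conjMap_of_mem_normalizer hsx]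
      have h1 := ih (U ⊔ ((P : Subgroup G) ⊓ chainStab U W hnorm)) (sup_le hUP inf_le_left)
        (card_lt_card_of_lt hlt) (s * x) (by rw [hN']; exact sup_le hUP inf_le_left)
      exact h1.mono le_sup_left
    obtain ⟨r, hr, c₀, hc₀, e⟩ := exists_mul_of_relIndex_pow hRsyl hk (inv_mem hs)
    have hg2 : GoodM W U s⁻¹ := by
      rw [e]
      refine GoodM.trans (GoodM.of_centralizes ?_) (GoodM.of_mem (hPW (Subgroup.mem_inf.mp hr).1))
      intro u hu
      have h3 := Subgroup.mem_centralizer_iff.mp (Subgroup.mem_inf.mp hc₀).2 u hu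
      rw [← h3]
      group
    have e2 : x = s⁻¹ * (s * x) := by group
    rw [e2]
    refine GoodM.trans hg1 ?_
    rw [conjMap_of_mem_normalizer hsxU]
    exact hg2

/-- A weakly closed normal subgroup `W` of `P` all of whose lower central terms are strongly
closed: `N(W)` controls strong fusion in `P`. -/
theorem goodM_of_setup [Finite G] {p : ℕ} [Fact p.Prime] (P : Sylow p G) {W : Subgroup G}
    (hWP : W ≤ (P : Subgroup G)) (hPW : (P : Subgroup G) ≤ N(W))
    (hsc : ∀ i, ∀ x ∈ W.lowerCentralSeries i, ∀ g : G, g * x * g⁻¹ ∈ (P : Subgroup G) →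
      g * x * g⁻¹ ∈ W.lowerCentralSeries i) :
    ∀ A : Subgroup G, A ≤ (P : Subgroup G) → ∀ g : G, cj(g, A) ≤ (P : Subgroup G) →
      GoodM W A g := by
  have main : ∀ n : ℕ, ∀ A : Subgroup G, A ≤ (P : Subgroup G) →
      Nat.card (P : Subgroup G) - Nat.card A = n →
      ∀ g : G, cj(g, A) ≤ (P : Subgroup G) → GoodM W A g := by
    intro n
    induction n using Nat.strong_induction_on with
    | _ n IH =>
    intro A hA hn g hg
    have hfam : ∀ Q : Subgroup G, Q ≤ (P : Subgroup G) →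
        ∃ U ∈ {U : Subgroup G | U ≤ (P : Subgroup G) ∧ SylIn p ((P : Subgroup G) ⊓ N(U)) (N(U))},
          (∃ h ∈ (⊤ : Subgroup G), cj(h, Q) = U) ∧
          SylIn p ((P : Subgroup G) ⊓ N(U)) (⊤ ⊓ N(U)) := by
      intro Q hQ
      obtain ⟨y, hy, h1, h2, -⟩ := exists_fn_conj (sylIn_top P) hQ
      have h2' := h2
      rw [top_inf_eq] at h2'
      exact ⟨cj(y, Q), ⟨h1, h2'⟩, ⟨y, hy, rfl⟩, h2⟩
    have d := alperin (sylIn_top P)
      (𝓕 := {U : Subgroup G | U ≤ (P : Subgroup G) ∧ SylIn p ((P : Subgroup G) ⊓ N(U)) (N(U))})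
      (fun U hU => hU.1) hfam A hA g (Subgroup.mem_top g) hg
    have key : ∀ (A' : Subgroup G) (g' : G),
        Decomp {U : Subgroup G | U ≤ (P : Subgroup G) ∧
          SylIn p ((P : Subgroup G) ⊓ N(U)) (N(U))} ⊤ A' g' →
        Nat.card A ≤ Nat.card A' → A' ≤ (P : Subgroup G) → GoodM W A' g' := by
      intro A' g' d'
      induction d' with
      | nil A' =>
        intro _ _
        exact GoodM.of_mem (one_mem _)
      | cons A' U x g' hU _ hxN hA'U _ ih' =>
        intro hcard hA'P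
        have hUx : GoodM W U x := by
          apply core_step P hWP hPW hsc hU.1 hU.2 _ hxN
          intro B hB hlt g₀ hg₀
          have h1 : Nat.card A' ≤ Nat.card U := Subgroup.card_le_of_le hA'U
          have h2 : Nat.card B ≤ Nat.card (P : Subgroup G) := Subgroup.card_le_of_le hB
          exact IH (Nat.card (P : Subgroup G) - Nat.card B) (by omega) B hB rfl g₀ hg₀
        have hcj : cj(x, A') ≤ U := by
          calc cj(x, A') ≤ cj(x, U) := conjMap_mono hA'U
            _ = U := conjMap_of_mem_normalizer hxN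
        exact GoodM.trans (hUx.mono hA'U)
          (ih' (by rw [card_conjMap]; exact hcard) (hcj.trans hU.1))
    exact key A g d le_rfl hA
  intro A hA g hg
  exact main _ A hA rfl g hg

end Cfsg.Agent.H39
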