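import Mathlib
import Cfsg.Agent.H39.NormCtl
import Cfsg.Agent.H39.Control

set_option autoImplicit false

namespace Cfsg.Agent.H39

open scoped commutatorElement

variable {G : Type*} [Group G]

local notation "cj(" g ", " Q ")" => Subgroup.map (MulEquiv.toMonoidHom (MulAut.conj g)) Q
local notation "N(" Q ")" => Subgroup.normalizer (SetLike.coe Q)

/-- Statement S1954. -/
theorem normal_control [Finite G] {p : ℕ} [Fact p.Prime] (N : Subgroup G) [hNn : N.Normal]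
    (P : Sylow p G) (V : Subgroup G) (hV : V ≤ (P : Subgroup G) ⊓ N)
    (hctrl : ∀ A : Subgroup G, A ≤ (P : Subgroup G) ⊓ N → ∀ n ∈ N,
      cj(n, A) ≤ (P : Subgroup G) ⊓ N →
      ∃ h ∈ N ⊓ N(V), ∃ c ∈ N ⊓ Subgroup.centralizer (A : Set G), n = h * c)
    (W : Subgroup G)
    (hW : W = Subgroup.closure (⋃ x ∈ N((P : Subgroup G) ⊓ N),
      ((cj(x, V) : Subgroup G) : Set G))) :
    ∀ A : Subgroup G, A ≤ (P : Subgroup G) → ∀ g : G, cj(g, A) ≤ (P : Subgroup G) →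
      ∃ h ∈ N(W), ∃ c ∈ Subgroup.centralizer (A : Set G), g = h * c := by
  classical
  have hcjT : ∀ x ∈ N((P : Subgroup G) ⊓ N), cj(x, (P : Subgroup G) ⊓ N) = (P : Subgroup G) ⊓ N :=
    fun x hx => conjMap_of_mem_normalizer hx
  have hVx : ∀ x ∈ N((P : Subgroup G) ⊓ N), cj(x, V) ≤ (P : Subgroup G) ⊓ N :=
    fun x hx => (conjMap_mono hV).trans (hcjT x hx).le
  have hWT : W ≤ (P : Subgroup G) ⊓ N := by
    rw [hW, Subgroup.closure_le]
    intro y hy
    simp only [Set.mem_iUnion] at hy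
    obtain ⟨x, hx, hy⟩ := hy
    exact hVx x hx hy
  have hNTW : N((P : Subgroup G) ⊓ N) ≤ N(W) := by
    intro m hm
    apply mem_normalizer_of_conjMap_le
    rw [hW]
    apply closure_conj_le
    rintro _ ⟨y, hy, rfl⟩
    simp only [Set.mem_iUnion] at hy
    obtain ⟨x, hx, hy⟩ := hy
    apply Subgroup.subset_closure
    simp only [Set.mem_iUnion]
    refine ⟨m * x, mul_mem hm hx, ?_⟩
    rw [conjMap_mul]
    exact conj_mem_conjMap hy
  have hPT : (P : Subgroup G) ≤ N((P : Subgroup G) ⊓ N) := by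
    intro y hy
    apply mem_normalizer_of_conjMap_le
    rw [conjMap_le_iff]
    intro q hq
    exact Subgroup.mem_inf.mpr ⟨mul_mem (mul_mem hy (Subgroup.mem_inf.mp hq).1) (inv_mem hy),
      hNn.conj_mem q (Subgroup.mem_inf.mp hq).2 y⟩
  have hPW : (P : Subgroup G) ≤ N(W) := hPT.trans hNTW
  -- Step 1: control for a conjugate of `V`
  have step1 : ∀ x ∈ N((P : Subgroup G) ⊓ N), ∀ A : Subgroup G, A ≤ (P : Subgroup G) ⊓ N →
      ∀ n ∈ N, cj(n, A) ≤ (P : Subgroup G) ⊓ N →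
      ∃ h ∈ N ⊓ N(cj(x, V)), ∃ c ∈ N ⊓ Subgroup.centralizer (A : Set G), n = h * c := by
    intro x hx A hA n hn hnA
    have hx' : x⁻¹ ∈ N((P : Subgroup G) ⊓ N) := inv_mem hx
    have hA0 : cj(x⁻¹, A) ≤ (P : Subgroup G) ⊓ N := (conjMap_mono hA).trans (hcjT _ hx').le
    have hn0 : x⁻¹ * n * x ∈ N := by
      have := hNn.conj_mem n hn x⁻¹
      simpa using this
    have hcj0 : cj(x⁻¹ * n * x, cj(x⁻¹, A)) ≤ (P : Subgroup G) ⊓ N := by
      rw [← conjMap_mul]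
      have e : x⁻¹ * n * x * x⁻¹ = x⁻¹ * n := by group
      rw [e, conjMap_mul]
      exact (conjMap_mono hnA).trans (hcjT _ hx').le
    obtain ⟨h₀, hh₀, c₀, hc₀, e₀⟩ := hctrl _ hA0 _ hn0 hcj0
    refine ⟨x * h₀ * x⁻¹, ?_, x * c₀ * x⁻¹, ?_, ?_⟩
    · refine Subgroup.mem_inf.mpr ⟨hNn.conj_mem _ (Subgroup.mem_inf.mp hh₀).1 x, ?_⟩
      rw [normalizer_conjMap]
      exact conj_mem_conjMap (Subgroup.mem_inf.mp hh₀).2
    · refine Subgroup.mem_inf.mpr ⟨hNn.conj_mem _ (Subgroup.mem_inf.mp hc₀).1 x, ?_⟩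
      rw [Subgroup.mem_centralizer_iff]
      intro a ha
      have h1 := Subgroup.mem_centralizer_iff.mp (Subgroup.mem_inf.mp hc₀).2
        (x⁻¹ * a * x⁻¹⁻¹) (conj_mem_conjMap ha)
      have e1 : a * (x * c₀ * x⁻¹) = x * ((x⁻¹ * a * x⁻¹⁻¹) * c₀) * x⁻¹ := by group
      have e2 : x * c₀ * x⁻¹ * a = x * (c₀ * (x⁻¹ * a * x⁻¹⁻¹)) * x⁻¹ := by group
      rw [e1, e2, h1]
    · have e3 : n = x * (x⁻¹ * n * x) * x⁻¹ := by group
      rw [e3, e₀]
      group
  -- Step 2: finitely many conjugates at once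
  have step2 : ∀ s : Finset (Subgroup G),
      (∀ U ∈ s, ∃ x ∈ N((P : Subgroup G) ⊓ N), U = cj(x, V)) →
      ∀ A : Subgroup G, A ≤ (P : Subgroup G) ⊓ N → ∀ n ∈ N, cj(n, A) ≤ (P : Subgroup G) ⊓ N →
      ∃ h ∈ N, (∀ U ∈ s, h ∈ N(U)) ∧
        ∃ c ∈ N ⊓ Subgroup.centralizer (A : Set G), n = h * c := by
    intro s
    induction s using Finset.induction_on with
    | empty =>
      intro _ A hA n hn hnA
      exact ⟨n, hn, by simp, 1, one_mem _, by simp⟩
    | insert U s hUs ih =>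
      intro hs A hA n hn hnA
      obtain ⟨x, hx, rfl⟩ := hs U (Finset.mem_insert_self _ _)
      obtain ⟨h₁, hh₁, c₁, hc₁, e₁⟩ := step1 x hx A hA n hn hnA
      obtain ⟨hh₁N, hh₁U⟩ := Subgroup.mem_inf.mp hh₁
      obtain ⟨hc₁N, hc₁A⟩ := Subgroup.mem_inf.mp hc₁
      have hA' : A ⊔ cj(x, V) ≤ (P : Subgroup G) ⊓ N := sup_le hA (hVx x hx)
      have hcj' : cj(h₁, A ⊔ cj(x, V)) ≤ (P : Subgroup G) ⊓ N := by
        rw [Subgroup.map_sup, conjMap_of_mem_normalizer hh₁U]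
        refine sup_le ?_ (hVx x hx)
        rw [conjMap_le_iff]
        intro a ha
        have h2 : h₁ * a * h₁⁻¹ = n * a * n⁻¹ := by
          have hca := Subgroup.mem_centralizer_iff.mp hc₁A a ha
          rw [e₁]
          have e4 : h₁ * c₁ * a * (h₁ * c₁)⁻¹ = h₁ * (c₁ * a) * c₁⁻¹ * h₁⁻¹ := by group
          rw [e4, ← hca]
          group
        rw [h2]
        exact conjMap_le_iff.mp hnA a ha
      obtain ⟨h₂, hh₂N, hh₂s, c₂, hc₂, e₂⟩ :=
        ih (fun U hU => hs U (Finset.mem_insert_of_mem hU)) _ hA' h₁ hh₁N hcj'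
      obtain ⟨hc₂N, hc₂A⟩ := Subgroup.mem_inf.mp hc₂
      have hc₂V : c₂ ∈ Subgroup.centralizer ((cj(x, V) : Subgroup G) : Set G) :=
        Subgroup.centralizer_le (SetLike.coe_subset_coe.mpr le_sup_right) hc₂A
      have hc₂A' : c₂ ∈ Subgroup.centralizer (A : Set G) :=
        Subgroup.centralizer_le (SetLike.coe_subset_coe.mpr le_sup_left) hc₂A
      refine ⟨h₂, hh₂N, ?_, c₂ * c₁,
        Subgroup.mem_inf.mpr ⟨mul_mem hc₂N hc₁N, mul_mem hc₂A' hc₁A⟩, by rw [e₁, e₂, mul_assoc]⟩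
      intro U hU
      rcases Finset.mem_insert.mp hU with rfl | hU
      · have e3 : h₂ = h₁ * c₂⁻¹ := by rw [e₂]; group
        rw [e3]
        exact mul_mem hh₁U (inv_mem (Subgroup.centralizer_le_normalizer _ hc₂V))
      · exact hh₂s U hU
  -- Step 3: control by `N_N(W)`
  have hfin : (Set.range (fun x : N((P : Subgroup G) ⊓ N) => cj((x : G), V))).Finite :=
    Set.toFinite _
  have F1 : ∀ A : Subgroup G, A ≤ (P : Subgroup G) ⊓ N → ∀ n ∈ N,
      cj(n, A) ≤ (P : Subgroup G) ⊓ N →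
      ∃ h ∈ N ⊓ N(W), ∃ c ∈ N ⊓ Subgroup.centralizer (A : Set G), n = h * c := by
    intro A hA n hn hnA
    obtain ⟨h, hhN, hhs, c, hc, e⟩ := step2 hfin.toFinset (by
      intro U hU
      rw [Set.Finite.mem_toFinset] at hU
      obtain ⟨x, rfl⟩ := hU
      exact ⟨x, x.2, rfl⟩) A hA n hn hnA
    refine ⟨h, Subgroup.mem_inf.mpr ⟨hhN, ?_⟩, c, hc, e⟩
    apply mem_normalizer_of_conjMap_le
    rw [hW]
    apply closure_conj_le
    rintro _ ⟨y, hy, rfl⟩
    simp only [Set.mem_iUnion] at hy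
    obtain ⟨x, hx, hy⟩ := hy
    apply Subgroup.subset_closure
    simp only [Set.mem_iUnion]
    refine ⟨x, hx, ?_⟩
    have h1 := hhs (cj(x, V)) (by rw [Set.Finite.mem_toFinset]; exact ⟨⟨x, hx⟩, rfl⟩)
    have h2 := conj_mem_conjMap (g := h) hy
    rwa [conjMap_of_mem_normalizer h1] at h2
  -- control of fusion in `P ∩ N` with respect to `G`
  have hNtop : N(N) = ⊤ := Subgroup.normalizer_eq_top_iff.mpr hNn
  have hTsyl : SylIn p ((P : Subgroup G) ⊓ N) N :=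
    sylIn_inf_of_normal (sylIn_top P) le_top (by rw [hNtop])
  have claimB : ∀ A : Subgroup G, A ≤ (P : Subgroup G) ⊓ N → ∀ g : G,
      cj(g, A) ≤ (P : Subgroup G) ⊓ N →
      ∃ h ∈ N(W), ∃ c ∈ Subgroup.centralizer (A : Set G), g = h * c := by
    intro A hA g hgA
    obtain ⟨n, hn, hm⟩ := frattini_elt hTsyl (k := g) (by rw [hNtop]; trivial)
    have hA' : cj(n * g, A) ≤ (P : Subgroup G) ⊓ N := (conjMap_mono hA).trans (hcjT _ hm).le
    have hcj : cj(n⁻¹, cj(n * g, A)) ≤ (P : Subgroup G) ⊓ N := by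
      rw [← conjMap_mul]
      have e : n⁻¹ * (n * g) = g := by group
      rw [e]
      exact hgA
    obtain ⟨h₁, hh₁, c₁, hc₁, e₁⟩ := F1 _ hA' n⁻¹ (inv_mem hn) hcj
    refine ⟨h₁ * (n * g), mul_mem (Subgroup.mem_inf.mp hh₁).2 (hNTW hm),
      (n * g)⁻¹ * c₁ * (n * g), ?_, ?_⟩
    · rw [Subgroup.mem_centralizer_iff]
      intro a ha
      have h1 := Subgroup.mem_centralizer_iff.mp (Subgroup.mem_inf.mp hc₁).2
        ((n * g) * a * (n * g)⁻¹) (conj_mem_conjMap ha)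
      have e1 : a * ((n * g)⁻¹ * c₁ * (n * g))
          = (n * g)⁻¹ * (((n * g) * a * (n * g)⁻¹) * c₁) * (n * g) := by group
      have e2 : (n * g)⁻¹ * c₁ * (n * g) * a
          = (n * g)⁻¹ * (c₁ * ((n * g) * a * (n * g)⁻¹)) * (n * g) := by group
      rw [e1, e2, h1]
    · have e : g = n⁻¹ * (n * g) := by group
      have e5 : h₁ * (n * g) * ((n * g)⁻¹ * c₁ * (n * g)) = (h₁ * c₁) * (n * g) := by group
      rw [e5, ← e₁]
      exact e
  -- the lower central terms are strongly closed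
  have hsc : ∀ i, ∀ x ∈ W.lowerCentralSeries i, ∀ g : G, g * x * g⁻¹ ∈ (P : Subgroup G) →
      g * x * g⁻¹ ∈ W.lowerCentralSeries i := by
    intro i x hx g hgx
    have hxW : x ∈ W := Subgroup.lowerCentralSeries_le_self W i hx
    have hxT : x ∈ (P : Subgroup G) ⊓ N := hWT hxW
    have hA : Subgroup.zpowers x ≤ (P : Subgroup G) ⊓ N := by
      rw [Subgroup.zpowers_le]
      exact hxT
    have hgA : cj(g, Subgroup.zpowers x) ≤ (P : Subgroup G) ⊓ N := by
      rw [conjMap_le_iff]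
      intro q hq
      obtain ⟨k, rfl⟩ := Subgroup.mem_zpowers_iff.mp hq
      rw [← conj_zpow]
      exact zpow_mem (Subgroup.mem_inf.mpr ⟨hgx, hNn.conj_mem x (Subgroup.mem_inf.mp hxT).2 g⟩) k
    obtain ⟨h, hh, c, hc, e⟩ := claimB _ hA g hgA
    have hcx : x * c = c * x := Subgroup.mem_centralizer_iff.mp hc x (Subgroup.mem_zpowers x)
    have e2 : g * x * g⁻¹ = h * x * h⁻¹ := by
      rw [e]
      have e6 : h * c * x * (h * c)⁻¹ = h * (c * x) * c⁻¹ * h⁻¹ := by group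
      rw [e6, ← hcx]
      group
    rw [e2]
    have h1 : cj(h, W.lowerCentralSeries i) = W.lowerCentralSeries i := by
      rw [Subgroup.map_lowerCentralSeries, conjMap_of_mem_normalizer hh]
    rw [← h1]
    exact conj_mem_conjMap hx
  intro A hA g hg
  exact (goodM_of_setup P (hWT.trans inf_le_left) hPW hsc A hA g hg).exists_mul

end Cfsg.Agent.H39
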