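import Cfsg.Agent.H34.PgDefs
import Cfsg.Agent.H6.GroupAux
import Cfsg.Agent.H7.SUCenter
import Cfsg.Agent.S0280

/-!
# PG-TC (helper34, S3663): `PSU₃(4)` over any field with 16 elements is `G`, and `|G| = 62400`
-/

set_option autoImplicit false

namespace Cfsg.Agent.H39.PG

open Cfsg.Agent.H34.PG

universe u

theorem center_bot (F : Type u) [Field F] [Fintype F] (hF : Fintype.card F = 16) :
    Subgroup.center (Cfsg.SU 3 F 4) = ⊥ := by
  have h := Cfsg.Agent.H7.card_center_SU (F := F) (q := 4) (by rw [hF]; norm_num) 3 (by norm_num)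
  have h2 : Nat.gcd 3 (4 + 1) = 1 := by norm_num
  rw [h2] at h
  exact Subgroup.eq_bot_of_card_eq _ h

theorem trans : StTrans.{u} := by
  intro F _ _ hF
  have hc := center_bot F hF
  have e1 : Cfsg.PSU 3 F 4 ≃* ↥(Cfsg.SU 3 F 4) :=
    (QuotientGroup.quotientMulEquivOfEq hc).trans QuotientGroup.quotientBot
  have e : F ≃+* K := FiniteField.ringEquivOfCardEq (by rw [hF, Cfsg.Agent.H51.card_F16])
  exact ⟨e1.trans (Cfsg.Agent.H6.GroupAux.suMapEquiv e 3 4)⟩

theorem card : StCard := by
  have hF : Fintype.card K = 4 ^ 2 := by rw [Cfsg.Agent.H51.card_F16]; norm_num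
  have h := Cfsg.Agent.S0280.result (F := K) hF 3 (by norm_num)
  have hc := center_bot K Cfsg.Agent.H51.card_F16
  have e1 : Cfsg.PSU 3 K 4 ≃* G :=
    (QuotientGroup.quotientMulEquivOfEq hc).trans QuotientGroup.quotientBot
  rw [Nat.card_congr e1.toEquiv] at h
  unfold StCard
  simp only [Finset.prod_range_succ, Finset.prod_range_zero] at h
  norm_num at h
  omega

example : StTrans.{u} := trans
example : StCard := card

end Cfsg.Agent.H39.PG
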