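import Mathlib
import Cfsg.Agent.H7.RVDefs

/-!
# S3626 (helper7's project): common lemmas on `SL₂(F)` in characteristic 3 (helper39)
-/

set_option autoImplicit false

namespace Cfsg.Agent.H39.RV

open Matrix Cfsg.Agent.H7.RV

open scoped MatrixGroups

variable {F : Type} [Field F]

theorem sl_det (g : SL(2, F)) : g 0 0 * g 1 1 - g 0 1 * g 1 0 = 1 := by
  have h := g.det_coe
  rw [Matrix.det_fin_two] at h
  exact h

theorem two_ne_zero_char3 [CharP F 3] : (2 : F) ≠ 0 := by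
  intro h
  have h2 : ((2 : ℕ) : F) = 0 := by exact_mod_cast h
  rw [CharP.cast_eq_zero_iff F 3] at h2
  omega

theorem three_eq_zero_char3 [CharP F 3] : (3 : F) = 0 := by
  have h2 : ((3 : ℕ) : F) = 0 := by rw [CharP.cast_eq_zero_iff F 3]
  exact_mod_cast h2

/-- The entries of `actFun`. -/
theorem actFun_entry [CharP F 3] (p : ℤˣ × SL(2, F)) (X : Matrix (Fin 2) (Fin 2) F)
    (k l : Fin 2) :
    actFun F p X k l = (((p.1 : ℤˣ) : ℤ) : F) *
      ((p.2 k 0 * X 0 0 + p.2 k 1 * X 1 0) * p.2 l 0 ^ 3 +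
        (p.2 k 0 * X 0 1 + p.2 k 1 * X 1 1) * p.2 l 1 ^ 3) := by
  simp only [actFun_def, Matrix.smul_apply, zsmul_eq_mul, Matrix.mul_apply, Fin.sum_univ_two,
    Matrix.transpose_apply, tw_apply]

/-- The sign as an element of the field. -/
theorem sign_cases (ε : ℤˣ) : (ε = 1 ∧ (((ε : ℤˣ) : ℤ) : F) = 1) ∨
    (ε = -1 ∧ (((ε : ℤˣ) : ℤ) : F) = -1) := by
  rcases Int.units_eq_one_or ε with h | h
  · left; exact ⟨h, by rw [h]; simp⟩
  · right; exact ⟨h, by rw [h]; simp⟩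

end Cfsg.Agent.H39.RV
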