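import Mathlib
import Cfsg.Agent.H7.RVDefs
import Cfsg.Agent.H39.RVCommon

/-!
# RV-ONE (helper39, for helper7's S3626): the kernel of the action is `{(1, ±1)}`
-/

set_option autoImplicit false

namespace Cfsg.Agent.H39.RV

open Matrix Cfsg.Agent.H7.RV

open scoped MatrixGroups

theorem one : StOne := by
  intro F _ _ p hall
  have h2 : (2 : F) ≠ 0 := two_ne_zero_char3
  have hdet := sl_det p.2
  -- the matrix units
  have hA := hall !![1, 0; 0, 0]
  have hB := hall !![0, 1; 0, 0]
  have a00 := congrFun (congrFun hA 0) 0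
  have a10 := congrFun (congrFun hA 1) 0
  have b00 := congrFun (congrFun hB 0) 0
  have b01 := congrFun (congrFun hB 0) 1
  rw [actFun_entry] at a00 a10 b00 b01
  simp at a00 a10 b00 b01
  have ha : p.2 0 0 ≠ 0 := by
    intro h0
    rw [h0] at a00
    simp at a00
  have he : ((((p.1 : ℤˣ) : ℤ)) : F) ≠ 0 := by
    intro h0
    rw [h0] at a00
    simp at a00
  have hc : p.2 1 0 = 0 := by
    rcases a10 with h | h | h
    · exact absurd h he
    · exact h
    · exact absurd h ha
  have hb : p.2 0 1 = 0 := by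
    rcases b00 with h | h | h
    · exact absurd h he
    · exact absurd h ha
    · exact h
  have hdet' : p.2 0 0 * p.2 1 1 = 1 := by linear_combination hdet + p.2 1 0 * hb
  rcases sign_cases (F := F) p.1 with ⟨h1, h1'⟩ | ⟨h1, h1'⟩
  · rw [h1'] at a00 b01
    have hd2 : (p.2 1 1 - 1) * (p.2 1 1 + 1) = 0 := by
      linear_combination (-(p.2 1 1) ^ 2) * hdet' + b01
    refine ⟨h1, ?_⟩
    rcases mul_eq_zero.1 hd2 with hd | hd
    · left
      have hd' : p.2 1 1 = 1 := by linear_combination hd
      have ha' : p.2 0 0 = 1 := by linear_combination hdet' - p.2 0 0 * hd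
      ext i j
      fin_cases i <;> fin_cases j <;> simp [ha', hb, hc, hd']
    · right
      have hd' : p.2 1 1 = -1 := by linear_combination hd
      have ha' : p.2 0 0 = -1 := by linear_combination -hdet' + p.2 0 0 * hd
      ext i j
      fin_cases i <;> fin_cases j <;>
        simp [ha', hb, hc, hd', Matrix.SpecialLinearGroup.coe_neg]
  · exfalso
    rw [h1'] at a00 b01
    have hd2 : p.2 1 1 ^ 2 = -1 := by linear_combination (-(p.2 1 1) ^ 2) * hdet' - b01
    have ha2 : p.2 0 0 ^ 2 = -1 := by
      linear_combination p.2 0 0 ^ 2 * hd2 - (p.2 0 0 * p.2 1 1 + 1) * hdet'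
    apply h2
    linear_combination -a00 - (p.2 0 0 ^ 2 - 1) * ha2

example : StOne := one

end Cfsg.Agent.H39.RV
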