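import Mathlib
import Cfsg.Agent.H7.RVDefs
import Cfsg.Agent.H39.RVCommon

/-!
# RV-SQ (helper39, for helper7's S3626): the square roots of `1` in `SL₂(F)`, characteristic 3
-/

set_option autoImplicit false

namespace Cfsg.Agent.H39.RV

open Matrix Cfsg.Agent.H7.RV

open scoped MatrixGroups

theorem sq : StSq := by
  intro F _ _ g hg
  have h2 : (2 : F) ≠ 0 := two_ne_zero_char3
  have hdet := sl_det g
  have hm : (g : Matrix (Fin 2) (Fin 2) F) * (g : Matrix (Fin 2) (Fin 2) F) = 1 := by
    have h := congrArg (fun x : SL(2, F) => (x : Matrix (Fin 2) (Fin 2) F)) hg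
    simpa [pow_two] using h
  have e00 := congrFun (congrFun hm 0) 0
  have e01 := congrFun (congrFun hm 0) 1
  have e10 := congrFun (congrFun hm 1) 0
  have e11 := congrFun (congrFun hm 1) 1
  simp only [Matrix.mul_apply, Fin.sum_univ_two, Matrix.one_apply_eq] at e00 e11
  rw [Matrix.mul_apply, Fin.sum_univ_two, Matrix.one_apply_ne (by decide)] at e01 e10
  have hs : (g 0 0 + g 1 1 - 2) * (g 0 0 + g 1 1 + 2) = 0 := by
    linear_combination e00 + e11 + 2 * hdet
  rcases mul_eq_zero.1 hs with h | h
  · left
    have hb : g 0 1 = 0 := by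
      have h' : g 0 1 * 2 = 0 := by linear_combination e01 - g 0 1 * h
      rcases mul_eq_zero.1 h' with h'' | h''
      · exact h''
      · exact absurd h'' h2
    have hc : g 1 0 = 0 := by
      have h' : g 1 0 * 2 = 0 := by linear_combination e10 - g 1 0 * h
      rcases mul_eq_zero.1 h' with h'' | h''
      · exact h''
      · exact absurd h'' h2
    have ha : g 0 0 = 1 := by
      have h' : (g 0 0 - 1) * (g 0 0 - 1) = 0 := by
        linear_combination g 0 0 * h - hdet - g 1 0 * hb
      have := mul_self_eq_zero.1 h'
      linear_combination this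
    have hd : g 1 1 = 1 := by linear_combination h - ha
    ext i j
    fin_cases i <;> fin_cases j <;> simp [ha, hb, hc, hd]
  · right
    have hb : g 0 1 = 0 := by
      have h' : g 0 1 * 2 = 0 := by linear_combination g 0 1 * h - e01
      rcases mul_eq_zero.1 h' with h'' | h''
      · exact h''
      · exact absurd h'' h2
    have hc : g 1 0 = 0 := by
      have h' : g 1 0 * 2 = 0 := by linear_combination g 1 0 * h - e10
      rcases mul_eq_zero.1 h' with h'' | h''
      · exact h''
      · exact absurd h'' h2
    have ha : g 0 0 = -1 := by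
      have h' : (g 0 0 + 1) * (g 0 0 + 1) = 0 := by
        linear_combination g 0 0 * h - hdet - g 1 0 * hb
      have := mul_self_eq_zero.1 h'
      linear_combination this
    have hd : g 1 1 = -1 := by linear_combination h - ha
    ext i j
    fin_cases i <;> fin_cases j <;> simp [ha, hb, hc, hd, Matrix.SpecialLinearGroup.coe_neg]

example : StSq := sq

end Cfsg.Agent.H39.RV
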