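import Mathlib
import Cfsg.Prelude.Def_KGroupFacts
import Cfsg.Agent.H3.OmegaAut
import Cfsg.Agent.H67.OmegaTwo

set_option autoImplicit false

namespace Cfsg.Agent.H39

/-- A subgroup of `P` stable under a group `G` of automorphisms. -/
def GInv {P : Type*} [Group P] (G : Subgroup (MulAut P)) (D : Subgroup P) : Prop :=
  ∀ α ∈ G, ∀ d ∈ D, α d ∈ D

theorem GInv.map_eq {P : Type*} [Group P] {G : Subgroup (MulAut P)} {D : Subgroup P}
    (h : GInv G D) (α : MulAut P) (hα : α ∈ G) : D.map α.toMonoidHom = D := by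
  apply le_antisymm
  · rintro _ ⟨d, hd, rfl⟩
    exact h α hα d hd
  · intro d hd
    refine ⟨α⁻¹ d, h α⁻¹ (G.inv_mem hα) d hd, ?_⟩
    show α (α⁻¹ d) = d
    exact MulAut.apply_inv_self P α d

theorem GInv.normal {P : Type*} [Group P] {G : Subgroup (MulAut P)} {D : Subgroup P}
    (h : GInv G D) (hG : Cfsg.Inn P ≤ G) : D.Normal := by
  refine ⟨fun d hd x => ?_⟩
  have h1 := h (MulAut.conj x) (hG ⟨x, rfl⟩) d hd
  rwa [MulAut.conj_apply] at h1

theorem GInv.centralizer {P : Type*} [Group P] {G : Subgroup (MulAut P)} {D : Subgroup P}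
    (h : GInv G D) : GInv G (Subgroup.centralizer (D : Set P)) := by
  intro α hα c hc
  rw [Subgroup.mem_centralizer_iff] at hc ⊢
  intro k hk
  have h1 := hc (α⁻¹ k) (h α⁻¹ (G.inv_mem hα) k hk)
  have h2 := congrArg α h1
  rwa [map_mul, map_mul, MulAut.apply_inv_self P] at h2

theorem GInv.inf {P : Type*} [Group P] {G : Subgroup (MulAut P)} {D E : Subgroup P}
    (h : GInv G D) (h' : GInv G E) : GInv G (D ⊓ E) := by
  intro α hα c hc
  exact Subgroup.mem_inf.mpr ⟨h α hα c (Subgroup.mem_inf.mp hc).1, h' α hα c (Subgroup.mem_inf.mp hc).2⟩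

theorem ginv_bot {P : Type*} [Group P] (G : Subgroup (MulAut P)) : GInv G (⊥ : Subgroup P) := by
  intro α _ d hd
  rw [Subgroup.mem_bot] at hd ⊢
  rw [hd, map_one]

open scoped commutatorElement in
/-- A relative version of Thompson's critical subgroup: inside a `G`-invariant subgroup `Q` of
the `p`-group `P` (with `Inn P ≤ G`). -/
theorem rel_critical {P : Type*} [Group P] [Finite P] {p : ℕ} [Fact p.Prime]
    (hP : IsPGroup p P) (G : Subgroup (MulAut P)) (hG : Cfsg.Inn P ≤ G)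
    (Q : Subgroup P) (hQ : GInv G Q) :
    ∃ H K : Subgroup P, GInv G H ∧ GInv G K ∧ K ≤ H ∧ H ≤ Q ∧
      K ≤ Subgroup.centralizer (H : Set P) ∧ Q ⊓ Subgroup.centralizer (H : Set P) ≤ K ∧
      (∀ x ∈ H, x ^ p ∈ K) ∧ (∀ x ∈ H, ∀ y : P, ⁅x, y⁆ ∈ K) := by
  obtain ⟨K, -, hK⟩ := Set.Finite.exists_le_maximal
    (s := {K : Subgroup P | GInv G K ∧ K ≤ Q ∧ ∀ a ∈ K, ∀ b ∈ K, a * b = b * a})
    (Set.toFinite _) (a := ⊥) ⟨ginv_bot G, bot_le, by
      intro a ha b hb
      rw [Subgroup.mem_bot] at ha hb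
      rw [ha, hb]⟩
  have hKinv : GInv G K := hK.1.1
  have hKQ : K ≤ Q := hK.1.2.1
  have hKab : ∀ a ∈ K, ∀ b ∈ K, a * b = b * a := hK.1.2.2
  have hKmax : ∀ L : Subgroup P, GInv G L → L ≤ Q → (∀ a ∈ L, ∀ b ∈ L, a * b = b * a) →
      K ≤ L → L ≤ K := fun L h1 h2 h3 h4 => hK.2 ⟨h1, h2, h3⟩ h4
  have hKn : K.Normal := hKinv.normal hG
  set C := Q ⊓ Subgroup.centralizer (K : Set P) with hC
  have hCinv : GInv G C := hQ.inf hKinv.centralizer
  set π := QuotientGroup.mk' K with hπ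
  set H := C ⊓ (H3.omegaCenter (P ⧸ K) p).comap π with hH
  have hmemH : ∀ x, x ∈ H ↔ x ∈ C ∧ (∀ y : P, ⁅x, y⁆ ∈ K) ∧ x ^ p ∈ K := by
    intro x
    rw [hH, Subgroup.mem_inf, Subgroup.mem_comap, H3.mem_omegaCenter]
    constructor
    · rintro ⟨h1, h2, h3⟩
      refine ⟨h1, ?_, ?_⟩
      · have h4 : x ∈ Subgroup.comap (QuotientGroup.mk' K) (Subgroup.center (P ⧸ K)) := h2
        rw [← Subgroup.upperCentralSeriesStep_eq_comap_center] at h4
        exact h4
      · rw [← map_pow] at h3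
        exact (QuotientGroup.eq_one_iff _).mp h3
    · rintro ⟨h1, h2, h3⟩
      refine ⟨h1, ?_, ?_⟩
      · have h4 : x ∈ Subgroup.upperCentralSeriesStep K := h2
        rw [Subgroup.upperCentralSeriesStep_eq_comap_center] at h4
        exact h4
      · rw [← map_pow]
        exact (QuotientGroup.eq_one_iff _).mpr h3
  have hHinv : GInv G H := by
    intro α hα x hx
    rw [hmemH] at hx ⊢
    refine ⟨hCinv α hα x hx.1, ?_, ?_⟩
    · intro y
      have h1 := hx.2.1 (α⁻¹ y)
      have h2 := hKinv α hα _ h1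
      rwa [map_commutatorElement, MulAut.apply_inv_self P] at h2
    · rw [← map_pow]
      exact hKinv α hα _ hx.2.2
  have hKH : K ≤ H := by
    intro k hk
    rw [hmemH]
    refine ⟨Subgroup.mem_inf.mpr ⟨hKQ hk, ?_⟩, ?_, K.pow_mem hk p⟩
    · rw [Subgroup.mem_centralizer_iff]
      intro h hh
      exact hKab h hh k hk
    · intro y
      rw [commutatorElement_def]
      have h1 : y * k⁻¹ * y⁻¹ ∈ K := hKn.conj_mem _ (K.inv_mem hk) y
      have h2 := K.mul_mem hk h1
      have h3 : k * (y * k⁻¹ * y⁻¹) = k * y * k⁻¹ * y⁻¹ := by group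
      rwa [h3] at h2
  have hHC : H ≤ C := inf_le_left
  have hHQ : H ≤ Q := hHC.trans inf_le_left
  have hKD : K ≤ Subgroup.centralizer (H : Set P) := by
    intro k hk
    rw [Subgroup.mem_centralizer_iff]
    intro h hh
    have := (Subgroup.mem_inf.mp (hHC hh)).2
    rw [Subgroup.mem_centralizer_iff] at this
    exact (this k hk).symm
  have hpow : ∀ x ∈ H, x ^ p ∈ K := fun x hx => ((hmemH x).mp hx).2.2
  have hcomm : ∀ x ∈ H, ∀ y : P, ⁅x, y⁆ ∈ K := fun x hx => ((hmemH x).mp hx).2.1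
  have hZ : H ⊓ Subgroup.centralizer (H : Set P) ≤ K := by
    apply hKmax
    · exact hHinv.inf hHinv.centralizer
    · exact inf_le_left.trans hHQ
    · intro a ha b hb
      have h1 := (Subgroup.mem_inf.mp ha).2
      rw [Subgroup.mem_centralizer_iff] at h1
      exact (h1 b (Subgroup.mem_inf.mp hb).1).symm
    · exact le_inf hKH hKD
  have hDK : Q ⊓ Subgroup.centralizer (H : Set P) ≤ K := by
    by_contra hcon
    have hDinv : GInv G (Q ⊓ Subgroup.centralizer (H : Set P)) := hQ.inf hHinv.centralizer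
    have hDnorm : (Q ⊓ Subgroup.centralizer (H : Set P)).Normal := hDinv.normal hG
    have hDn : ((Q ⊓ Subgroup.centralizer (H : Set P)).map π).Normal :=
      Subgroup.Normal.map inferInstance π (QuotientGroup.mk'_surjective K)
    have hne : (Q ⊓ Subgroup.centralizer (H : Set P)).map π ≠ ⊥ := by
      intro hbot
      apply hcon
      rw [Subgroup.map_eq_bot_iff, QuotientGroup.ker_mk'] at hbot
      exact hbot
    have hQK : IsPGroup p (P ⧸ K) := hP.to_quotient K
    obtain ⟨z, hzN, hzΩ, hz1⟩ := H3.normal_exists_central_order_p hQK _ hne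
    obtain ⟨x, hxD, rfl⟩ := Subgroup.mem_map.mp hzN
    have hxC : x ∈ C := Subgroup.mem_inf.mpr ⟨(Subgroup.mem_inf.mp hxD).1,
      Subgroup.centralizer_le hKH (Subgroup.mem_inf.mp hxD).2⟩
    have hxH : x ∈ H := Subgroup.mem_inf.mpr ⟨hxC, Subgroup.mem_comap.mpr hzΩ⟩
    have hxK : x ∈ K := hZ (Subgroup.mem_inf.mpr ⟨hxH, (Subgroup.mem_inf.mp hxD).2⟩)
    exact hz1 ((QuotientGroup.eq_one_iff x).mpr hxK)
  exact ⟨H, K, hHinv, hKinv, hKH, hHQ, hKD, hDK, hpow, hcomm⟩

/-- Fixed-point argument: an automorphism `α` with `α ^ m = 1`, `m` prime to `p`, of a `p`-group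
fixes `x` as soon as it fixes `x⁻¹ α(x)`. -/
theorem aut_fix {P : Type*} [Group P] {p : ℕ} [Fact p.Prime] (hP : IsPGroup p P)
    (α : MulAut P) (m : ℕ) (hm : α ^ m = 1) (hcop : m.Coprime p) (x : P)
    (h : α (x⁻¹ * α x) = x⁻¹ * α x) : α x = x := by
  set w := x⁻¹ * α x with hw
  have hax : α x = x * w := by rw [hw]; group
  have hpw : ∀ k : ℕ, (α ^ k) x = x * w ^ k := by
    intro k
    induction k with
    | zero => simp
    | succ k ih =>
      rw [pow_succ', MulAut.mul_apply, ih, map_mul, map_pow, h, hax, pow_succ', mul_assoc]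
  have h1 := hpw m
  rw [hm, MulAut.one_apply] at h1
  have hwm : w ^ m = 1 := by
    have : x * w ^ m = x * 1 := by rw [mul_one]; exact h1.symm
    exact mul_left_cancel this
  obtain ⟨j, hj⟩ := hP w
  have h2 : orderOf w ∣ m := orderOf_dvd_of_pow_eq_one hwm
  have h3 : orderOf w ∣ p ^ j := orderOf_dvd_of_pow_eq_one hj
  have h4 : orderOf w = 1 := Nat.eq_one_of_dvd_coprimes (Nat.Coprime.pow_right j hcop) h2 h3
  have h5 : w = 1 := orderOf_eq_one_iff.mp h4
  rw [hax, h5, mul_one]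

/-- Restriction of automorphisms to an invariant subgroup. -/
def resAut {P : Type*} [Group P] (G : Subgroup (MulAut P)) (H : Subgroup P) (hH : GInv G H) :
    ↥G →* MulAut ↥H where
  toFun a :=
    { toFun := fun x => ⟨(a : MulAut P) x, hH a a.2 x x.2⟩
      invFun := fun x => ⟨(a : MulAut P)⁻¹ x, hH _ (G.inv_mem a.2) x x.2⟩
      left_inv := fun x => Subtype.ext (MulAut.inv_apply_self P _ _)
      right_inv := fun x => Subtype.ext (MulAut.apply_inv_self P _ _)
      map_mul' := fun x y => Subtype.ext (map_mul _ _ _) }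
  map_one' := by
    ext x
    rfl
  map_mul' := by
    intro a b
    ext x
    rfl

theorem resAut_apply {P : Type*} [Group P] (G : Subgroup (MulAut P)) (H : Subgroup P)
    (hH : GInv G H) (a : ↥G) (x : ↥H) : ((resAut G H hH a) x : P) = (a : MulAut P) x := rfl

theorem comm_of_mem_closure {P : Type*} [Group P] {k : Set P}
    (h : ∀ x ∈ k, ∀ y ∈ k, x * y = y * x) :
    ∀ x ∈ Subgroup.closure k, ∀ y ∈ Subgroup.closure k, x * y = y * x := by
  intro x hx y hy
  have h0 := Subgroup.isMulCommutative_closure h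
  have h1 := h0.is_comm.comm (⟨x, hx⟩ : ↥(Subgroup.closure k)) ⟨y, hy⟩
  exact congrArg Subtype.val h1

end Cfsg.Agent.H39
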