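import Mathlib
import Cfsg.Prelude.Def_Transfer
import Cfsg.Agent.H39.RelCrit

set_option autoImplicit false

namespace Cfsg.Agent.H39

open scoped commutatorElement

theorem pResidual_conj_mem {X : Type*} [Group X] (p : ℕ) (a b : X)
    (ha : a ∈ Cfsg.pResidual p X) : b * a * b⁻¹ ∈ Cfsg.pResidual p X := by
  have h1 : Cfsg.pResidual p X ≤ (Cfsg.pResidual p X).comap (MulAut.conj b).toMonoidHom := by
    unfold Cfsg.pResidual
    rw [Subgroup.closure_le]
    intro g hg
    show (MulAut.conj b) g ∈ Subgroup.closure {g : X | Nat.Coprime (orderOf g) p}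
    apply Subgroup.subset_closure
    show Nat.Coprime (orderOf (MulAut.conj b g)) p
    rw [MulEquiv.orderOf_eq]
    exact hg
  exact h1 ha

theorem small_exp {P : Type*} [Group P] [Finite P] {p : ℕ} [Fact p.Prime] (hP : IsPGroup p P)
    (G : Subgroup (MulAut P)) (hG : Cfsg.Inn P ≤ G) :
    ∃ D : Subgroup P,
      (∀ α ∈ G, D.map α.toMonoidHom = D) ∧
      D ≤ Subgroup.closure {y : P | ∃ α ∈ Cfsg.pResidual p ↥G, ∃ x : P, y = x⁻¹ * (α : MulAut P) x} ∧
      (∀ d ∈ D, d ^ p = 1 ∨ (p = 2 ∧ d ^ 4 = 1)) ∧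
      ⁅D, (⊤ : Subgroup P)⁆ ≤ D ⊓ Subgroup.centralizer (D : Set P) ∧
      (∀ α ∈ G, (orderOf α).Coprime p → (∀ d ∈ D, α d = d) → α = 1) ∧
      ∀ A : Subgroup P, A ≤ D → IsMulCommutative ↥A →
        (∀ B : Subgroup P, A ≤ B → B ≤ D → IsMulCommutative ↥B → B = A) →
        A.Normal ∧ ∀ α ∈ G, (∀ a ∈ A, α a = a) → ∃ k : ℕ, orderOf α = p ^ k := by
  have hp : p.Prime := Fact.out
  set Q := Subgroup.closure
    {y : P | ∃ α ∈ Cfsg.pResidual p ↥G, ∃ x : P, y = x⁻¹ * (α : MulAut P) x} with hQ
  have hQinv : GInv G Q := by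
    intro β hβ y hy
    have h1 : Q ≤ Q.comap β.toMonoidHom := by
      rw [hQ, Subgroup.closure_le]
      rintro y ⟨α, hα, x, rfl⟩
      show β (x⁻¹ * (α : MulAut P) x) ∈ Subgroup.closure
        {y : P | ∃ α ∈ Cfsg.pResidual p ↥G, ∃ x : P, y = x⁻¹ * (α : MulAut P) x}
      apply Subgroup.subset_closure
      refine ⟨⟨β, hβ⟩ * α * ⟨β, hβ⟩⁻¹, pResidual_conj_mem p α ⟨β, hβ⟩ hα, β x, ?_⟩
      rw [map_mul, map_inv]
      congr 1
      show β ((α : MulAut P) x) = (β * (α : MulAut P) * β⁻¹) (β x)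
      rw [MulAut.mul_apply, MulAut.mul_apply, MulAut.inv_apply_self]
    exact h1 hy
  obtain ⟨H, K, hHinv, hKinv, hKH, hHQ, hKD, hDK, hpow, hcomm⟩ := rel_critical hP G hG Q hQinv
  have hHn : H.Normal := hHinv.normal hG
  set e : ℕ := if p = 2 then 4 else p with he
  have hmul : ∀ u ∈ H, ∀ v ∈ H, (u * v) ^ e = u ^ e * v ^ e := by
    intro u hu v hv
    by_cases h2 : p = 2
    · rw [he, if_pos h2]
      exact H67.mul_pow_four_of_central_elementary H K hKD
        (fun x hx => by have := hpow x hx; rwa [h2] at this) hcomm hu hv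
    · rw [he, if_neg h2]
      exact H3.mul_pow_of_central_elementary hp h2 H K hKD hpow hcomm hu hv
  let D : Subgroup P :=
    { carrier := {x | x ∈ H ∧ x ^ e = 1}
      one_mem' := ⟨H.one_mem, one_pow _⟩
      mul_mem' := by
        rintro a b ⟨ha, ha'⟩ ⟨hb, hb'⟩
        exact ⟨H.mul_mem ha hb, by rw [hmul a ha b hb, ha', hb', one_mul]⟩
      inv_mem' := by
        rintro a ⟨ha, ha'⟩
        exact ⟨H.inv_mem ha, by rw [inv_pow, ha', inv_one]⟩ }
  have hDH : D ≤ H := fun x hx => hx.1
  have hDinv : GInv G D := by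
    intro α hα d hd
    exact ⟨hHinv α hα d hd.1, by rw [← map_pow, hd.2, map_one]⟩
  have hDn : D.Normal := hDinv.normal hG
  -- key: automorphisms in `G` of order prime to `p` fixing `D` are trivial
  have hkey : ∀ α ∈ G, ∀ m : ℕ, α ^ m = 1 → m.Coprime p → (∀ d ∈ D, α d = d) → α = 1 := by
    intro α hα m hm hcop hfix
    have hfixH : ∀ x ∈ H, α x = x := by
      set a : ↥G := ⟨α, hα⟩ with ha
      set r := resAut G H hHinv a with hr
      have hrm : r ^ m = 1 := by
        rw [hr, ← map_pow]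
        have ham : a ^ m = 1 := Subtype.ext (by push_cast; exact hm)
        rw [ham, map_one]
      have hord : (orderOf r).Coprime p :=
        Nat.Coprime.coprime_dvd_left (orderOf_dvd_of_pow_eq_one hrm) hcop
      have hHp : IsPGroup p ↥H := hP.to_subgroup H
      have hr1 : r = 1 := by
        by_cases h2 : p = 2
        · subst h2
          apply H67.coprime_aut_trivial_of_omega_two hHp r hord
          intro x hx
          apply Subtype.ext
          rw [hr, resAut_apply]
          apply hfix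
          refine ⟨x.2, ?_⟩
          rw [he, if_pos rfl]
          have h3 := congrArg Subtype.val hx
          push_cast at h3
          exact h3
        · apply H3.coprime_aut_trivial_of_omega h2 hHp r hord
          intro x hx
          apply Subtype.ext
          rw [hr, resAut_apply]
          apply hfix
          refine ⟨x.2, ?_⟩
          rw [he, if_neg h2]
          have h3 := congrArg Subtype.val hx
          push_cast at h3
          exact h3
      intro x hx
      have h4 := congrArg (fun f : MulAut ↥H => ((f ⟨x, hx⟩ : ↥H) : P)) hr1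
      exact h4
    have hfixQ : ∀ x ∈ Q, α x = x := by
      intro x hx
      apply aut_fix hP α m hm hcop
      have hwQ : x⁻¹ * α x ∈ Q := Q.mul_mem (Q.inv_mem hx) (hQinv α hα x hx)
      have hwC : x⁻¹ * α x ∈ Subgroup.centralizer (H : Set P) := by
        rw [Subgroup.mem_centralizer_iff]
        intro c hc
        have h1 : α (x * c * x⁻¹) = x * c * x⁻¹ := hfixH _ (hHn.conj_mem c hc x)
        rw [map_mul, map_mul, map_inv, hfixH c hc] at h1
        calc c * (x⁻¹ * α x) = x⁻¹ * (x * c * x⁻¹) * α x := by group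
          _ = x⁻¹ * (α x * c * (α x)⁻¹) * α x := by rw [h1]
          _ = x⁻¹ * α x * c := by group
      exact hfixH _ (hKH (hDK (Subgroup.mem_inf.mpr ⟨hwQ, hwC⟩)))
    ext x
    rw [MulAut.one_apply]
    apply aut_fix hP α m hm hcop
    apply hfixQ
    apply Subgroup.subset_closure
    refine ⟨⟨α, hα⟩, ?_, x, rfl⟩
    apply Subgroup.subset_closure
    show Nat.Coprime (orderOf (⟨α, hα⟩ : ↥G)) p
    have h5 : orderOf (⟨α, hα⟩ : ↥G) = orderOf α := by rw [← Subgroup.orderOf_coe]
    rw [h5]
    exact Nat.Coprime.coprime_dvd_left (orderOf_dvd_of_pow_eq_one hm) hcop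
  have hcommD : ∀ d ∈ D, ∀ x : P, ⁅d, x⁆ ∈ D ⊓ Subgroup.centralizer (D : Set P) := by
    intro d hd x
    refine Subgroup.mem_inf.mpr ⟨?_, ?_⟩
    · rw [commutatorElement_def]
      have h1 : x * d⁻¹ * x⁻¹ ∈ D := hDn.conj_mem _ (D.inv_mem hd) x
      have h2 := D.mul_mem hd h1
      have h3 : d * (x * d⁻¹ * x⁻¹) = d * x * d⁻¹ * x⁻¹ := by group
      rwa [h3] at h2
    · exact Subgroup.centralizer_le hDH (hKD (hcomm d hd.1 x))
  refine ⟨D, fun α hα => hDinv.map_eq α hα, hDH.trans hHQ, ?_, ?_, ?_, ?_⟩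
  · intro d hd
    by_cases h2 : p = 2
    · right
      refine ⟨h2, ?_⟩
      have h3 := hd.2
      rwa [he, if_pos h2] at h3
    · left
      have h3 := hd.2
      rwa [he, if_neg h2] at h3
  · rw [Subgroup.commutator_le]
    intro d hd x _
    exact hcommD d hd x
  · intro α hα hcop hfix
    exact hkey α hα (orderOf α) (pow_orderOf_eq_one α) hcop hfix
  · intro A hAD hAc hAmax
    have hAab : ∀ a ∈ A, ∀ b ∈ A, a * b = b * a := by
      intro a ha b hb
      exact congrArg Subtype.val (hAc.is_comm.comm (⟨a, ha⟩ : ↥A) ⟨b, hb⟩)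
    have hCA : ∀ d ∈ D, (∀ a ∈ A, d * a = a * d) → d ∈ A := by
      intro d hd hda
      have hcomm' : ∀ x ∈ (A : Set P) ∪ {d}, ∀ y ∈ (A : Set P) ∪ {d}, x * y = y * x := by
        rintro x (hx | hx) y (hy | hy)
        · exact hAab x hx y hy
        · rw [Set.mem_singleton_iff] at hy
          rw [hy]
          exact (hda x hx).symm
        · rw [Set.mem_singleton_iff] at hx
          rw [hx]
          exact hda y hy
        · rw [Set.mem_singleton_iff] at hx hy
          rw [hx, hy]
      have hB := hAmax (Subgroup.closure ((A : Set P) ∪ {d}))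
        (fun a ha => Subgroup.subset_closure (Or.inl ha))
        (by
          rw [Subgroup.closure_le]
          rintro x (hx | hx)
          · exact hAD hx
          · rw [Set.mem_singleton_iff] at hx
            rw [hx]
            exact hd)
        (Subgroup.isMulCommutative_closure hcomm')
      rw [← hB]
      exact Subgroup.subset_closure (Or.inr rfl)
    have hZA : D ⊓ Subgroup.centralizer (D : Set P) ≤ A := by
      intro z hz
      apply hCA z (Subgroup.mem_inf.mp hz).1
      intro a ha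
      have h1 := (Subgroup.mem_inf.mp hz).2
      rw [Subgroup.mem_centralizer_iff] at h1
      exact (h1 a (hAD ha)).symm
    have hAn : A.Normal := by
      refine ⟨fun a ha x => ?_⟩
      have h1 : ⁅a, x⁆ ∈ A := hZA (hcommD a (hAD ha) x)
      have h2 : x * a * x⁻¹ = (⁅a, x⁆)⁻¹ * a := by
        rw [commutatorElement_def]
        group
      rw [h2]
      exact A.mul_mem (A.inv_mem h1) ha
    refine ⟨hAn, ?_⟩
    intro α hα hfixA
    have hn0 : orderOf α ≠ 0 := (orderOf_pos α).ne'
    obtain ⟨k, m, hpm, hnm⟩ := Nat.exists_eq_pow_mul_and_not_dvd hn0 p hp.ne_one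
    have hcop : m.Coprime p := Nat.Coprime.symm ((Nat.Prime.coprime_iff_not_dvd hp).mpr hpm)
    set β := α ^ (p ^ k) with hβ
    have hβG : β ∈ G := G.pow_mem hα _
    have hβm : β ^ m = 1 := by rw [hβ, ← pow_mul, ← hnm, pow_orderOf_eq_one]
    have hβA : ∀ a ∈ A, β a = a := by
      intro a ha
      have h1 : ∀ j : ℕ, (α ^ j) a = a := by
        intro j
        induction j with
        | zero => simp
        | succ j ih => rw [pow_succ, MulAut.mul_apply, hfixA a ha, ih]
      exact h1 _
    have hβD : ∀ d ∈ D, β d = d := by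
      intro d hd
      apply aut_fix hP β m hβm hcop
      have hwD : d⁻¹ * β d ∈ D := D.mul_mem (D.inv_mem hd) (hDinv β hβG d hd)
      apply hβA
      apply hCA _ hwD
      intro a ha
      have h1 : β (d * a * d⁻¹) = d * a * d⁻¹ := hβA _ (hAn.conj_mem a ha d)
      rw [map_mul, map_mul, map_inv, hβA a ha] at h1
      calc d⁻¹ * β d * a = d⁻¹ * (β d * a * (β d)⁻¹) * β d := by group
        _ = d⁻¹ * (d * a * d⁻¹) * β d := by rw [h1]
        _ = a * (d⁻¹ * β d) := by group
    have hβ1 : β = 1 := hkey β hβG m hβm hcop hβD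
    have h3 : orderOf α ∣ p ^ k := orderOf_dvd_of_pow_eq_one hβ1
    obtain ⟨j, -, hj⟩ := (Nat.dvd_prime_pow hp).mp h3
    exact ⟨j, hj⟩

end Cfsg.Agent.H39
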