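import Cfsg.Agent.H17.TgDefs

/-!
# TG-INV3 (helper17, S1904): three elements independent modulo a centre of order 2 span a
non-central involution
-/

set_option autoImplicit false

namespace Cfsg.Agent.H39.Tg

universe u

open Cfsg.Agent.H17.Tg

/-- if `u² = w² = (uw)² = z` with `z` a central involution, then `u w = z w u` -/
theorem inv3_key {X : Type u} [Group X] (z : X) (hzc : ∀ g : X, g * z = z * g) (hzz : z * z = 1)
    (u w : X) (hu : u * u = z) (hw : w * w = z) (huw : u * w * (u * w) = z) :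
    u * w = z * (w * u) := by
  apply mul_right_cancel (b := u * w)
  rw [huw]
  have h1 : z * (w * u) * (u * w) = z * (w * (u * u) * w) := by group
  rw [h1, hu, hzc w, mul_assoc z w w, hw, hzz, mul_one]

theorem inv3 : StInv3.{u} := by
  intro X _ _ hZ hsq x₁ x₂ x₃ h1 h2 h3 h12 h13 h23 h123
  obtain ⟨zz, hzz1, hzuniq⟩ := (Nat.card_eq_two_iff' (1 : Subgroup.center X)).mp hZ
  have hz : (zz : X) ∈ Subgroup.center X := zz.2
  have hz1 : (zz : X) ≠ 1 := fun h => hzz1 (Subtype.ext h)
  have hall : ∀ c ∈ Subgroup.center X, c = 1 ∨ c = (zz : X) := by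
    intro c hc
    by_cases hc1 : c = 1
    · exact Or.inl hc1
    · right
      have h5 := hzuniq ⟨c, hc⟩ (fun h => hc1 (congrArg Subtype.val h))
      exact congrArg Subtype.val h5
  have hzc : ∀ g : X, g * (zz : X) = (zz : X) * g := Subgroup.mem_center_iff.mp hz
  have hzz : (zz : X) * (zz : X) = 1 := by
    rcases hall _ (mul_mem hz hz) with h5 | h5
    · exact h5
    · exfalso
      apply hz1
      exact mul_left_cancel (a := (zz : X)) (by rw [h5, mul_one])
  by_contra hcon
  push Not at hcon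
  have hsq' : ∀ w : X, w ∉ Subgroup.center X → (w ^ 2 ≠ 1) → w * w = (zz : X) := by
    intro w _ hw2
    rcases hall _ (hsq w) with h5 | h5
    · exact absurd h5 hw2
    · rw [← pow_two]
      exact h5
  have s1 : x₁ * x₁ = (zz : X) := by
    have h5 := hcon 1 0 0
    simp only [pow_one, pow_zero, mul_one] at h5
    exact hsq' _ h1 (h5 h1)
  have s2 : x₂ * x₂ = (zz : X) := by
    have h5 := hcon 0 1 0
    simp only [pow_one, pow_zero, mul_one, one_mul] at h5
    exact hsq' _ h2 (h5 h2)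
  have s3 : x₃ * x₃ = (zz : X) := by
    have h5 := hcon 0 0 1
    simp only [pow_one, pow_zero, one_mul] at h5
    exact hsq' _ h3 (h5 h3)
  have s12 : x₁ * x₂ * (x₁ * x₂) = (zz : X) := by
    have h5 := hcon 1 1 0
    simp only [pow_one, pow_zero, mul_one] at h5
    exact hsq' _ h12 (h5 h12)
  have s13 : x₁ * x₃ * (x₁ * x₃) = (zz : X) := by
    have h5 := hcon 1 0 1
    simp only [pow_one, pow_zero, mul_one] at h5
    exact hsq' _ h13 (h5 h13)
  have s23 : x₂ * x₃ * (x₂ * x₃) = (zz : X) := by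
    have h5 := hcon 0 1 1
    simp only [pow_one, pow_zero, one_mul] at h5
    exact hsq' _ h23 (h5 h23)
  have s123 : x₁ * x₂ * x₃ * (x₁ * x₂ * x₃) = (zz : X) := by
    have h5 := hcon 1 1 1
    simp only [pow_one] at h5
    exact hsq' _ h123 (h5 h123)
  have c12 := inv3_key (zz : X) hzc hzz x₁ x₂ s1 s2 s12
  have c13 := inv3_key (zz : X) hzc hzz x₁ x₃ s1 s3 s13
  have c123 := inv3_key (zz : X) hzc hzz x₁ (x₂ * x₃) s1 s23 (by rw [← mul_assoc x₁ x₂ x₃]; exact s123)
  have e : x₁ * (x₂ * x₃) = x₂ * x₃ * x₁ := by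
    calc x₁ * (x₂ * x₃) = (x₁ * x₂) * x₃ := by rw [mul_assoc]
      _ = (zz : X) * (x₂ * x₁) * x₃ := by rw [c12]
      _ = (zz : X) * x₂ * (x₁ * x₃) := by group
      _ = (zz : X) * x₂ * ((zz : X) * (x₃ * x₁)) := by rw [c13]
      _ = x₂ * ((zz : X) * (zz : X)) * (x₃ * x₁) := by rw [← hzc x₂]; group
      _ = x₂ * x₃ * x₁ := by rw [hzz]; group
  rw [e] at c123
  apply hz1
  apply mul_right_cancel (b := x₂ * x₃ * x₁)
  rw [one_mul]
  exact c123.symm

example : StInv3.{u} := inv3

end Cfsg.Agent.H39.Tg
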