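import Cfsg.Agent.H17.TgDefs

/-!
# TG-Q0GRP (helper17, S1904): `Q₀` is a subgroup containing `B`, stable under `A`
-/

set_option autoImplicit false

namespace Cfsg.Agent.H39.Tg

universe u

open Cfsg.Agent.H17.Tg

theorem q0grp : StQ0grp.{u} := by
  intro X _ _ A B hB
  obtain ⟨hN, hA, hab⟩ := hB
  refine ⟨?_, ?_, ?_, ?_⟩
  · intro b hb
    refine ⟨fun b' hb' => hab b hb _ (pow_mem hb' 2), pow_mem hb 2, fun x => ?_⟩
    have h1 : x * b⁻¹ * x⁻¹ ∈ B := hN.conj_mem _ (inv_mem hb) x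
    have h2 : b * x * b⁻¹ * x⁻¹ = b * (x * b⁻¹ * x⁻¹) := by group
    rw [h2]
    exact mul_mem hb h1
  · intro q q' hq hq'
    obtain ⟨hq1, hq2, hq3⟩ := hq
    obtain ⟨hq1', hq2', hq3'⟩ := hq'
    refine ⟨fun b hb => ?_, ?_, fun x => ?_⟩
    · rw [mul_assoc, hq1' b hb, ← mul_assoc, hq1 b hb, mul_assoc]
    · have h1 : q⁻¹ * (q' * q * q'⁻¹ * q⁻¹) * q⁻¹⁻¹ ∈ B := hN.conj_mem _ (hq3' q) q⁻¹
      have h2 : (q * q') ^ 2 = q ^ 2 * (q⁻¹ * (q' * q * q'⁻¹ * q⁻¹) * q⁻¹⁻¹) * q' ^ 2 := by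
        simp only [pow_two]
        group
      rw [h2]
      exact mul_mem (mul_mem hq2 h1) hq2'
    · have h1 : q * (q' * x * q'⁻¹ * x⁻¹) * q⁻¹ ∈ B := hN.conj_mem _ (hq3' x) q
      have h2 : q * q' * x * (q * q')⁻¹ * x⁻¹
          = q * (q' * x * q'⁻¹ * x⁻¹) * q⁻¹ * (q * x * q⁻¹ * x⁻¹) := by group
      rw [h2]
      exact mul_mem h1 (hq3 x)
  · intro q hq
    obtain ⟨hq1, hq2, hq3⟩ := hq
    refine ⟨fun b hb => ?_, ?_, fun x => ?_⟩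
    · have h1 := hq1 b hb
      rw [inv_mul_eq_iff_eq_mul, ← mul_assoc, h1, mul_assoc, mul_inv_cancel, mul_one]
    · rw [inv_pow]
      exact inv_mem hq2
    · have h1 : q⁻¹ * (q * x * q⁻¹ * x⁻¹)⁻¹ * q⁻¹⁻¹ ∈ B :=
        hN.conj_mem _ (inv_mem (hq3 x)) q⁻¹
      have h2 : q⁻¹ * x * q⁻¹⁻¹ * x⁻¹ = q⁻¹ * (q * x * q⁻¹ * x⁻¹)⁻¹ * q⁻¹⁻¹ := by group
      rw [h2]
      exact h1
  · intro φ hφ q hq
    obtain ⟨hq1, hq2, hq3⟩ := hq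
    have hφi : φ⁻¹ ∈ A := inv_mem hφ
    refine ⟨fun b hb => ?_, ?_, fun x => ?_⟩
    · have h1 := hq1 (φ⁻¹ b) (hA φ⁻¹ hφi b hb)
      have h2 := congrArg φ h1
      rw [map_mul, map_mul, map_pow, MulAut.apply_inv_self] at h2
      exact h2
    · rw [← map_pow]
      exact hA φ hφ _ hq2
    · have h1 := hA φ hφ _ (hq3 (φ⁻¹ x))
      rw [map_mul, map_mul, map_mul, map_inv, map_inv, MulAut.apply_inv_self] at h1
      exact h1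

example : StQ0grp.{u} := q0grp

end Cfsg.Agent.H39.Tg
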