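import Cfsg.Agent.H17.TgDefs
import Cfsg.Agent.S0015

/-!
# TG-RANK (helper17, S1904): the rank hypothesis follows from the absence of `SCN₃`
(uses the landed statement S0015: a maximal normal abelian subgroup of a nilpotent group is
self-centralizing)
-/

set_option autoImplicit false

namespace Cfsg.Agent.H39.Tg

universe u

open Cfsg.Agent.H17.Tg

theorem rank : StRank.{u} := by
  intro X _ _ hp hno N hN hab E hEN hexp
  by_contra hcard
  push Not at hcard
  have hf2 : Fact (Nat.Prime 2) := ⟨Nat.prime_two⟩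
  have hnil : Group.IsNilpotent X := hp.isNilpotent
  obtain ⟨N', hNN', hmax⟩ := Finite.exists_le_maximal
    (p := fun M : Subgroup X => M.Normal ∧ ∀ a ∈ M, ∀ b ∈ M, a * b = b * a) (a := N) ⟨hN, hab⟩
  have hN'n : N'.Normal := hmax.1.1
  have hN'c : IsMulCommutative N' := ⟨⟨fun a b => Subtype.ext (hmax.1.2 a.1 a.2 b.1 b.2)⟩⟩
  have hcent : Subgroup.centralizer (N' : Set X) = N' := by
    apply Cfsg.Agent.S0015.result N'
    intro M hM hMc hle
    apply le_antisymm _ hle
    apply hmax.2 ⟨hM, ?_⟩ hle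
    intro a ha b hb
    have h5 := (isMulCommutative_iff.mp hMc) ⟨a, ha⟩ ⟨b, hb⟩
    exact congrArg Subtype.val h5
  have h8 : 2 ^ 3 ≤ Nat.card E := by
    obtain ⟨k, hk⟩ := IsPGroup.iff_card.mp (hp.to_subgroup E)
    rw [hk] at hcard ⊢
    have hk2 : 2 < k := by
      by_contra h
      push Not at h
      have h5 : 2 ^ k ≤ 2 ^ 2 := Nat.pow_le_pow_right (by norm_num) h
      omega
    exact Nat.pow_le_pow_right (by norm_num) hk2
  obtain ⟨E', hE'E, hE'card⟩ :=
    Sylow.exists_subgroup_le_card_pow_prime_of_le_card Nat.prime_two hp h8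
  apply hno
  refine ⟨N', hN'n, hcent, E', hE'E.trans (hEN.trans hNN'), ⟨?_, ?_⟩, by rw [hE'card]; norm_num⟩
  · exact ⟨⟨fun a b => Subtype.ext (hab a.1 (hEN (hE'E a.2)) b.1 (hEN (hE'E b.2)))⟩⟩
  · intro a ha
    exact hexp a (hE'E ha)

example : StRank.{u} := rank

end Cfsg.Agent.H39.Tg
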