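import Mathlib
import Cfsg.Agent.H39.Transfer2
import Cfsg.Agent.H39.CoreOf
import Cfsg.Agent.H39.PConstr

set_option autoImplicit false

namespace Cfsg.Agent.H39

open Cfsg
open scoped commutatorElement

variable {G : Type*} [Group G]

local notation "cj(" g ", " Q ")" => Subgroup.map (MulEquiv.toMonoidHom (MulAut.conj g)) Q
local notation "N(" Q ")" => Subgroup.normalizer (SetLike.coe (Q : Subgroup _))

theorem centralizer_conjMap (g : G) (Q : Subgroup G) :
    Subgroup.centralizer ((cj(g, Q) : Subgroup G) : Set G)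
      = cj(g, Subgroup.centralizer (Q : Set G)) := by
  ext y
  rw [mem_conjMap, Subgroup.mem_centralizer_iff, Subgroup.mem_centralizer_iff]
  constructor
  · intro h q hq
    have h1 := h (g * q * g⁻¹) (conj_mem_conjMap hq)
    have e1 : q * (g⁻¹ * y * g) = g⁻¹ * (g * q * g⁻¹ * y) * g := by group
    have e2 : g⁻¹ * y * g * q = g⁻¹ * (y * (g * q * g⁻¹)) * g := by group
    rw [e1, e2, h1]
  · intro h x hx
    rw [SetLike.mem_coe, mem_conjMap] at hx
    have h1 := h _ hx
    have e1 : x * y = g * ((g⁻¹ * x * g) * (g⁻¹ * y * g)) * g⁻¹ := by group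
    have e2 : y * x = g * ((g⁻¹ * y * g) * (g⁻¹ * x * g)) * g⁻¹ := by group
    rw [e1, e2, h1]

/-- Commutators along a decomposition, with the size of the members of the family tracked. -/
theorem Decomp.comm_mem' [Finite G] {𝓕 : Set (Subgroup G)} {H B : Subgroup G} {g : G}
    (d : Decomp 𝓕 H B g) (L : Subgroup G) :
    (∀ U ∈ 𝓕, Nat.card B ≤ Nat.card U → ∀ y ∈ U, ∀ n ∈ H, n ∈ N(U) → ⁅y, n⁆ ∈ L) →
    ∀ b ∈ B, ⁅b, g⁆ ∈ L := by
  induction d with
  | nil B => intro _ b _; simp
  | cons B U x g hU hx hxN hBU _ ih =>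
    intro hL b hb
    rw [comm_mul_right]
    refine mul_mem (hL U hU (Subgroup.card_le_of_le hBU) b (hBU hb) x hx hxN)
      (ih ?_ _ (conj_mem_conjMap hb))
    intro U' hU' hcard
    exact hL U' hU' (by rwa [card_conjMap] at hcard)

/-- Statement S2001, core: local control of transfer by `W` together with a central functor `V`
in the normalizers of the subgroups containing `Z(P)`. -/
theorem central_transfer [Finite G] {p : ℕ} [Fact p.Prime] (P : Sylow p G)
    (hPne : (P : Subgroup G) ≠ ⊥)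
    (W V : Subgroup G → Subgroup G) (hW : IsConjugacyFunctor p W) (hV : IsConjugacyFunctor p V)
    (hWZ : ∀ H : Subgroup G, IsPGroup p ↥H → H ⊓ Subgroup.centralizer (H : Set G) ≤ W H)
    (hVmono : ∀ H K : Subgroup G, IsPGroup p ↥H → IsPGroup p ↥K → H ≠ ⊥ → K ≠ ⊥ →
      H ⊓ Subgroup.centralizer (H : Set G) ≤ K ⊓ Subgroup.centralizer (K : Set G) → V H ≤ V K)
    (hloc : ∀ H : Subgroup G,
      (P : Subgroup G) ⊓ Subgroup.centralizer ((P : Subgroup G) : Set G) ≤ H →
      H ≤ (P : Subgroup G) →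
      ∃ Q : Subgroup G, SylIn p Q (N(H)) ∧ ∀ x : G, x ∈ Q ⊓ ⁅N(H), N(H)⁆ →
        ∃ a ∈ Q ⊓ ⁅N(H) ⊓ N(W Q), N(H) ⊓ N(W Q)⁆,
        ∃ b ∈ Q ⊓ ⁅N(H) ⊓ Subgroup.centralizer (V Q : Set G),
          N(H) ⊓ Subgroup.centralizer (V Q : Set G)⁆, x = a * b) :
    (P : Subgroup G) ⊓ ⁅(⊤ : Subgroup G), ⊤⁆ ≤
      ((P : Subgroup G) ⊓ ⁅N(W (P : Subgroup G)), N(W (P : Subgroup G))⁆) ⊔
      ((P : Subgroup G) ⊓ ⁅Subgroup.centralizer (V (P : Subgroup G) : Set G),
        Subgroup.centralizer (V (P : Subgroup G) : Set G)⁆) := by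
  have hSp : IsPGroup p (P : Subgroup G) := P.isPGroup'
  set L := ((P : Subgroup G) ⊓ ⁅N(W (P : Subgroup G)), N(W (P : Subgroup G))⁆) ⊔
      ((P : Subgroup G) ⊓ ⁅Subgroup.centralizer (V (P : Subgroup G) : Set G),
        Subgroup.centralizer (V (P : Subgroup G) : Set G)⁆) with hLdef
  -- one step along the tower
  have hstep : ∀ U : Subgroup G,
      (P : Subgroup G) ⊓ Subgroup.centralizer ((P : Subgroup G) : Set G) ≤ U →
      WPIn p W ⊤ (P : Subgroup G) U →
      (P : Subgroup G) ⊓ ⁅N(W ((P : Subgroup G) ⊓ N(U))), N(W ((P : Subgroup G) ⊓ N(U)))⁆ ≤ L →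
      (P : Subgroup G) ⊓ ⁅N(U), N(U)⁆ ≤ L := by
    intro U hZU hwp hnext x hx
    obtain ⟨hxS, hxc⟩ := Subgroup.mem_inf.mp hx
    have hR : SylIn p ((P : Subgroup G) ⊓ N(U)) (N(U)) := by
      have := hwp.2 0
      unfold GoodAt twN at this
      rw [top_inf_eq] at this
      exact this
    have hRp : IsPGroup p ((P : Subgroup G) ⊓ N(U) : Subgroup G) := hR.2.1
    obtain ⟨Q, hQ, hfac⟩ := hloc U hZU hwp.1
    obtain ⟨n, hn, hnQ⟩ := sylIn_conj_eq hQ hR
    have hxN : x ∈ N(U) := Subgroup.commutator_le_self _ hxc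
    have hK : cj(n, N(U)) = N(U) := conjMap_eq_of_mem hn
    have hKinv : cj(n⁻¹, N(U)) = N(U) := conjMap_eq_of_mem (inv_mem hn)
    have hx0Q : n⁻¹ * x * n ∈ Q := by
      rw [← mem_conjMap, hnQ]
      exact Subgroup.mem_inf.mpr ⟨hxS, hxN⟩
    have hx0c : n⁻¹ * x * n ∈ ⁅N(U), N(U)⁆ := by
      have h1 : n⁻¹ * x * n⁻¹⁻¹ ∈ cj(n⁻¹, ⁅N(U), N(U)⁆) := conj_mem_conjMap hxc
      rw [Subgroup.map_commutator, hKinv, inv_inv] at h1
      exact h1
    obtain ⟨a, ha, b, hb, e⟩ := hfac _ (Subgroup.mem_inf.mpr ⟨hx0Q, hx0c⟩)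
    have hxe : x = (n * a * n⁻¹) * (n * b * n⁻¹) := by
      have e0 : x = n * (n⁻¹ * x * n) * n⁻¹ := by group
      rw [e0, e]
      group
    have ha' : n * a * n⁻¹ ∈ ((P : Subgroup G) ⊓ N(U)) ⊓
        ⁅N(U) ⊓ N(W ((P : Subgroup G) ⊓ N(U))), N(U) ⊓ N(W ((P : Subgroup G) ⊓ N(U)))⁆ := by
      have h1 := conj_mem_conjMap (g := n) ha
      rw [inf_conjMap, Subgroup.map_commutator, inf_conjMap, hK, ← normalizer_conjMap,
        ← cf_conj hW hQ.2.1, hnQ] at h1
      exact h1
    have hb' : n * b * n⁻¹ ∈ ((P : Subgroup G) ⊓ N(U)) ⊓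
        ⁅N(U) ⊓ Subgroup.centralizer (V ((P : Subgroup G) ⊓ N(U)) : Set G),
          N(U) ⊓ Subgroup.centralizer (V ((P : Subgroup G) ⊓ N(U)) : Set G)⁆ := by
      have h1 := conj_mem_conjMap (g := n) hb
      rw [inf_conjMap, Subgroup.map_commutator, inf_conjMap, hK, ← centralizer_conjMap,
        ← cf_conj hV hQ.2.1, hnQ] at h1
      exact h1
    rw [hxe]
    refine mul_mem ?_ ?_
    · apply hnext
      exact Subgroup.mem_inf.mpr ⟨(Subgroup.mem_inf.mp (Subgroup.mem_inf.mp ha').1).1,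
        Subgroup.commutator_mono inf_le_right inf_le_right (Subgroup.mem_inf.mp ha').2⟩
    · apply (le_sup_right : _ ≤ L)
      refine Subgroup.mem_inf.mpr ⟨(Subgroup.mem_inf.mp (Subgroup.mem_inf.mp hb').1).1, ?_⟩
      have hVle : V (P : Subgroup G) ≤ V ((P : Subgroup G) ⊓ N(U)) := by
        apply hVmono _ _ hSp hRp hPne
        · intro hR0
          have hU0 : U = ⊥ := le_bot_iff.mp (hR0 ▸ le_inf hwp.1 Subgroup.le_normalizer)
          rw [hU0] at hR0
          have hNb : N((⊥ : Subgroup G)) = ⊤ := Subgroup.normalizer_eq_top_iff.mpr inferInstance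
          rw [hNb, inf_top_eq] at hR0
          exact hPne hR0
        · refine le_inf (hZU.trans (le_inf hwp.1 Subgroup.le_normalizer)) ?_
          exact inf_le_right.trans
            (Subgroup.centralizer_le (SetLike.coe_subset_coe.mpr inf_le_left))
      have hCle : Subgroup.centralizer (V ((P : Subgroup G) ⊓ N(U)) : Set G) ≤
          Subgroup.centralizer (V (P : Subgroup G) : Set G) :=
        Subgroup.centralizer_le (SetLike.coe_subset_coe.mpr hVle)
      exact Subgroup.commutator_mono (inf_le_right.trans hCle) (inf_le_right.trans hCle)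
        (Subgroup.mem_inf.mp hb').2
  -- the centre stays in the tower
  have hZtower : ∀ U : Subgroup G,
      (P : Subgroup G) ⊓ Subgroup.centralizer ((P : Subgroup G) : Set G) ≤ U →
      ∀ i, (P : Subgroup G) ⊓ Subgroup.centralizer ((P : Subgroup G) : Set G) ≤
        functorTower W (P : Subgroup G) U i := by
    intro U hZU i
    induction i with
    | zero => exact hZU
    | succ i ih =>
      rw [functorTower_succ']
      have hRp : IsPGroup p (twN W (P : Subgroup G) U i) := twN_isPGroup hSp i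
      refine le_trans ?_ (hWZ _ hRp)
      unfold twN
      refine le_inf (le_inf inf_le_left (ih.trans Subgroup.le_normalizer)) ?_
      exact inf_le_right.trans (Subgroup.centralizer_le (SetLike.coe_subset_coe.mpr inf_le_left))
  have final : ∀ U : Subgroup G,
      (P : Subgroup G) ⊓ Subgroup.centralizer ((P : Subgroup G) : Set G) ≤ U →
      WPIn p W ⊤ (P : Subgroup G) U → (P : Subgroup G) ⊓ ⁅N(U), N(U)⁆ ≤ L := by
    intro U hZU hwp
    obtain ⟨j, -, hstab⟩ := exists_twN_stable (U := U) hW hSp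
    have h1 := twN_eq_of_stable hW hSp hstab
    have key : ∀ d i, i + d = j + 1 →
        (P : Subgroup G) ⊓ ⁅N(functorTower W (P : Subgroup G) U i),
          N(functorTower W (P : Subgroup G) U i)⁆ ≤ L := by
      intro d
      induction d with
      | zero =>
        intro i hi
        have hij : i = j + 1 := by omega
        subst hij
        rw [functorTower_succ', h1]
        exact le_sup_left
      | succ d ih =>
        intro i hi
        obtain ⟨hVwp, -⟩ := hwp.shift_iter hW hSp i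
        apply hstep _ (hZtower U hZU i) hVwp
        have h2 := ih (i + 1) (by omega)
        rw [functorTower_succ'] at h2
        exact h2
    exact key (j + 1) 0 (by omega)
  have hfam : ∀ Q : Subgroup G, Q ≤ (P : Subgroup G) →
      ∃ U ∈ {U | WPIn p W ⊤ (P : Subgroup G) U}, (∃ h ∈ (⊤ : Subgroup G), cj(h, Q) = U) ∧
      SylIn p ((P : Subgroup G) ⊓ N(U)) (⊤ ⊓ N(U)) := by
    intro Q hQ
    obtain ⟨x, hx, hwp⟩ := exists_wpIn hW (sylIn_top P) hQ
    exact ⟨_, hwp, ⟨x, hx, rfl⟩, hwp.2 0⟩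
  have claim2 : ∀ m : ℕ, ∀ U : Subgroup G, WPIn p W ⊤ (P : Subgroup G) U →
      Nat.card (P : Subgroup G) - Nat.card U = m → ∀ y ∈ U, ∀ n ∈ N(U), ⁅y, n⁆ ∈ L := by
    intro m
    induction m using Nat.strong_induction_on with
    | _ m IH =>
    intro U hwp hm y hy n hn
    have hUP := hwp.1
    by_cases hCU : (P : Subgroup G) ⊓ Subgroup.centralizer (U : Set G) ≤ U
    · have hZU : (P : Subgroup G) ⊓ Subgroup.centralizer ((P : Subgroup G) : Set G) ≤ U :=
        le_trans (inf_le_inf_left _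
          (Subgroup.centralizer_le (SetLike.coe_subset_coe.mpr hUP))) hCU
      apply final U hZU hwp
      refine Subgroup.mem_inf.mpr
        ⟨?_, Subgroup.commutator_mem_commutator (Subgroup.le_normalizer hy) hn⟩
      have e : ⁅y, n⁆ = y * (n * y⁻¹ * n⁻¹) := by simp only [commutatorElement_def]; group
      rw [e]
      apply hUP
      exact mul_mem hy ((Subgroup.mem_normalizer_iff.mp hn _).mp (inv_mem hy))
    · have hfn : SylIn p ((P : Subgroup G) ⊓ N(U)) (N(U)) := by
        have := hwp.2 0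
        unfold GoodAt twN at this
        rw [top_inf_eq] at this
        exact this
      have hCN : Subgroup.centralizer (U : Set G) ≤ N(U) := Subgroup.centralizer_le_normalizer _
      have hNC := normalizer_le_normalizer_centralizer U
      have hCs : SylIn p ((P : Subgroup G) ⊓ Subgroup.centralizer (U : Set G))
          (Subgroup.centralizer (U : Set G)) := by
        have h1 := sylIn_inf_of_normal hfn hCN hNC
        have e : (P : Subgroup G) ⊓ N(U) ⊓ Subgroup.centralizer (U : Set G)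
            = (P : Subgroup G) ⊓ Subgroup.centralizer (U : Set G) := by
          rw [inf_assoc, inf_eq_right.mpr hCN]
        rwa [e] at h1
      obtain ⟨c, hc, hcn⟩ := frattini_elt hCs (hNC hn)
      have hcnU : c * n ∈ N(U) := mul_mem (hCN hc) hn
      have e1 : ⁅y, c * n⁆ = ⁅y, n⁆ := by
        rw [comm_mul_right]
        have h2 : n * y * n⁻¹ ∈ U := (Subgroup.mem_normalizer_iff.mp hn y).mp hy
        have h3 : ⁅n * y * n⁻¹, c⁆ = 1 := by
          rw [commutatorElement_eq_one_iff_commute]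
          exact Subgroup.mem_centralizer_iff.mp hc _ h2
        rw [h3, mul_one]
      rw [← e1]
      have hlt : U < U ⊔ ((P : Subgroup G) ⊓ Subgroup.centralizer (U : Set G)) :=
        lt_of_le_of_ne le_sup_left (fun h => hCU (sup_eq_left.mp h.symm))
      have hUsP : U ⊔ ((P : Subgroup G) ⊓ Subgroup.centralizer (U : Set G)) ≤ (P : Subgroup G) :=
        sup_le hUP inf_le_left
      have hcj : cj(c * n, U ⊔ ((P : Subgroup G) ⊓ Subgroup.centralizer (U : Set G)))
          = U ⊔ ((P : Subgroup G) ⊓ Subgroup.centralizer (U : Set G)) := by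
        rw [Subgroup.map_sup, conjMap_of_mem_normalizer hcnU, conjMap_of_mem_normalizer hcn]
      have d := alperin (sylIn_top P) (𝓕 := {U | WPIn p W ⊤ (P : Subgroup G) U})
        (fun U hU => hU.1) hfam _ hUsP (c * n) (Subgroup.mem_top _) (by rw [hcj]; exact hUsP)
      refine d.comm_mem' L ?_ y
        ((le_sup_left : U ≤ U ⊔ ((P : Subgroup G) ⊓ Subgroup.centralizer (U : Set G))) hy)
      intro U' hU' hcard y' hy' n' _ hn'
      have h1 := card_lt_card_of_lt hlt
      have h2 : Nat.card U' ≤ Nat.card (P : Subgroup G) := Subgroup.card_le_of_le hU'.1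
      exact IH (Nat.card (P : Subgroup G) - Nat.card U') (by omega) U' hU' rfl y' hy' n' hn'
  apply sylow_inf_commutator_le P L
  intro x hx u hxu
  have hB : Subgroup.zpowers x ≤ (P : Subgroup G) := by rwa [Subgroup.zpowers_le]
  have hhB : cj(u, Subgroup.zpowers x) ≤ (P : Subgroup G) := by
    rw [Subgroup.map_le_iff_le_comap, Subgroup.zpowers_le]
    simpa [MulAut.conj_apply] using hxu
  have d := alperin (sylIn_top P) (𝓕 := {U | WPIn p W ⊤ (P : Subgroup G) U})
    (fun U hU => hU.1) hfam _ hB u (Subgroup.mem_top u) hhB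
  refine d.comm_mem L ?_ x (Subgroup.mem_zpowers x)
  intro U hU y hy n _ hn
  exact claim2 _ U hU rfl y hy n hn

end Cfsg.Agent.H39
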